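import Mathlib

set_option autoImplicit false

namespace Cfsg.Agent.Lib.Helper94.GL4

abbrev Mat := Matrix (Fin 4) (Fin 4) (ZMod 2)
abbrev GG := GL (Fin 4) (ZMod 2)

/-! ### kernel-friendly primitives -/

def force {α : Type} (n : ℕ) (f : ℕ → α) : α := Nat.casesOn n (f 0) (fun k => f (Nat.succ k))

theorem force_eq {α : Type} (n : ℕ) (f : ℕ → α) : force n f = f n := by cases n <;> rfl

def tb (m n : ℕ) : Bool := Nat.beq (Nat.land (Nat.shiftRight m n) 1) 1

theorem tb_eq (m n : ℕ) : tb m n = m.testBit n := by
  have h1 : Nat.land (Nat.shiftRight m n) 1 = (m >>> n) % 2 := Nat.and_one_is_mod _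
  have h2 : m.testBit n = decide ((m >>> n) % 2 = 1) := by
    rw [Nat.testBit_eq_decide_div_mod_eq, Nat.shiftRight_eq_div_pow]
  rw [tb, h1, h2]
  rcases Nat.mod_two_eq_zero_or_one (m >>> n) with h | h <;> rw [h] <;> rfl

noncomputable def allL (p : ℕ → Bool) (l : List ℕ) : Bool :=
  List.rec true (fun x _ ih => Bool.casesOn (p x) false ih) l

theorem allL_nil (p : ℕ → Bool) : allL p [] = true := rfl
theorem allL_cons (p : ℕ → Bool) (x : ℕ) (l : List ℕ) :
    allL p (x :: l) = Bool.casesOn (p x) false (allL p l) := rfl

theorem allL_iff (p : ℕ → Bool) (l : List ℕ) : allL p l = true ↔ ∀ x ∈ l, p x = true := by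
  induction l with
  | nil => simp [allL_nil]
  | cons x l ih =>
    rw [allL_cons]
    cases h : p x
    · simp [h]
    · simp [h, ih]

noncomputable def anyL (p : ℕ → Bool) (l : List ℕ) : Bool :=
  List.rec false (fun x _ ih => Bool.casesOn (p x) ih true) l

theorem anyL_nil (p : ℕ → Bool) : anyL p [] = false := rfl
theorem anyL_cons (p : ℕ → Bool) (x : ℕ) (l : List ℕ) :
    anyL p (x :: l) = Bool.casesOn (p x) (anyL p l) true := rfl

theorem anyL_iff (p : ℕ → Bool) (l : List ℕ) : anyL p l = true ↔ ∃ x ∈ l, p x = true := by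
  induction l with
  | nil => simp [anyL_nil]
  | cons x l ih =>
    rw [anyL_cons]
    cases h : p x
    · simp [h, ih]
    · simp [h]

def forceL {α : Type} : List ℕ → (List ℕ → α) → α
  | [], k => k []
  | x :: xs, k => force x fun y => forceL xs fun ys => k (y :: ys)

theorem forceL_eq {α : Type} (l : List ℕ) (k : List ℕ → α) : forceL l k = k l := by
  induction l generalizing k with
  | nil => rfl
  | cons x xs ih => rw [forceL, force_eq, ih]

theorem beq_true {a b : ℕ} (h : Nat.beq a b = true) : a = b := Nat.eq_of_beq_eq_true h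

/-! ### bit scans -/

/-- all set bits `k < 2 ^ d` of `t` satisfy `p (base + k)`. -/
noncomputable def allBits (p : ℕ → Bool) (d : ℕ) : ℕ → ℕ → Bool :=
  Nat.rec (fun t base => Nat.casesOn t true (fun _ => p base))
    (fun d ih t base => Nat.casesOn t true (fun t' =>
      force (Nat.pow 2 (Nat.pow 2 d)) fun M =>
        Bool.casesOn (ih (Nat.mod (Nat.succ t') M) base) false
          (force (Nat.add base (Nat.pow 2 d)) fun b1 => ih (Nat.div (Nat.succ t') M) b1))) d

theorem allBits_zero (p : ℕ → Bool) (t base : ℕ) :
    allBits p 0 t base = Nat.casesOn t true (fun _ => p base) := rfl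

theorem allBits_succ (p : ℕ → Bool) (d t base : ℕ) :
    allBits p (d + 1) t base = Nat.casesOn t true (fun t' =>
      force (Nat.pow 2 (Nat.pow 2 d)) fun M =>
        Bool.casesOn (allBits p d (Nat.mod (Nat.succ t') M) base) false
          (force (Nat.add base (Nat.pow 2 d)) fun b1 => allBits p d (Nat.div (Nat.succ t') M) b1)) := rfl

theorem allBits_spec (p : ℕ → Bool) (d : ℕ) : ∀ t base : ℕ, allBits p d t base = true →
    ∀ k < 2 ^ d, t.testBit k = true → p (base + k) = true := by
  induction d with
  | zero =>
    intro t base h k hk hb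
    have hk0 : k = 0 := by simpa using hk
    subst hk0
    rw [allBits_zero] at h
    cases t with
    | zero => simp at hb
    | succ t' => simpa using h
  | succ d ih =>
    intro t base h k hk hb
    rw [allBits_succ] at h
    cases t with
    | zero => simp at hb
    | succ t' =>
      simp only [force_eq] at h
      cases h1 : allBits p d (Nat.mod (Nat.succ t') (Nat.pow 2 (Nat.pow 2 d))) base with
      | false => rw [h1] at h; exact absurd h (by simp)
      | true =>
        rw [h1] at h
        have h2 : allBits p d (Nat.div (Nat.succ t') (Nat.pow 2 (Nat.pow 2 d))) (Nat.add base (Nat.pow 2 d)) = true := h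
        by_cases hkd : k < 2 ^ d
        · apply ih _ _ h1 k hkd
          have : (Nat.mod (Nat.succ t') (Nat.pow 2 (Nat.pow 2 d))).testBit k
              = (decide (k < 2 ^ d) && (Nat.succ t').testBit k) := Nat.testBit_mod_two_pow _ _ _
          rw [this, hb]; simp [hkd]
        · have hk2 : k - 2 ^ d < 2 ^ d := by
            rw [pow_succ] at hk; omega
          have := ih _ _ h2 (k - 2 ^ d) hk2 (by
            have e : (Nat.div (Nat.succ t') (Nat.pow 2 (Nat.pow 2 d))).testBit (k - 2 ^ d)
                = (Nat.succ t').testBit ((k - 2 ^ d) + 2 ^ d) := Nat.testBit_div_two_pow _ _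
            rw [e]
            have : (k - 2 ^ d) + 2 ^ d = k := by omega
            rw [this, hb])
          have e2 : Nat.add base (Nat.pow 2 d) + (k - 2 ^ d) = base + k := by
            show base + 2 ^ d + (k - 2 ^ d) = base + k
            omega
          rwa [e2] at this

/-- all `k < 2 ^ d` satisfy `p (base + k)`. -/
noncomputable def allUpto (p : ℕ → Bool) (d : ℕ) : ℕ → Bool :=
  Nat.rec (fun base => p base)
    (fun d ih base => Bool.casesOn (ih base) false (force (Nat.add base (Nat.pow 2 d)) ih)) d

theorem allUpto_zero (p : ℕ → Bool) (base : ℕ) : allUpto p 0 base = p base := rfl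

theorem allUpto_succ (p : ℕ → Bool) (d base : ℕ) : allUpto p (d + 1) base =
    Bool.casesOn (allUpto p d base) false (force (Nat.add base (Nat.pow 2 d)) (allUpto p d)) := rfl

theorem allUpto_spec (p : ℕ → Bool) (d : ℕ) : ∀ base : ℕ, allUpto p d base = true →
    ∀ k < 2 ^ d, p (base + k) = true := by
  induction d with
  | zero =>
    intro base h k hk
    have hk0 : k = 0 := by simpa using hk
    subst hk0
    simpa [allUpto_zero] using h
  | succ d ih =>
    intro base h k hk
    rw [allUpto_succ, force_eq] at h
    cases h1 : allUpto p d base with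
    | false => rw [h1] at h; exact absurd h (by simp)
    | true =>
      rw [h1] at h
      have h2 : allUpto p d (base + 2 ^ d) = true := h
      by_cases hkd : k < 2 ^ d
      · exact ih _ h1 k hkd
      · have hk2 : k - 2 ^ d < 2 ^ d := by
          rw [pow_succ] at hk; omega
        have := ih _ h2 (k - 2 ^ d) hk2
        have e2 : base + 2 ^ d + (k - 2 ^ d) = base + k := by omega
        rwa [e2] at this

/-- number of set bits. -/
noncomputable def cntBits (d : ℕ) : ℕ → ℕ :=
  Nat.rec (fun t => t)
    (fun d ih t => Nat.casesOn t 0 (fun t' =>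
      force (Nat.pow 2 (Nat.pow 2 d)) fun M =>
        Nat.add (ih (Nat.mod (Nat.succ t') M)) (ih (Nat.div (Nat.succ t') M)))) d

theorem cntBits_zero (t : ℕ) : cntBits 0 t = t := rfl

theorem cntBits_succ (d t : ℕ) : cntBits (d + 1) t =
    cntBits d (t % 2 ^ 2 ^ d) + cntBits d (t / 2 ^ 2 ^ d) := by
  have h : cntBits (d + 1) t = Nat.casesOn t 0 (fun t' =>
      force (Nat.pow 2 (Nat.pow 2 d)) fun M =>
        Nat.add (cntBits d (Nat.mod (Nat.succ t') M)) (cntBits d (Nat.div (Nat.succ t') M))) := rfl
  rw [h]
  cases t with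
  | zero =>
    have z : ∀ d, cntBits d 0 = 0 := by
      intro d
      cases d <;> rfl
    simp [z]
  | succ t' => simp only [force_eq]; rfl

theorem cntBits_spec (d : ℕ) : ∀ t : ℕ, t < 2 ^ 2 ^ d →
    cntBits d t = ((Finset.range (2 ^ d)).filter (fun k => t.testBit k = true)).card := by
  induction d with
  | zero =>
    intro t ht
    rw [cntBits_zero]
    have : t = 0 ∨ t = 1 := by simp at ht; omega
    rcases this with rfl | rfl <;> decide
  | succ d ih =>
    intro t ht
    have hM : 0 < 2 ^ 2 ^ d := by positivity
    have h1 : t % 2 ^ 2 ^ d < 2 ^ 2 ^ d := Nat.mod_lt _ hM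
    have h2 : t / 2 ^ 2 ^ d < 2 ^ 2 ^ d := by
      rw [Nat.div_lt_iff_lt_mul hM, ← pow_add]
      have : 2 ^ d + 2 ^ d = 2 ^ (d + 1) := by rw [pow_succ]; ring
      rwa [this]
    rw [cntBits_succ, ih _ h1, ih _ h2]
    have e : Finset.range (2 ^ (d + 1)) = Finset.range (2 ^ d) ∪
        (Finset.range (2 ^ d)).map (addLeftEmbedding (2 ^ d)) := by
      ext a
      simp only [Finset.mem_range, Finset.mem_union, Finset.mem_map, addLeftEmbedding_apply]
      have hp : 2 ^ (d + 1) = 2 ^ d + 2 ^ d := by rw [pow_succ]; ring
      rw [hp]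
      constructor
      · intro ha
        by_cases h : a < 2 ^ d
        · exact Or.inl h
        · exact Or.inr ⟨a - 2 ^ d, by omega, by omega⟩
      · rintro (h | ⟨b, hb, rfl⟩) <;> omega
    have hdisj : Disjoint (Finset.range (2 ^ d))
        ((Finset.range (2 ^ d)).map (addLeftEmbedding (2 ^ d))) := by
      rw [Finset.disjoint_left]
      intro a ha hb
      simp only [Finset.mem_map, Finset.mem_range, addLeftEmbedding_apply] at ha hb
      obtain ⟨b, _, rfl⟩ := hb
      omega
    rw [e, Finset.filter_union, Finset.card_union_of_disjoint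
      (Finset.disjoint_filter_filter hdisj), Finset.filter_map, Finset.card_map]
    congr 1
    · apply congrArg
      apply Finset.filter_congr
      intro k hk
      rw [Nat.testBit_mod_two_pow]
      simp [Finset.mem_range.1 hk]
    · apply congrArg
      apply Finset.filter_congr
      intro k _
      simp only [Function.comp, addLeftEmbedding_apply]
      rw [Nat.testBit_div_two_pow, add_comm]

/-- the mask of a list. -/
noncomputable def orMask (l : List ℕ) : ℕ → ℕ :=
  List.rec (fun m => m) (fun n _ ih m => force (Nat.lor m (Nat.shiftLeft 1 n)) ih) l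

theorem orMask_nil (m : ℕ) : orMask [] m = m := rfl
theorem orMask_cons (n : ℕ) (l : List ℕ) (m : ℕ) : orMask (n :: l) m = orMask l (m ||| (1 <<< n)) := by
  show force (Nat.lor m (Nat.shiftLeft 1 n)) (orMask l) = _
  rw [force_eq]; rfl

theorem testBit_orMask (l : List ℕ) : ∀ (m k : ℕ), (orMask l m).testBit k = true ↔ (m.testBit k = true ∨ k ∈ l) := by
  induction l with
  | nil => intro m k; simp [orMask_nil]
  | cons n l ih =>
    intro m k
    rw [orMask_cons, ih, Nat.testBit_or, Nat.one_shiftLeft, Nat.testBit_two_pow]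
    simp only [Bool.or_eq_true, decide_eq_true_eq, List.mem_cons]
    constructor
    · rintro ((h | h) | h)
      · exact Or.inl h
      · exact Or.inr (Or.inl h.symm)
      · exact Or.inr (Or.inr h)
    · rintro (h | h | h)
      · exact Or.inl (Or.inl h)
      · exact Or.inl (Or.inr h.symm)
      · exact Or.inr h

end Cfsg.Agent.Lib.Helper94.GL4
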