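import Mathlib
import Cfsg.Agent.Lib.Helper94.GL4Grp

set_option autoImplicit false

namespace Cfsg.Agent.Lib.Helper94.GL4

theorem lt_of_blt (T d : ℕ) (h : Nat.blt T (Nat.pow 2 (Nat.pow 2 d)) = true) : T < 2 ^ 2 ^ d :=
  Nat.le_of_ble_eq_true h

theorem TG_lt : TG < 2 ^ 2 ^ 16 := lt_of_blt TG 16 (by decide +kernel)

/-- counting codes. -/
theorem card_codes (T : ℕ) (hT : T < 2 ^ 2 ^ 16) :
    Nat.card {n : ℕ // n < 65536 ∧ tb T n = true} = cntBits 16 T := by
  rw [cntBits_spec 16 T hT]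
  rw [Nat.subtype_card ((Finset.range (2 ^ 16)).filter (fun k => T.testBit k = true))]
  intro x
  simp [tb_eq]

theorem code_surj (n : ℕ) (hn : n < 65536) (h : tb TG n = true) : ∃ g : GG, code g = n := by
  let f : GG → {n : ℕ // n < 65536 ∧ tb TG n = true} := fun g => ⟨code g, code_lt g, mem_TG g⟩
  have hf : Function.Injective f := fun a b hab => code_injective (congrArg Subtype.val hab)
  have : Finite {n : ℕ // n < 65536 ∧ tb TG n = true} :=
    Finite.of_injective (fun x => (⟨x.1, x.2.1⟩ : Fin 65536)) (fun a b hab => Subtype.ext (congrArg Fin.val hab))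
  have hb : Function.Bijective f := by
    apply hf.bijective_of_nat_card_le
    rw [card_codes TG TG_lt, card_GG, beq_true TG_cnt]
  obtain ⟨g, hg⟩ := hb.2 ⟨n, hn, h⟩
  exact ⟨g, congrArg Subtype.val hg⟩

theorem lt_of_tb {T n : ℕ} (hT : T < 2 ^ 2 ^ 16) (h : tb T n = true) : n < 65536 := by
  rw [tb_eq] at h
  by_contra hn
  have : T < 2 ^ n := lt_of_lt_of_le hT (Nat.pow_le_pow_right (by norm_num) (by norm_num; omega))
  rw [Nat.testBit_lt_two_pow this] at h
  exact absurd h (by simp)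

/-- the subgroup generated by the elements with codes in a list. -/
def Kc (S : List ℕ) : Subgroup GG := Subgroup.closure {g | code g ∈ S}

theorem Kc_le (K : Subgroup GG) (S : List ℕ) (h : ∀ s ∈ S, ∃ a ∈ K, code a = s) : Kc S ≤ K := by
  rw [Kc, Subgroup.closure_le]
  intro g hg
  obtain ⟨a, ha, hc⟩ := h _ hg
  rw [← code_injective hc]; exact ha

theorem mem_Kc_of_code {S : List ℕ} {g : GG} (h : code g ∈ S) : g ∈ Kc S := Subgroup.subset_closure h

/-- induction on the closure, by left multiplication by generators only. -/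
theorem Kc_induction {S : List ℕ} {P : GG → Prop} (h1 : P 1)
    (hm : ∀ s g, code s ∈ S → P g → P (s * g)) {g : GG} (hg : g ∈ Kc S) : P g := by
  have hg' : g ∈ (Kc S).toSubmonoid := hg
  rw [Kc, Subgroup.closure_toSubmonoid_of_finite] at hg'
  clear hg
  induction hg' using Submonoid.closure_induction_left with
  | one => exact h1
  | mul_left x hx y _ ih => exact hm x y hx ih

/-! ### words -/

noncomputable def getG (S : List ℕ) : ℕ → ℕ :=
  List.rec (fun _ => c1) (fun s _ ih i => Nat.casesOn i s (fun i' => ih i')) S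

theorem getG_nil (i : ℕ) : getG [] i = c1 := rfl
theorem getG_cons_zero (s : ℕ) (S : List ℕ) : getG (s :: S) 0 = s := rfl
theorem getG_cons_succ (s : ℕ) (S : List ℕ) (i : ℕ) : getG (s :: S) (i + 1) = getG S i := rfl

theorem getG_mem (S : List ℕ) : ∀ i, getG S i = c1 ∨ getG S i ∈ S := by
  induction S with
  | nil => intro i; exact Or.inl rfl
  | cons s S ih =>
    intro i
    cases i with
    | zero => exact Or.inr (by rw [getG_cons_zero]; simp)
    | succ i =>
      rw [getG_cons_succ]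
      rcases ih i with h | h
      · exact Or.inl h
      · exact Or.inr (List.mem_cons_of_mem _ h)

/-- evaluation of a word (digits in base `b`, digit `d ≥ 1` is the generator number `d - 1`). -/
noncomputable def evalW (S : List ℕ) (b : ℕ) (fuel : ℕ) : ℕ → ℕ :=
  Nat.rec (fun _ => c1) (fun _ ih w => Nat.casesOn w c1 (fun w' =>
    force (getG S (Nat.pred (Nat.mod (Nat.succ w') b))) fun s =>
      force (ih (Nat.div (Nat.succ w') b)) fun r => mulC s r)) fuel

theorem evalW_zero (S : List ℕ) (b w : ℕ) : evalW S b 0 w = c1 := rfl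
theorem evalW_succ (S : List ℕ) (b f w : ℕ) : evalW S b (f + 1) w = Nat.casesOn w c1 (fun w' =>
    force (getG S (Nat.pred (Nat.mod (Nat.succ w') b))) fun s =>
      force (evalW S b f (Nat.div (Nat.succ w') b)) fun r => mulC s r) := rfl

theorem evalW_mem (K : Subgroup GG) (S : List ℕ) (hS : ∀ s ∈ S, ∃ a ∈ K, code a = s) (b : ℕ) (f : ℕ) :
    ∀ w, ∃ a ∈ K, code a = evalW S b f w := by
  induction f with
  | zero => intro w; exact ⟨1, K.one_mem, code_one⟩
  | succ f ih =>
    intro w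
    rw [evalW_succ]
    cases w with
    | zero => exact ⟨1, K.one_mem, code_one⟩
    | succ w' =>
      simp only [force_eq]
      obtain ⟨r, hr, hrc⟩ := ih (Nat.div (Nat.succ w') b)
      rcases getG_mem S (Nat.pred (Nat.mod (Nat.succ w') b)) with h | h
      · exact ⟨1 * r, K.mul_mem K.one_mem hr, by rw [code_mul, code_one, hrc, h]⟩
      · obtain ⟨a, ha, hac⟩ := hS _ h
        exact ⟨a * r, K.mul_mem ha hr, by rw [code_mul, hac, hrc]⟩

/-! ### sifting through a chain of transversals -/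

noncomputable def evalAll (S : List ℕ) (b : ℕ) (W : List ℕ) : List ℕ :=
  List.rec [] (fun w _ ih => evalW S b 40 w :: ih) W

theorem evalAll_nil (S : List ℕ) (b : ℕ) : evalAll S b [] = [] := rfl
theorem evalAll_cons (S : List ℕ) (b w : ℕ) (W : List ℕ) :
    evalAll S b (w :: W) = evalW S b 40 w :: evalAll S b W := rfl

theorem mem_evalAll {S : List ℕ} {b : ℕ} {W : List ℕ} {n : ℕ} (h : n ∈ evalAll S b W) :
    ∃ w, n = evalW S b 40 w := by
  induction W with
  | nil => simp [evalAll_nil] at h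
  | cons w W ih =>
    rw [evalAll_cons, List.mem_cons] at h
    rcases h with h | h
    · exact ⟨w, h⟩
    · exact ih h

/-- pack a list of 16-bit numbers. -/
noncomputable def packV (L : List ℕ) : ℕ :=
  List.rec 0 (fun v _ ih => Nat.add v (Nat.mul 65536 ih)) L

theorem packV_nil : packV [] = 0 := rfl
theorem packV_cons (v : ℕ) (L : List ℕ) : packV (v :: L) = v + 65536 * packV L := rfl

def ext (V r : ℕ) : ℕ := Nat.land (Nat.shiftRight V (Nat.mul 16 r)) 65535

theorem ext_eq (V r : ℕ) : ext V r = V / 2 ^ (16 * r) % 65536 := by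
  have : ext V r = (V >>> (16 * r)) &&& (2 ^ 16 - 1) := rfl
  rw [this, Nat.and_two_pow_sub_one_eq_mod, Nat.shiftRight_eq_div_pow]

theorem ext_packV (L : List ℕ) (hL : ∀ v ∈ L, v < 65536) : ∀ r, ext (packV L) r = 0 ∨ ext (packV L) r ∈ L := by
  induction L with
  | nil => intro r; left; rw [ext_eq, packV_nil]; simp
  | cons v L ih =>
    intro r
    have hv := hL v (by simp)
    cases r with
    | zero =>
      right
      rw [ext_eq, packV_cons]
      have : (v + 65536 * packV L) / 2 ^ (16 * 0) % 65536 = v := by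
        simp only [Nat.mul_zero, pow_zero, Nat.div_one]
        omega
      rw [this]; simp
    | succ r =>
      have e : ext (packV (v :: L)) (r + 1) = ext (packV L) r := by
        rw [ext_eq, ext_eq, packV_cons]
        have h1 : 2 ^ (16 * (r + 1)) = 65536 * 2 ^ (16 * r) := by
          rw [Nat.mul_add, pow_add]; norm_num [mul_comm]
        rw [h1, ← Nat.div_div_eq_div_mul]
        have h2 : (v + 65536 * packV L) / 65536 = packV L := by omega
        rw [h2]
      rw [e]
      rcases ih (fun v hv => hL v (List.mem_cons_of_mem _ hv)) r with h | h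
      · exact Or.inl h
      · exact Or.inr (List.mem_cons_of_mem _ h)

/-- sift an element through four transversals. -/
def sift (V0 V1 V2 V3 n : ℕ) : ℕ :=
  force (ext V0 (Nat.land n 15)) fun v0 => force (mulC n v0) fun n1 =>
  force (ext V1 (Nat.land (Nat.shiftRight n1 4) 15)) fun v1 => force (mulC n1 v1) fun n2 =>
  force (ext V2 (Nat.land (Nat.shiftRight n2 8) 15)) fun v2 => force (mulC n2 v2) fun n3 =>
  force (ext V3 (Nat.land (Nat.shiftRight n3 12) 15)) fun v3 => mulC n3 v3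

theorem mulC_zero (n : ℕ) : mulC n 0 = 0 := by
  rw [mulC_eq]; simp

theorem zero_mulC (n : ℕ) : mulC 0 n = 0 := by
  rw [mulC_eq]; simp

theorem sift_spec (K : Subgroup GG) (V0 V1 V2 V3 : ℕ)
    (h0 : ∀ r, ext V0 r = 0 ∨ ∃ a ∈ K, code a = ext V0 r) (h1 : ∀ r, ext V1 r = 0 ∨ ∃ a ∈ K, code a = ext V1 r)
    (h2 : ∀ r, ext V2 r = 0 ∨ ∃ a ∈ K, code a = ext V2 r) (h3 : ∀ r, ext V3 r = 0 ∨ ∃ a ∈ K, code a = ext V3 r)
    (n : ℕ) (hn : n < 65536) (h : sift V0 V1 V2 V3 n = c1) : ∃ g ∈ K, code g = n := by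
  simp only [sift, force_eq] at h
  have hc : c1 ≠ 0 := by decide
  rcases h3 (Nat.land (Nat.shiftRight (mulC (mulC (mulC n (ext V0 (Nat.land n 15))) (ext V1 (Nat.land (Nat.shiftRight (mulC n (ext V0 (Nat.land n 15))) 4) 15))) (ext V2 (Nat.land (Nat.shiftRight (mulC (mulC n (ext V0 (Nat.land n 15))) (ext V1 (Nat.land (Nat.shiftRight (mulC n (ext V0 (Nat.land n 15))) 4) 15))) 8) 15))) 12) 15) with e3 | ⟨a3, ha3, e3⟩
  · rw [e3, mulC_zero] at h; exact absurd h.symm hc
  rw [← e3] at h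
  rcases h2 (Nat.land (Nat.shiftRight (mulC (mulC n (ext V0 (Nat.land n 15))) (ext V1 (Nat.land (Nat.shiftRight (mulC n (ext V0 (Nat.land n 15))) 4) 15))) 8) 15) with e2 | ⟨a2, ha2, e2⟩
  · rw [e2, mulC_zero, zero_mulC] at h; exact absurd h.symm hc
  rw [← e2] at h
  rcases h1 (Nat.land (Nat.shiftRight (mulC n (ext V0 (Nat.land n 15))) 4) 15) with e1 | ⟨a1, ha1, e1⟩
  · rw [e1, mulC_zero, zero_mulC, zero_mulC] at h; exact absurd h.symm hc
  rw [← e1] at h
  rcases h0 (Nat.land n 15) with e0 | ⟨a0, ha0, e0⟩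
  · rw [e0, mulC_zero, zero_mulC, zero_mulC, zero_mulC] at h; exact absurd h.symm hc
  rw [← e0] at h
  obtain ⟨M, rfl⟩ := codeM_surj n hn
  have hM : M * (a0 * a1 * a2 * a3 : GG).1 = 1 := by
    apply codeM_injective
    rw [codeM_one, ← h]
    simp only [Units.val_mul, ← mul_assoc, codeM_mul]
    rfl
  refine ⟨(a0 * a1 * a2 * a3)⁻¹, K.inv_mem (K.mul_mem (K.mul_mem (K.mul_mem ha0 ha1) ha2) ha3), ?_⟩
  generalize a0 * a1 * a2 * a3 = A at hM ⊢
  have : M = (A⁻¹ : GG).1 := by
    calc M = M * (A.1 * (A⁻¹ : GG).1) := by rw [Units.mul_inv]; simp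
      _ = (M * A.1) * (A⁻¹ : GG).1 := (mul_assoc _ _ _).symm
      _ = _ := by rw [hM, one_mul]
  rw [this]; rfl

structure Dat where
  S : List ℕ
  T : ℕ

def Valid (d : Dat) : Prop := d.T < 2 ^ 2 ^ 16 ∧ (∀ s ∈ d.S, tb d.T s = true) ∧
  (∀ g : GG, g ∈ Kc d.S ↔ tb d.T (code g) = true) ∧ ∀ n, tb d.T n = true → ∃ g : GG, code g = n

noncomputable def chkDat (d : Dat) (W0 W1 W2 W3 : List ℕ) : Bool :=
  force (packV (evalAll d.S 4 W0)) fun V0 => force (packV (evalAll d.S 4 W1)) fun V1 =>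
  force (packV (evalAll d.S 4 W2)) fun V2 => force (packV (evalAll d.S 4 W3)) fun V3 =>
  allBits (fun n => Bool.casesOn (allL (fun s => tb d.T (mulC s n)) d.S) false (Nat.beq (sift V0 V1 V2 V3 n) c1))
    16 d.T 0 && tb d.T c1 && allL (fun s => tb TG s && tb d.T s) d.S &&
    Nat.blt d.T (Nat.pow 2 (Nat.pow 2 16))

theorem valid_of_chk (d : Dat) (W0 W1 W2 W3 : List ℕ) (h : chkDat d W0 W1 W2 W3 = true) : Valid d := by
  simp only [chkDat, force_eq, Bool.and_eq_true] at h
  obtain ⟨⟨⟨h1, h2⟩, h3⟩, h4⟩ := h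
  have hlt : d.T < 2 ^ 2 ^ 16 := lt_of_blt _ 16 h4
  have h3' := (allL_iff _ _).1 h3
  have hS : ∀ s ∈ d.S, ∃ a ∈ Kc d.S, code a = s := by
    intro s hs
    have := h3' s hs
    rw [Bool.and_eq_true] at this
    obtain ⟨a, ha⟩ := code_surj s (lt_of_tb TG_lt this.1) this.1
    exact ⟨a, mem_Kc_of_code (by rw [ha]; exact hs), ha⟩
  have hV : ∀ W r, ext (packV (evalAll d.S 4 W)) r = 0 ∨ ∃ a ∈ Kc d.S, code a = ext (packV (evalAll d.S 4 W)) r := by
    intro W r
    have hall : ∀ v ∈ evalAll d.S 4 W, ∃ a ∈ Kc d.S, code a = v := by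
      intro v hv
      obtain ⟨w, rfl⟩ := mem_evalAll hv
      exact evalW_mem _ _ hS _ _ _
    rcases ext_packV (evalAll d.S 4 W) (fun v hv => by
      obtain ⟨a, _, ha⟩ := hall v hv
      rw [← ha]; exact code_lt a) r with h | h
    · exact Or.inl h
    · exact Or.inr (hall _ h)
  have hb : ∀ n, tb d.T n = true → (∀ s ∈ d.S, tb d.T (mulC s n) = true) ∧ ∃ g ∈ Kc d.S, code g = n := by
    intro n hn
    have hn' := lt_of_tb hlt hn
    have := allBits_spec _ _ _ _ h1 n (by simpa using hn') (by rw [← tb_eq]; exact hn)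
    rw [zero_add] at this
    cases h5 : allL (fun s => tb d.T (mulC s n)) d.S with
    | false => rw [h5] at this; exact absurd this (by simp)
    | true =>
      rw [h5] at this
      exact ⟨(allL_iff _ _).1 h5, sift_spec _ _ _ _ _ (hV W0) (hV W1) (hV W2) (hV W3) n hn' (beq_true this)⟩
  refine ⟨hlt, fun s hs => ?_, fun g => ⟨fun hg => ?_, fun hg => ?_⟩, fun n hn => ?_⟩
  · have := h3' s hs
    rw [Bool.and_eq_true] at this
    exact this.2
  · refine Kc_induction (P := fun g => tb d.T (code g) = true) ?_ ?_ hg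
    · rw [code_one]; exact h2
    · intro s g hs ih
      rw [code_mul]
      exact (hb _ ih).1 _ hs
  · obtain ⟨a, ha, hac⟩ := (hb _ hg).2
    rw [← code_injective hac]; exact ha
  · obtain ⟨a, _, hac⟩ := (hb _ hn).2
    exact ⟨a, hac⟩

theorem Valid.card {d : Dat} (h : Valid d) : Nat.card (Kc d.S) = cntBits 16 d.T := by
  rw [← card_codes d.T h.1]
  apply Nat.card_congr
  refine Equiv.ofBijective (fun g => ⟨code g.1, code_lt _, (h.2.2.1 _).1 g.2⟩) ⟨?_, ?_⟩
  · intro a b hab
    exact Subtype.ext (code_injective (congrArg Subtype.val hab))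
  · rintro ⟨n, hn, hb⟩
    obtain ⟨g, hg⟩ := h.2.2.2 n hb
    exact ⟨⟨g, (h.2.2.1 g).2 (by rw [hg]; exact hb)⟩, Subtype.ext hg⟩

end Cfsg.Agent.Lib.Helper94.GL4
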