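import Mathlib
import Cfsg.Agent.Lib.Helper94.GL4Chk
import Cfsg.Agent.Lib.Helper94.GL4Abs

set_option autoImplicit false

namespace Cfsg.Agent.Lib.Helper94.GL4

/-- the list of the set bits satisfying `p`, followed by `acc`. -/
noncomputable def filterBits (p : ℕ → Bool) (d : ℕ) : ℕ → ℕ → List ℕ → List ℕ :=
  Nat.rec (fun t base acc => Nat.casesOn t acc (fun _ => Bool.casesOn (p base) acc (base :: acc)))
    (fun d ih t base acc => Nat.casesOn t acc (fun t' =>
      force (Nat.pow 2 (Nat.pow 2 d)) fun M =>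
        ih (Nat.mod (Nat.succ t') M) base
          (force (Nat.add base (Nat.pow 2 d)) fun b1 => ih (Nat.div (Nat.succ t') M) b1 acc))) d

theorem filterBits_zero (p : ℕ → Bool) (t base : ℕ) (acc : List ℕ) :
    filterBits p 0 t base acc = Nat.casesOn t acc (fun _ => Bool.casesOn (p base) acc (base :: acc)) := rfl

theorem filterBits_succ (p : ℕ → Bool) (d t base : ℕ) (acc : List ℕ) :
    filterBits p (d + 1) t base acc = Nat.casesOn t acc (fun t' =>
      force (Nat.pow 2 (Nat.pow 2 d)) fun M =>
        filterBits p d (Nat.mod (Nat.succ t') M) base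
          (force (Nat.add base (Nat.pow 2 d)) fun b1 => filterBits p d (Nat.div (Nat.succ t') M) b1 acc)) := rfl

theorem filterBits_acc (p : ℕ → Bool) (d : ℕ) : ∀ (t base : ℕ) (acc : List ℕ), ∀ n ∈ acc,
    n ∈ filterBits p d t base acc := by
  induction d with
  | zero =>
    intro t base acc n hn
    rw [filterBits_zero]
    cases t with
    | zero => exact hn
    | succ t' =>
      cases h : p base
      · exact hn
      · exact List.mem_cons_of_mem _ hn
  | succ d ih =>
    intro t base acc n hn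
    rw [filterBits_succ]
    cases t with
    | zero => exact hn
    | succ t' =>
      simp only [force_eq]
      exact ih _ _ _ _ (ih _ _ _ _ hn)

theorem filterBits_spec (p : ℕ → Bool) (d : ℕ) : ∀ (t base : ℕ) (acc : List ℕ),
    ∀ k < 2 ^ d, t.testBit k = true → p (base + k) = true → base + k ∈ filterBits p d t base acc := by
  induction d with
  | zero =>
    intro t base acc k hk hb hp
    have hk0 : k = 0 := by simpa using hk
    subst hk0
    rw [filterBits_zero]
    cases t with
    | zero => simp at hb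
    | succ t' =>
      rw [add_zero] at hp ⊢
      simp only [hp]
      exact List.mem_cons_self
  | succ d ih =>
    intro t base acc k hk hb hp
    rw [filterBits_succ]
    cases t with
    | zero => simp at hb
    | succ t' =>
      simp only [force_eq]
      by_cases hkd : k < 2 ^ d
      · apply ih _ _ _ k hkd _ hp
        have : (Nat.mod (Nat.succ t') (Nat.pow 2 (Nat.pow 2 d))).testBit k
            = (decide (k < 2 ^ d) && (Nat.succ t').testBit k) := Nat.testBit_mod_two_pow _ _ _
        rw [this, hb]; simp [hkd]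
      · apply filterBits_acc
        have hk2 : k - 2 ^ d < 2 ^ d := by
          rw [pow_succ] at hk; omega
        have e2 : Nat.add base (Nat.pow 2 d) + (k - 2 ^ d) = base + k := by
          show base + 2 ^ d + (k - 2 ^ d) = base + k
          omega
        have := ih (Nat.div (Nat.succ t') (Nat.pow 2 (Nat.pow 2 d))) (Nat.add base (Nat.pow 2 d)) acc
          (k - 2 ^ d) hk2 (by
            have e : (Nat.div (Nat.succ t') (Nat.pow 2 (Nat.pow 2 d))).testBit (k - 2 ^ d)
                = (Nat.succ t').testBit ((k - 2 ^ d) + 2 ^ d) := Nat.testBit_div_two_pow _ _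
            rw [e]
            have : (k - 2 ^ d) + 2 ^ d = k := by omega
            rw [this, hb]) (by rw [e2]; exact hp)
        rwa [e2] at this

theorem mem_filterBits {p : ℕ → Bool} {T n : ℕ} (hT : T < 2 ^ 2 ^ 16) (h : tb T n = true) (hp : p n = true) :
    n ∈ filterBits p 16 T 0 [] := by
  have := filterBits_spec p 16 T 0 [] n (by simpa using lt_of_tb hT h) (by rw [← tb_eq]; exact h)
    (by rw [zero_add]; exact hp)
  rwa [zero_add] at this

noncomputable def all2N (q : ℕ → ℕ → Bool) (l : List ℕ) : List ℕ → Bool :=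
  List.rec (fun _ => true)
    (fun n _ ih c => List.casesOn c false (fun e es => Bool.casesOn (q n e) false (ih es))) l

theorem all2N_cons (q : ℕ → ℕ → Bool) (n : ℕ) (l c : List ℕ) : all2N q (n :: l) c =
    List.casesOn c false (fun e es => Bool.casesOn (q n e) false (all2N q l es)) := rfl

theorem all2N_spec (q : ℕ → ℕ → Bool) (l : List ℕ) : ∀ c, all2N q l c = true → ∀ n ∈ l, ∃ e ∈ c, q n e = true := by
  induction l with
  | nil => intro c _ n hn; simp at hn
  | cons a l ih =>
    intro c h n hn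
    rw [all2N_cons] at h
    cases c with
    | nil => exact absurd h (by simp)
    | cons e es =>
      cases hq : q a e with
      | false => simp only [hq] at h; exact absurd h (by simp)
      | true =>
        simp only [hq] at h
        rcases List.mem_cons.1 hn with rfl | hn
        · exact ⟨e, by simp, hq⟩
        · obtain ⟨e', he', hq'⟩ := ih es h n hn
          exact ⟨e', List.mem_cons_of_mem _ he', hq'⟩

def all2 {α β : Type} (q : α → β → Bool) : List α → List β → Bool
  | [], _ => true
  | _ :: _, [] => false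
  | a :: l, b :: c => q a b && all2 q l c

theorem all2_spec {α β : Type} (q : α → β → Bool) (l : List α) : ∀ c, all2 q l c = true →
    ∀ a ∈ l, ∃ b ∈ c, q a b = true := by
  induction l with
  | nil => intro c _ n hn; simp at hn
  | cons a l ih =>
    intro c h n hn
    cases c with
    | nil => simp [all2] at h
    | cons e es =>
      rw [all2, Bool.and_eq_true] at h
      rcases List.mem_cons.1 hn with rfl | hn
      · exact ⟨e, by simp, h.1⟩
      · obtain ⟨e', he', hq'⟩ := ih es h.2 n hn
        exact ⟨e', List.mem_cons_of_mem _ he', hq'⟩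

def getDat : List Dat → ℕ → Dat
  | [], _ => ⟨[], 0⟩
  | d :: _, 0 => d
  | _ :: l, i + 1 => getDat l i

theorem getDat_mem (l : List Dat) : ∀ i, getDat l i = ⟨[], 0⟩ ∨ getDat l i ∈ l := by
  induction l with
  | nil => intro i; left; rfl
  | cons d l ih =>
    intro i
    cases i with
    | zero => right; simp [getDat]
    | succ i =>
      rcases ih i with h | h
      · left; simpa [getDat] using h
      · right; simp only [getDat]; exact List.mem_cons_of_mem _ h

def eqS : List ℕ → ℕ → ℕ → ℕ → Bool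
  | [s0, s1, s2], a, b, c => Nat.beq s0 a && Nat.beq s1 b && Nat.beq s2 c
  | _, _, _, _ => false

theorem eqS_spec {S : List ℕ} {a b c : ℕ} (h : eqS S a b c = true) : S = [a, b, c] := by
  match S, h with
  | [s0, s1, s2], h =>
    simp only [eqS, Bool.and_eq_true] at h
    rw [beq_true h.1.1, beq_true h.1.2, beq_true h.2]

theorem tb_zero (n : ℕ) : tb 0 n = false := by rw [tb_eq]; simp

/-! ### first certificate: subgroups generated by `x` and one more element -/

noncomputable def chkE1 (fam : List Dat) (cx n e : ℕ) : Bool :=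
  Bool.casesOn (tb (getDat fam (Nat.land e 63)).T n) false
    (eqS (getDat fam (Nat.land e 63)).S cx
      (evalW [cx, n] 3 40 (Nat.land (Nat.shiftRight e 6) 281474976710655))
      (evalW [cx, n] 3 40 (Nat.shiftRight e 54)))

theorem chkE1_spec (fam : List Dat) (hv : ∀ d ∈ fam, Valid d) (cx e : ℕ) (x g : GG) (hx : code x = cx)
    (h : chkE1 fam cx (code g) e = true) :
    ∃ d ∈ fam, g ∈ Kc d.S ∧ Kc d.S ≤ Subgroup.closure {x, g} := by
  unfold chkE1 at h
  generalize getDat fam (Nat.land e 63) = d, hd : getDat_mem fam (Nat.land e 63) = hmem at h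
  clear hd
  cases ht : tb d.T (code g) with
  | false => simp only [ht] at h; exact absurd h (by simp)
  | true =>
    simp only [ht] at h
    have hdm : d ∈ fam := by
      rcases hmem with h0 | h0
      · rw [h0] at ht; rw [tb_zero] at ht; exact absurd ht (by simp)
      · exact h0
    refine ⟨d, hdm, ((hv d hdm).2.2.1 g).2 ht, ?_⟩
    have hS : ∀ s ∈ [cx, code g], ∃ a ∈ Subgroup.closure {x, g}, code a = s := by
      intro s hs
      simp only [List.mem_cons, List.not_mem_nil, or_false] at hs
      rcases hs with rfl | rfl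
      · exact ⟨x, Subgroup.subset_closure (by simp), hx⟩
      · exact ⟨g, Subgroup.subset_closure (by simp), rfl⟩
    apply Kc_le
    rw [eqS_spec h]
    intro s hs
    simp only [List.mem_cons, List.not_mem_nil, or_false] at hs
    rcases hs with rfl | rfl | rfl
    · exact ⟨x, Subgroup.subset_closure (by simp), hx⟩
    · exact evalW_mem _ _ hS _ _ _
    · exact evalW_mem _ _ hS _ _ _

noncomputable def chkF1 (fam : List Dat) (cx : ℕ) (cand : ℕ → Bool) (cert : List ℕ) : Bool :=
  all2N (chkE1 fam cx) (filterBits cand 16 TG 0 []) cert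

theorem F1_sound (fam : List Dat) (hv : ∀ d ∈ fam, Valid d) (cx : ℕ) (cand : ℕ → Bool) (cert : List ℕ)
    (h : chkF1 fam cx cand cert = true) (x g : GG) (hx : code x = cx) (hg : cand (code g) = true) :
    ∃ d ∈ fam, g ∈ Kc d.S ∧ Kc d.S ≤ Subgroup.closure {x, g} := by
  obtain ⟨e, -, he⟩ := all2N_spec _ _ _ h (code g) (mem_filterBits TG_lt (mem_TG g) hg)
  exact chkE1_spec fam hv cx e x g hx he

/-! ### second certificate: joins -/

noncomputable def chkE2 (fam : List Dat) (di dj : Dat) (e : ℕ) : Bool :=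
  forceL (di.S ++ dj.S) fun S =>
  allL (tb (getDat fam (Nat.land e 63)).T) S &&
    (eqS (getDat fam (Nat.land e 63)).S
      (evalW S 7 40 (Nat.land (Nat.shiftRight e 6) 281474976710655))
      (evalW S 7 40 (Nat.land (Nat.shiftRight e 54) 281474976710655))
      (evalW S 7 40 (Nat.shiftRight e 102)))

theorem chkE2_spec (fam : List Dat) (hv : ∀ d ∈ fam, Valid d) (di dj : Dat) (hi : Valid di) (hj : Valid dj)
    (hne : di.S ≠ []) (e : ℕ) (h : chkE2 fam di dj e = true) :
    ∃ d ∈ fam, Kc di.S ≤ Kc d.S ∧ Kc dj.S ≤ Kc d.S ∧ Kc d.S ≤ Kc di.S ⊔ Kc dj.S := by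
  rw [chkE2, forceL_eq, Bool.and_eq_true] at h
  generalize getDat fam (Nat.land e 63) = d, hd : getDat_mem fam (Nat.land e 63) = hmem at h
  clear hd
  obtain ⟨h1, h2⟩ := h
  have h1' := (allL_iff _ _).1 h1
  have hdm : d ∈ fam := by
    rcases hmem with h0 | h0
    · exfalso
      obtain ⟨s, hs⟩ := List.exists_mem_of_ne_nil _ hne
      have := h1' s (List.mem_append_left _ hs)
      rw [h0, tb_zero] at this
      exact absurd this (by simp)
    · exact h0
  have hd := hv d hdm
  have hin : ∀ s, tb d.T s = true → ∃ a ∈ Kc d.S, code a = s := by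
    intro s hs
    obtain ⟨a, ha⟩ := hd.2.2.2 s hs
    exact ⟨a, (hd.2.2.1 a).2 (by rw [ha]; exact hs), ha⟩
  refine ⟨d, hdm, Kc_le _ _ fun s hs => hin s (h1' s (List.mem_append_left _ hs)),
    Kc_le _ _ fun s hs => hin s (h1' s (List.mem_append_right _ hs)), ?_⟩
  have hS : ∀ s ∈ di.S ++ dj.S, ∃ a ∈ Kc di.S ⊔ Kc dj.S, code a = s := by
    intro s hs
    rcases List.mem_append.1 hs with hs | hs
    · obtain ⟨a, ha⟩ := hi.2.2.2 s (hi.2.1 s hs)
      exact ⟨a, (le_sup_left : Kc di.S ≤ _) (mem_Kc_of_code (by rw [ha]; exact hs)), ha⟩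
    · obtain ⟨a, ha⟩ := hj.2.2.2 s (hj.2.1 s hs)
      exact ⟨a, (le_sup_right : Kc dj.S ≤ _) (mem_Kc_of_code (by rw [ha]; exact hs)), ha⟩
  apply Kc_le
  rw [eqS_spec h2]
  intro s hs
  simp only [List.mem_cons, List.not_mem_nil, or_false] at hs
  rcases hs with rfl | rfl | rfl <;> exact evalW_mem _ _ hS _ _ _

noncomputable def chkF2 (fam : List Dat) (cert : List (List ℕ)) : Bool :=
  all2 (fun di row => all2 (fun dj e => chkE2 fam di dj e) fam row) fam cert

theorem F2_sound (fam : List Dat) (hv : ∀ d ∈ fam, Valid d) (hne : ∀ d ∈ fam, d.S ≠ []) (cert : List (List ℕ))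
    (h : chkF2 fam cert = true) (di : Dat) (hi : di ∈ fam) (dj : Dat) (hj : dj ∈ fam) :
    ∃ d ∈ fam, Kc di.S ≤ Kc d.S ∧ Kc dj.S ≤ Kc d.S ∧ Kc d.S ≤ Kc di.S ⊔ Kc dj.S := by
  obtain ⟨row, -, hrow⟩ := all2_spec _ _ _ h di hi
  obtain ⟨e, -, he⟩ := all2_spec _ _ _ hrow dj hj
  exact chkE2_spec fam hv di dj (hv di hi) (hv dj hj) (hne di hi) e he

/-! ### candidates -/

def pow5 (n : ℕ) : ℕ := force (mulC n n) fun n2 => force (mulC n2 n2) fun n4 => mulC n4 n
def pow7 (n : ℕ) : ℕ :=
  force (mulC n n) fun n2 => force (mulC n2 n2) fun n4 => force (mulC n4 n2) fun n6 => mulC n6 n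

theorem code_pow5 (g : GG) : code (g ^ 5) = pow5 (code g) := by
  have : g ^ 5 = ((g * g) * (g * g)) * g := by simp only [pow_succ, pow_zero, one_mul, mul_assoc]
  rw [this]; simp only [pow5, force_eq, code_mul]

theorem code_pow7 (g : GG) : code (g ^ 7) = pow7 (code g) := by
  have : g ^ 7 = (((g * g) * (g * g)) * (g * g)) * g := by simp only [pow_succ, pow_zero, one_mul, mul_assoc]
  rw [this]; simp only [pow7, force_eq, code_mul]

noncomputable def isZ (cx : ℕ) (XP : List ℕ) (n : ℕ) : Bool :=
  force (mulC n cx) fun m => anyL (fun y => Nat.beq (mulC y n) m) XP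

theorem isZ_spec (d0 : Dat) (h0 : Valid d0) (cx : ℕ) (hc : cx ∈ d0.S) (x g : GG) (hx : code x = cx)
    (hg : g * x * g⁻¹ ∈ Subgroup.zpowers x) :
    isZ cx (filterBits (fun _ => true) 16 d0.T 0 []) (code g) = true := by
  rw [isZ, force_eq, anyL_iff]
  have hxK : x ∈ Kc d0.S := mem_Kc_of_code (by rw [hx]; exact hc)
  have hy : g * x * g⁻¹ ∈ Kc d0.S := (Subgroup.zpowers_le.2 hxK) hg
  refine ⟨code (g * x * g⁻¹), mem_filterBits h0.1 ((h0.2.2.1 _).1 hy) rfl, ?_⟩
  rw [← hx, ← code_mul, ← code_mul]
  have : g * x * g⁻¹ * g = g * x := by group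
  rw [this]
  exact Nat.beq_refl _

/-- the classification of the overgroups from the two certificates. -/
theorem classify (p : ℕ) [Fact p.Prime] (hp : ¬ p ^ 2 ∣ 20160) (fam : List Dat) (hv : ∀ d ∈ fam, Valid d)
    (hne : ∀ d ∈ fam, d.S ≠ []) (cx : ℕ) (cand : ℕ → Bool) (cert1 : List ℕ) (cert2 : List (List ℕ))
    (h1 : chkF1 fam cx cand cert1 = true) (h2 : chkF2 fam cert2 = true) (x : GG) (hx : code x = cx)
    (ox : orderOf x = p)
    (hcand : ∀ g : GG, (orderOf g = p ∨ g * x * g⁻¹ ∈ Subgroup.zpowers x) → cand (code g) = true)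
    (H : Subgroup GG) (hxH : x ∈ H) : ∃ d ∈ fam, H = Kc d.S := by
  have := overgroup_classify p (by rw [card_GG]; exact hp) x ox {F | ∃ d ∈ fam, F = Kc d.S}
    (by
      intro g hg
      obtain ⟨d, hd, h3, h4⟩ := F1_sound fam hv cx cand cert1 h1 x g hx (hcand g hg)
      exact ⟨_, ⟨d, hd, rfl⟩, h3, h4⟩)
    (by
      rintro A ⟨di, hi, rfl⟩ B ⟨dj, hj, rfl⟩
      obtain ⟨d, hd, h3⟩ := F2_sound fam hv hne cert2 h2 di hi dj hj
      exact ⟨_, ⟨d, hd, rfl⟩, h3⟩) H hxH
  exact this

end Cfsg.Agent.Lib.Helper94.GL4
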