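import Mathlib
import Cfsg.Agent.Lib.Helper94.GL4Base

set_option autoImplicit false

namespace Cfsg.Agent.Lib.Helper94.GL4

def rho4 (a b c d : ZMod 2) : ℕ := a.val + 2 * b.val + 4 * c.val + 8 * d.val

def nib (p0 p1 p2 p3 : ℕ) : ℕ := p0 + 16 * (p1 + 16 * (p2 + 16 * p3))

def codeM (M : Mat) : ℕ :=
  nib (rho4 (M 0 0) (M 0 1) (M 0 2) (M 0 3)) (rho4 (M 1 0) (M 1 1) (M 1 2) (M 1 3))
    (rho4 (M 2 0) (M 2 1) (M 2 2) (M 2 3)) (rho4 (M 3 0) (M 3 1) (M 3 2) (M 3 3))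

def mulC (a b : ℕ) : ℕ :=
  Nat.xor (Nat.xor (Nat.xor (Nat.mul (Nat.land a 0x1111) (Nat.land b 15))
    (Nat.mul (Nat.land (Nat.shiftRight a 1) 0x1111) (Nat.land (Nat.shiftRight b 4) 15)))
    (Nat.mul (Nat.land (Nat.shiftRight a 2) 0x1111) (Nat.land (Nat.shiftRight b 8) 15)))
    (Nat.mul (Nat.land (Nat.shiftRight a 3) 0x1111) (Nat.land (Nat.shiftRight b 12) 15))

theorem mulC_eq (a b : ℕ) : mulC a b =
  (((a >>> 0) &&& 0x1111) * (b &&& 15)) ^^^ (((a >>> 1) &&& 0x1111) * ((b >>> 4) &&& 15)) ^^^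
  (((a >>> 2) &&& 0x1111) * ((b >>> 8) &&& 15)) ^^^ (((a >>> 3) &&& 0x1111) * ((b >>> 12) &&& 15)) := rfl

def c1 : ℕ := 33825

theorem rho4_lt (a b c d : ZMod 2) : rho4 a b c d < 16 := by
  revert a b c d; decide

theorem xor_step (p q P Q : ℕ) (hp : p < 16) (hq : q < 16) :
    (p + 16 * P) ^^^ (q + 16 * Q) = (p ^^^ q) + 16 * (P ^^^ Q) := by
  have hpq : p ^^^ q < 2 ^ 4 := Nat.xor_lt_two_pow (by simpa using hp) (by simpa using hq)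
  apply Nat.eq_of_testBit_eq
  intro i
  have e1 : p + 16 * P = 2 ^ 4 * P + p := by ring
  have e2 : q + 16 * Q = 2 ^ 4 * Q + q := by ring
  have e3 : (p ^^^ q) + 16 * (P ^^^ Q) = 2 ^ 4 * (P ^^^ Q) + (p ^^^ q) := by ring
  rw [e1, e2, e3, Nat.testBit_xor, Nat.testBit_two_pow_mul_add _ (by simpa using hp),
    Nat.testBit_two_pow_mul_add _ (by simpa using hq), Nat.testBit_two_pow_mul_add _ hpq]
  split_ifs <;> simp [Nat.testBit_xor]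

theorem nib_xor (p0 p1 p2 p3 q0 q1 q2 q3 : ℕ) (h0 : p0 < 16) (h1 : p1 < 16) (h2 : p2 < 16)
    (k0 : q0 < 16) (k1 : q1 < 16) (k2 : q2 < 16) :
    nib p0 p1 p2 p3 ^^^ nib q0 q1 q2 q3 = nib (p0 ^^^ q0) (p1 ^^^ q1) (p2 ^^^ q2) (p3 ^^^ q3) := by
  unfold nib
  rw [xor_step _ _ _ _ h0 k0, xor_step _ _ _ _ h1 k1, xor_step _ _ _ _ h2 k2]

def bt (j r : ℕ) : ℕ := Nat.land (Nat.shiftRight r j) 1

def r16 : List ℕ := [0, 1, 2, 3, 4, 5, 6, 7, 8, 9, 10, 11, 12, 13, 14, 15]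

theorem mem_r16 {k : ℕ} (h : k < 16) : k ∈ r16 := by
  unfold r16; interval_cases k <;> simp

theorem colmask_chk : (allL (fun j => allL (fun r0 => allL (fun r1 => allL (fun r2 => allL (fun r3 =>
    Nat.beq (Nat.land (Nat.shiftRight (nib r0 r1 r2 r3) j) 0x1111) (nib (bt j r0) (bt j r1) (bt j r2) (bt j r3)))
    r16) r16) r16) r16) [0, 1, 2, 3]) = true := by
  decide +kernel

theorem colmask (j : ℕ) (hj : j ∈ [0, 1, 2, 3]) (r0 r1 r2 r3 : ℕ) (h0 : r0 < 16) (h1 : r1 < 16) (h2 : r2 < 16)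
    (h3 : r3 < 16) :
    ((nib r0 r1 r2 r3) >>> j) &&& 0x1111 = nib (bt j r0) (bt j r1) (bt j r2) (bt j r3) :=
  beq_true ((allL_iff _ _).1 ((allL_iff _ _).1 ((allL_iff _ _).1 ((allL_iff _ _).1 ((allL_iff _ _).1 colmask_chk j hj)
    r0 (mem_r16 h0)) r1 (mem_r16 h1)) r2 (mem_r16 h2)) r3 (mem_r16 h3))

theorem rowsel_chk : (allL (fun r0 => allL (fun r1 => allL (fun r2 => allL (fun r3 =>
    Nat.beq (Nat.land (nib r0 r1 r2 r3) 15) r0 && Nat.beq (Nat.land (Nat.shiftRight (nib r0 r1 r2 r3) 4) 15) r1 &&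
    Nat.beq (Nat.land (Nat.shiftRight (nib r0 r1 r2 r3) 8) 15) r2 &&
    Nat.beq (Nat.land (Nat.shiftRight (nib r0 r1 r2 r3) 12) 15) r3)
    r16) r16) r16) r16) = true := by
  decide +kernel

theorem rowsel (r0 r1 r2 r3 : ℕ) (h0 : r0 < 16) (h1 : r1 < 16) (h2 : r2 < 16) (h3 : r3 < 16) :
    (nib r0 r1 r2 r3) &&& 15 = r0 ∧ ((nib r0 r1 r2 r3) >>> 4) &&& 15 = r1 ∧
    ((nib r0 r1 r2 r3) >>> 8) &&& 15 = r2 ∧ ((nib r0 r1 r2 r3) >>> 12) &&& 15 = r3 := by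
  have := (allL_iff _ _).1 ((allL_iff _ _).1 ((allL_iff _ _).1 ((allL_iff _ _).1 rowsel_chk
    r0 (mem_r16 h0)) r1 (mem_r16 h1)) r2 (mem_r16 h2)) r3 (mem_r16 h3)
  simp only [Bool.and_eq_true] at this
  exact ⟨beq_true this.1.1.1, beq_true this.1.1.2, beq_true this.1.2, beq_true this.2⟩

theorem nib_mul (p0 p1 p2 p3 v : ℕ) : nib p0 p1 p2 p3 * v = nib (p0 * v) (p1 * v) (p2 * v) (p3 * v) := by
  unfold nib; ring

theorem bt_rho : ∀ a b c d : ZMod 2, bt 0 (rho4 a b c d) = a.val ∧ bt 1 (rho4 a b c d) = b.val ∧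
    bt 2 (rho4 a b c d) = c.val ∧ bt 3 (rho4 a b c d) = d.val := by decide

theorem rho_smul : ∀ t a b c d : ZMod 2, t.val * rho4 a b c d = rho4 (t * a) (t * b) (t * c) (t * d) := by
  decide

theorem rho_add : ∀ a b c d a' b' c' d' : ZMod 2,
    rho4 a b c d ^^^ rho4 a' b' c' d' = rho4 (a + a') (b + b') (c + c') (d + d') := by
  decide

theorem codeM_mul (M N : Mat) : codeM (M * N) = mulC (codeM M) (codeM N) := by
  have hl := rho4_lt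
  rw [mulC_eq]
  obtain ⟨s0, s1, s2, s3⟩ := rowsel _ _ _ _ (hl (N 0 0) (N 0 1) (N 0 2) (N 0 3)) (hl (N 1 0) (N 1 1) (N 1 2) (N 1 3))
    (hl (N 2 0) (N 2 1) (N 2 2) (N 2 3)) (hl (N 3 0) (N 3 1) (N 3 2) (N 3 3))
  have cm := fun j hj => colmask j hj _ _ _ _ (hl (M 0 0) (M 0 1) (M 0 2) (M 0 3)) (hl (M 1 0) (M 1 1) (M 1 2) (M 1 3))
    (hl (M 2 0) (M 2 1) (M 2 2) (M 2 3)) (hl (M 3 0) (M 3 1) (M 3 2) (M 3 3))
  have e0 := cm 0 (by simp)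
  have e1 := cm 1 (by simp)
  have e2 := cm 2 (by simp)
  have e3 := cm 3 (by simp)
  have hM : codeM M = nib (rho4 (M 0 0) (M 0 1) (M 0 2) (M 0 3)) (rho4 (M 1 0) (M 1 1) (M 1 2) (M 1 3))
    (rho4 (M 2 0) (M 2 1) (M 2 2) (M 2 3)) (rho4 (M 3 0) (M 3 1) (M 3 2) (M 3 3)) := rfl
  have hN : codeM N = nib (rho4 (N 0 0) (N 0 1) (N 0 2) (N 0 3)) (rho4 (N 1 0) (N 1 1) (N 1 2) (N 1 3))
    (rho4 (N 2 0) (N 2 1) (N 2 2) (N 2 3)) (rho4 (N 3 0) (N 3 1) (N 3 2) (N 3 3)) := rfl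
  rw [hM, hN, e0, e1, e2, e3, s0, s1, s2, s3]
  simp only [(bt_rho _ _ _ _).1, (bt_rho _ _ _ _).2.1, (bt_rho _ _ _ _).2.2.1, (bt_rho _ _ _ _).2.2.2, nib_mul,
    rho_smul]
  rw [nib_xor _ _ _ _ _ _ _ _ (hl _ _ _ _) (hl _ _ _ _) (hl _ _ _ _) (hl _ _ _ _) (hl _ _ _ _) (hl _ _ _ _)]
  simp only [rho_add]
  rw [nib_xor _ _ _ _ _ _ _ _ (hl _ _ _ _) (hl _ _ _ _) (hl _ _ _ _) (hl _ _ _ _) (hl _ _ _ _) (hl _ _ _ _)]
  simp only [rho_add]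
  rw [nib_xor _ _ _ _ _ _ _ _ (hl _ _ _ _) (hl _ _ _ _) (hl _ _ _ _) (hl _ _ _ _) (hl _ _ _ _) (hl _ _ _ _)]
  simp only [rho_add]
  unfold codeM
  simp only [Matrix.mul_apply, Fin.sum_univ_four]

end Cfsg.Agent.Lib.Helper94.GL4
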