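import Mathlib
import Cfsg.Agent.Lib.Helper94.GL4Cert

set_option autoImplicit false

namespace Cfsg.Agent.Lib.Helper94.GL4

theorem Valid.exists_mem {d : Dat} (v : Valid d) {n : ℕ} (h : tb d.T n = true) : ∃ a ∈ Kc d.S, code a = n := by
  obtain ⟨a, ha⟩ := v.2.2.2 n h
  exact ⟨a, (v.2.2.1 a).2 (by rw [ha]; exact h), ha⟩

theorem Valid.le_of {dU dF : Dat} (vF : Valid dF) (h : allL (tb dF.T) dU.S = true) : Kc dU.S ≤ Kc dF.S :=
  Kc_le _ _ fun s hs => vF.exists_mem ((allL_iff _ _).1 h s hs)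

/-! ### subgroups with a normal subgroup of odd order or of order a power of two -/

noncomputable def chkBad (dF dR : Dat) (Sinv : List ℕ) : Bool :=
  allL (tb dF.T) dR.S && anyL (fun r => !Nat.beq r c1) dR.S &&
  all2N (fun s s' => Nat.beq (mulC s s') c1 && Nat.blt s' 65536 &&
    allL (fun r => tb dR.T (mulC (mulC s r) s')) dR.S) dF.S Sinv

theorem bad_sound (dF dR : Dat) (vF : Valid dF) (vR : Valid dR) (Sinv : List ℕ)
    (h : chkBad dF dR Sinv = true) (k : ℕ) (hk : Nat.beq (cntBits 16 dR.T) k = true)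
    (hk' : (∃ j, k = 2 ^ j) ∨ k.Coprime 2) : ¬ Good (Kc dF.S) := by
  simp only [chkBad, Bool.and_eq_true] at h
  obtain ⟨⟨h1, h2⟩, h3⟩ := h
  apply not_good_of_normal (Kc dF.S) (Kc dR.S) (vF.le_of h1)
  · obtain ⟨r, hr, hr1⟩ := (anyL_iff _ _).1 h2
    obtain ⟨a, ha, hac⟩ := vR.exists_mem (vR.2.1 r hr)
    intro hbot
    rw [hbot, Subgroup.mem_bot] at ha
    rw [ha, code_one] at hac
    rw [← hac] at hr1
    simp at hr1
  · have hgen : ∀ s : GG, code s ∈ dF.S → ∀ y ∈ Kc dR.S, s * y * s⁻¹ ∈ Kc dR.S := by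
      intro s hs
      obtain ⟨s', -, hs'⟩ := all2N_spec _ _ _ h3 _ hs
      simp only [Bool.and_eq_true] at hs'
      obtain ⟨⟨e1, e2⟩, e3⟩ := hs'
      have hinv : code s⁻¹ = s' := code_inv_of s s' (Nat.le_of_ble_eq_true e2) (beq_true e1)
      have hle : Kc dR.S ≤ (Kc dR.S).comap (MulAut.conj s).toMonoidHom := by
        rw [Kc, Subgroup.closure_le]
        intro r hr
        show s * r * s⁻¹ ∈ Kc dR.S
        rw [vR.2.2.1, code_mul, code_mul, hinv]
        exact (allL_iff _ _).1 e3 _ hr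
      intro y hy
      exact hle hy
    intro f hf
    refine Kc_induction (P := fun f => ∀ y ∈ Kc dR.S, f * y * f⁻¹ ∈ Kc dR.S) ?_ ?_ hf
    · intro y hy; simpa using hy
    · intro s g hs ih y hy
      have e : s * g * y * (s * g)⁻¹ = s * (g * y * g⁻¹) * s⁻¹ := by group
      rw [e]
      exact hgen s hs _ (ih y hy)
  · rw [vR.card, beq_true hk]; exact hk'

/-! ### elements of order seven -/

theorem has7_sound (d : Dat) (v : Valid d) (w : ℕ)
    (h : (tb d.T w && Nat.beq (pow7 w) c1 && !Nat.beq w c1) = true) : 7 ∣ Nat.card (Kc d.S) := by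
  simp only [Bool.and_eq_true] at h
  obtain ⟨⟨h1, h2⟩, h3⟩ := h
  obtain ⟨a, ha, hac⟩ := v.exists_mem h1
  have h7 : a ^ 7 = 1 := by
    apply code_injective
    rw [code_pow7, hac, code_one]; exact beq_true h2
  have hne : a ≠ 1 := by
    rintro rfl
    rw [code_one] at hac
    rw [← hac] at h3
    simp at h3
  have := Fact.mk (by norm_num : Nat.Prime 7)
  have ho : orderOf a = 7 := orderOf_eq_prime h7 hne
  have : orderOf (⟨a, ha⟩ : Kc d.S) = 7 := by rw [← ho]; exact Subgroup.orderOf_mk a ha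
  rw [← this]
  exact orderOf_dvd_natCard _

/-! ### symmetric and alternating groups -/

noncomputable def chkCore (dF dU : Dat) (reps : List ℕ) : Bool :=
  allL (tb dF.T) dU.S &&
  allL (fun e => tb dF.T (Nat.land e 65535) && Nat.beq (mulC (Nat.land e 65535) (Nat.shiftRight e 16)) c1 &&
    Nat.blt (Nat.shiftRight e 16) 65536) reps &&
  allBits (fun u => Bool.casesOn (Nat.beq u c1)
    (anyL (fun e => !tb dU.T (mulC (mulC (Nat.land e 65535) u) (Nat.shiftRight e 16))) reps) true) 16 dU.T 0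

theorem core_sound (dF dU : Dat) (vF : Valid dF) (vU : Valid dU) (reps : List ℕ)
    (h : chkCore dF dU reps = true) : Kc dU.S ≤ Kc dF.S ∧
    ∀ u ∈ Kc dU.S, u ∈ Kc dF.S → (∀ f ∈ Kc dF.S, f * u * f⁻¹ ∈ Kc dU.S) → u = 1 := by
  simp only [chkCore, Bool.and_eq_true] at h
  obtain ⟨⟨h1, h2⟩, h3⟩ := h
  refine ⟨vF.le_of h1, ?_⟩
  intro u hu _ hall
  have hb := (vU.2.2.1 u).1 hu
  have := allBits_spec _ _ _ _ h3 (code u) (by simpa using code_lt u) (by rw [← tb_eq]; exact hb)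
  rw [zero_add] at this
  cases hc : Nat.beq (code u) c1 with
  | true =>
    apply code_injective
    rw [code_one]; exact beq_true hc
  | false =>
    exfalso
    simp only [hc] at this
    obtain ⟨e, he, hne⟩ := (anyL_iff _ _).1 this
    have h4 := (allL_iff _ _).1 h2 e he
    simp only [Bool.and_eq_true] at h4
    obtain ⟨⟨e1, e2⟩, e3⟩ := h4
    obtain ⟨f, hf, hfc⟩ := vF.exists_mem e1
    have hinv : code f⁻¹ = Nat.shiftRight e 16 :=
      code_inv_of f _ (Nat.le_of_ble_eq_true e3) (by rw [hfc]; exact beq_true e2)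
    have h5 := (vU.2.2.1 _).1 (hall f hf)
    rw [code_mul, code_mul, hfc, hinv] at h5
    rw [h5] at hne
    simp at hne

theorem alt_sound (dF dU : Dat) (vF : Valid dF) (vU : Valid dU) (reps : List ℕ)
    (h : chkCore dF dU reps = true) (n NF NU : ℕ) (hF : Nat.beq (cntBits 16 dF.T) NF = true)
    (hU : Nat.beq (cntBits 16 dU.T) NU = true) (h1 : NU * n = NF) (h2 : 2 * NF = n.factorial) :
    Nonempty (Kc dF.S ≃* alternatingGroup (Fin n)) := by
  obtain ⟨hle, hcore⟩ := core_sound dF dU vF vU reps h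
  apply iso_alt_of_index (Kc dF.S) (Kc dU.S) hle n _ hcore
  · rw [vF.card, beq_true hF]; exact h2
  · rw [vF.card, vU.card, beq_true hF, beq_true hU]; exact h1

theorem sym_sound (dF dU : Dat) (vF : Valid dF) (vU : Valid dU) (reps : List ℕ)
    (h : chkCore dF dU reps = true) (n NF NU : ℕ) (hF : Nat.beq (cntBits 16 dF.T) NF = true)
    (hU : Nat.beq (cntBits 16 dU.T) NU = true) (h1 : NU * n = NF) (h2 : NF = n.factorial) :
    Nonempty (Kc dF.S ≃* Equiv.Perm (Fin n)) := by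
  obtain ⟨hle, hcore⟩ := core_sound dF dU vF vU reps h
  apply iso_perm_of_index (Kc dF.S) (Kc dU.S) hle n _ hcore
  · rw [vF.card, beq_true hF]; exact h2
  · rw [vF.card, vU.card, beq_true hF, beq_true hU]; exact h1

/-! ### the groups `GL(3, 2)` -/

def blk (M : Mat) : Matrix (Fin 3) (Fin 3) (ZMod 2) := M.submatrix Fin.succ Fin.succ

theorem blk_one : blk 1 = 1 := by
  ext i j
  simp [blk, Matrix.one_apply]

theorem blk_mul (M N : Mat) (h : ∀ i j : Fin 3, M i.succ 0 * N 0 j.succ = 0) : blk (M * N) = blk M * blk N := by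
  ext i j
  simp only [blk, Matrix.submatrix_apply, Matrix.mul_apply]
  rw [Fin.sum_univ_succ, h, zero_add]

theorem row_type (M : Mat) (h : Nat.land (codeM M) 15 = 1) : ∀ j : Fin 3, M 0 j.succ = 0 := by
  have hl := rho4_lt
  have h1 := (rowsel _ _ _ _ (hl (M 0 0) (M 0 1) (M 0 2) (M 0 3)) (hl (M 1 0) (M 1 1) (M 1 2) (M 1 3))
    (hl (M 2 0) (M 2 1) (M 2 2) (M 2 3)) (hl (M 3 0) (M 3 1) (M 3 2) (M 3 3))).1
  have h2 : rho4 (M 0 0) (M 0 1) (M 0 2) (M 0 3) = 1 := h1.symm.trans h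
  have key : ∀ a b c d : ZMod 2, rho4 a b c d = 1 → b = 0 ∧ c = 0 ∧ d = 0 := by decide
  obtain ⟨a, b, c⟩ := key _ _ _ _ h2
  intro j
  fin_cases j
  · exact a
  · exact b
  · exact c

theorem col_type (M : Mat) (h : Nat.land (codeM M) 0x1111 = 1) : ∀ i : Fin 3, M i.succ 0 = 0 := by
  have hl := rho4_lt
  have h1 := colmask 0 (by simp) _ _ _ _ (hl (M 0 0) (M 0 1) (M 0 2) (M 0 3)) (hl (M 1 0) (M 1 1) (M 1 2) (M 1 3))
    (hl (M 2 0) (M 2 1) (M 2 2) (M 2 3)) (hl (M 3 0) (M 3 1) (M 3 2) (M 3 3))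
  simp only [(bt_rho _ _ _ _).1] at h1
  have h2 : nib (M 0 0).val (M 1 0).val (M 2 0).val (M 3 0).val = 1 := h1.symm.trans h
  unfold nib at h2
  have v1 : (M 1 0).val = 0 := by omega
  have v2 : (M 2 0).val = 0 := by omega
  have v3 : (M 3 0).val = 0 := by omega
  intro i
  fin_cases i
  · exact (ZMod.val_eq_zero _).1 v1
  · exact (ZMod.val_eq_zero _).1 v2
  · exact (ZMod.val_eq_zero _).1 v3

def isBlkOne (n : ℕ) : Bool :=
  Nat.beq (Nat.shiftRight (Nat.land (Nat.shiftRight n 4) 15) 1) 1 &&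
  Nat.beq (Nat.shiftRight (Nat.land (Nat.shiftRight n 8) 15) 1) 2 &&
  Nat.beq (Nat.shiftRight (Nat.land (Nat.shiftRight n 12) 15) 1) 4

theorem isBlkOne_of (M : Mat) (h : blk M = 1) : isBlkOne (codeM M) = true := by
  have hl := rho4_lt
  obtain ⟨-, r1, r2, r3⟩ := rowsel _ _ _ _ (hl (M 0 0) (M 0 1) (M 0 2) (M 0 3)) (hl (M 1 0) (M 1 1) (M 1 2) (M 1 3))
    (hl (M 2 0) (M 2 1) (M 2 2) (M 2 3)) (hl (M 3 0) (M 3 1) (M 3 2) (M 3 3))
  have e : ∀ i j : Fin 3, M i.succ j.succ = (1 : Matrix (Fin 3) (Fin 3) (ZMod 2)) i j := by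
    intro i j
    rw [← h]; rfl
  have e11 : M 1 1 = 1 := e 0 0
  have e12 : M 1 2 = 0 := e 0 1
  have e13 : M 1 3 = 0 := e 0 2
  have e21 : M 2 1 = 0 := e 1 0
  have e22 : M 2 2 = 1 := e 1 1
  have e23 : M 2 3 = 0 := e 1 2
  have e31 : M 3 1 = 0 := e 2 0
  have e32 : M 3 2 = 0 := e 2 1
  have e33 : M 3 3 = 1 := e 2 2
  have k1 : ∀ a : ZMod 2, Nat.shiftRight (rho4 a 1 0 0) 1 = 1 := by decide
  have k2 : ∀ a : ZMod 2, Nat.shiftRight (rho4 a 0 1 0) 1 = 2 := by decide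
  have k3 : ∀ a : ZMod 2, Nat.shiftRight (rho4 a 0 0 1) 1 = 4 := by decide
  have q1 : Nat.land (Nat.shiftRight (codeM M) 4) 15 = rho4 (M 1 0) (M 1 1) (M 1 2) (M 1 3) := r1
  have q2 : Nat.land (Nat.shiftRight (codeM M) 8) 15 = rho4 (M 2 0) (M 2 1) (M 2 2) (M 2 3) := r2
  have q3 : Nat.land (Nat.shiftRight (codeM M) 12) 15 = rho4 (M 3 0) (M 3 1) (M 3 2) (M 3 3) := r3
  rw [isBlkOne, q1, q2, q3, e11, e12, e13, e21, e22, e23, e31, e32, e33, k1, k2, k3]
  rfl

noncomputable def chkGL3 (d : Dat) : Bool :=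
  (allBits (fun n => Nat.beq (Nat.land n 15) 1) 16 d.T 0 || allBits (fun n => Nat.beq (Nat.land n 0x1111) 1) 16 d.T 0) &&
  allBits (fun n => Nat.beq n c1 || !isBlkOne n) 16 d.T 0 && Nat.beq (cntBits 16 d.T) 168

theorem card_GL3 : Nat.card (GL (Fin 3) (ZMod 2)) = 168 := by
  rw [Matrix.card_GL_field]
  simp [Fin.prod_univ_three, ZMod.card]

theorem gl3_sound (d : Dat) (v : Valid d) (h : chkGL3 d = true) :
    Nonempty (Kc d.S ≃* GL (Fin 3) (ZMod 2)) := by
  simp only [chkGL3, Bool.and_eq_true, Bool.or_eq_true] at h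
  obtain ⟨⟨h1, h2⟩, h3⟩ := h
  have hbit : ∀ (p : ℕ → Bool), allBits p 16 d.T 0 = true → ∀ g ∈ Kc d.S, p (code g) = true := by
    intro p hp g hg
    have := allBits_spec _ _ _ _ hp (code g) (by simpa using code_lt g) (by rw [← tb_eq]; exact (v.2.2.1 g).1 hg)
    rwa [zero_add] at this
  have hcross : ∀ a ∈ Kc d.S, ∀ b ∈ Kc d.S, ∀ i j : Fin 3, a.1 i.succ 0 * b.1 0 j.succ = 0 := by
    intro a ha b hb i j
    rcases h1 with h1 | h1
    · rw [row_type b.1 (beq_true (hbit _ h1 b hb)) j, mul_zero]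
    · rw [col_type a.1 (beq_true (hbit _ h1 a ha)) i, zero_mul]
  let f : Kc d.S →* Matrix (Fin 3) (Fin 3) (ZMod 2) :=
    { toFun := fun g => blk g.1.1
      map_one' := blk_one
      map_mul' := fun a b => blk_mul _ _ (hcross a.1 a.2 b.1 b.2) }
  have hinj : Function.Injective f.toHomUnits := by
    rw [injective_iff_map_eq_one]
    intro g hg
    have h4 : blk g.1.1 = 1 := congrArg Units.val hg
    have h5 := hbit _ h2 g.1 g.2
    rw [show code g.1 = codeM g.1.1 from rfl, isBlkOne_of _ h4] at h5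
    simp only [Bool.not_true, Bool.or_false] at h5
    apply Subtype.ext
    apply code_injective
    rw [Subgroup.coe_one, code_one]; exact beq_true h5
  have hb : Function.Bijective f.toHomUnits := by
    apply hinj.bijective_of_nat_card_le
    rw [v.card, beq_true h3]
    exact card_GL3.le
  exact ⟨MulEquiv.ofBijective _ hb⟩

end Cfsg.Agent.Lib.Helper94.GL4
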