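import Mathlib
import Cfsg.Agent.Lib.Helper94.GL4Res

set_option autoImplicit false

namespace Cfsg.Agent.Lib.Helper94.GL4

/-- the conclusion. -/
def Concl (K : Type) [Group K] : Prop :=
  (∃ n : ℕ, 5 ≤ n ∧ n ≤ 8 ∧ Nonempty (K ≃* alternatingGroup (Fin n))) ∨
    Nonempty (K ≃* Equiv.Perm (Fin 5)) ∨ Nonempty (K ≃* Equiv.Perm (Fin 6)) ∨
    Nonempty (K ≃* GL (Fin 3) (ZMod 2))

theorem Concl.of_equiv {K L : Type} [Group K] [Group L] (e : L ≃* K) (h : Concl K) : Concl L := by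
  rcases h with ⟨n, h1, h2, ⟨f⟩⟩ | ⟨⟨f⟩⟩ | ⟨⟨f⟩⟩ | ⟨⟨f⟩⟩
  · exact Or.inl ⟨n, h1, h2, ⟨e.trans f⟩⟩
  · exact Or.inr (Or.inl ⟨e.trans f⟩)
  · exact Or.inr (Or.inr (Or.inl ⟨e.trans f⟩))
  · exact Or.inr (Or.inr (Or.inr ⟨e.trans f⟩))

def eqL : List ℕ → List ℕ → Bool
  | [], [] => true
  | a :: l, b :: m => Nat.beq a b && eqL l m
  | _, _ => false

theorem eqL_spec : ∀ (l m : List ℕ), eqL l m = true → l = m
  | [], [], _ => rfl
  | a :: l, b :: m, h => by
    rw [eqL, Bool.and_eq_true] at h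
    rw [beq_true h.1, eqL_spec l m h.2]
  | [], _ :: _, h => by simp [eqL] at h
  | _ :: _, [], h => by simp [eqL] at h

theorem orderOf_of_code7 (x : GG) (h : Nat.beq (pow7 (code x)) c1 = true) (h1 : Nat.beq (code x) c1 = false) :
    orderOf x = 7 := by
  have := Fact.mk (by norm_num : Nat.Prime 7)
  apply orderOf_eq_prime
  · apply code_injective
    rw [code_pow7, code_one]; exact beq_true h
  · rintro rfl
    rw [code_one] at h1
    simp at h1

theorem orderOf_of_code5 (x : GG) (h : Nat.beq (pow5 (code x)) c1 = true) (h1 : Nat.beq (code x) c1 = false) :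
    orderOf x = 5 := by
  have := Fact.mk (by norm_num : Nat.Prime 5)
  apply orderOf_eq_prime
  · apply code_injective
    rw [code_pow5, code_one]; exact beq_true h
  · rintro rfl
    rw [code_one] at h1
    simp at h1

noncomputable def cand7 (cx : ℕ) (XP : List ℕ) (n : ℕ) : Bool :=
  Bool.casesOn (Nat.beq (pow7 n) c1) (isZ cx XP n) true

noncomputable def cand5 (cx : ℕ) (XP : List ℕ) (n : ℕ) : Bool :=
  Bool.casesOn (Nat.beq (pow5 n) c1) (isZ cx XP n) true

theorem cand7_spec (d0 : Dat) (h0 : Valid d0) (cx : ℕ) (hc : cx ∈ d0.S) (XP : List ℕ)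
    (hXP : eqL XP (filterBits (fun _ => true) 16 d0.T 0 []) = true) (x : GG) (hx : code x = cx) (g : GG)
    (hg : orderOf g = 7 ∨ g * x * g⁻¹ ∈ Subgroup.zpowers x) : cand7 cx XP (code g) = true := by
  unfold cand7
  rcases hg with hg | hg
  · have : pow7 (code g) = c1 := by rw [← code_pow7, ← hg, pow_orderOf_eq_one, code_one]
    rw [this, Nat.beq_refl]
  · rw [eqL_spec _ _ hXP, isZ_spec d0 h0 cx hc x g hx hg]
    cases Nat.beq (pow7 (code g)) c1 <;> rfl

theorem cand5_spec (d0 : Dat) (h0 : Valid d0) (cx : ℕ) (hc : cx ∈ d0.S) (XP : List ℕ)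
    (hXP : eqL XP (filterBits (fun _ => true) 16 d0.T 0 []) = true) (x : GG) (hx : code x = cx) (g : GG)
    (hg : orderOf g = 5 ∨ g * x * g⁻¹ ∈ Subgroup.zpowers x) : cand5 cx XP (code g) = true := by
  unfold cand5
  rcases hg with hg | hg
  · have : pow5 (code g) = c1 := by rw [← code_pow5, ← hg, pow_orderOf_eq_one, code_one]
    rw [this, Nat.beq_refl]
  · rw [eqL_spec _ _ hXP, isZ_spec d0 h0 cx hc x g hx hg]
    cases Nat.beq (pow5 (code g)) c1 <;> rfl

end Cfsg.Agent.Lib.Helper94.GL4
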