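import Mathlib

/-!
# Subsets invariant under a permutation of prime order
-/

set_option autoImplicit false
set_option linter.unusedSectionVars false

namespace Cfsg.Agent.Lib.Helper94.InvS

open Equiv.Perm

variable {α : Type*} [Fintype α] [DecidableEq α]

/-- the fixed points. -/
def Fx (σ : Equiv.Perm α) : Finset α := Finset.univ.filter fun a => σ a = a

theorem mem_Fx {σ : Equiv.Perm α} {a : α} : a ∈ Fx σ ↔ σ a = a := by simp [Fx]

theorem Fx_eq (σ : Equiv.Perm α) : Fx σ = σ.supportᶜ := by
  ext a
  rw [mem_Fx, Finset.mem_compl, Equiv.Perm.mem_support, not_not]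

theorem card_Fx_add (σ : Equiv.Perm α) : (Fx σ).card + σ.support.card = Fintype.card α := by
  rw [Fx_eq, Finset.card_compl]
  have := Finset.card_le_univ σ.support
  omega

theorem mem_iff_of_image {σ : Equiv.Perm α} {s : Finset α} (h : s.image σ = s) (x : α) :
    σ x ∈ s ↔ x ∈ s := by
  constructor
  · intro hx
    rw [← h, Finset.mem_image] at hx
    obtain ⟨y, hy, hyx⟩ := hx
    rwa [← σ.injective hyx]
  · intro hx
    rw [← h]
    exact Finset.mem_image_of_mem _ hx

/-- the cardinality of an invariant set modulo the order. -/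
theorem card_modEq {σ : Equiv.Perm α} {r : ℕ} [Fact r.Prime] (hσ : σ ^ r = 1) {s : Finset α}
    (h : s.image σ = s) : (s ∩ Fx σ).card ≡ s.card [MOD r] := by
  have hτ : (σ.subtypePerm (p := fun x => x ∈ s) (mem_iff_of_image h)) ^ r ^ 1 = 1 := by
    rw [pow_one, Equiv.Perm.subtypePerm_pow]
    ext x
    simp [hσ]
  have h1 := card_compl_support_modEq hτ
  rw [Fintype.card_coe] at h1
  have h2 : ((σ.subtypePerm (p := fun x => x ∈ s) (mem_iff_of_image h)).supportᶜ).card =
      (s ∩ Fx σ).card := by
    apply Finset.card_bij (fun (x : {x // x ∈ s}) _ => x.1)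
    · intro x hx
      rw [Finset.mem_compl, Equiv.Perm.mem_support, not_not] at hx
      rw [Finset.mem_inter, mem_Fx]
      exact ⟨x.2, congrArg Subtype.val hx⟩
    · intro x _ y _ hxy
      exact Subtype.ext hxy
    · intro b hb
      rw [Finset.mem_inter, mem_Fx] at hb
      refine ⟨⟨b, hb.1⟩, ?_, rfl⟩
      rw [Finset.mem_compl, Equiv.Perm.mem_support, not_not]
      exact Subtype.ext hb.2
  rw [h2] at h1
  exact h1

/-- a permutation of prime order with as few fixed points as possible. -/
theorem exists_extremal {r : ℕ} (hr : r.Prime) (hrn : r ≤ Fintype.card α) :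
    ∃ σ : Equiv.Perm α, orderOf σ = r ∧ (Fx σ).card = Fintype.card α % r := by
  have hdiv : 0 < Fintype.card α / r := Nat.div_pos hrn hr.pos
  obtain ⟨σ, hσ⟩ := (Equiv.Perm.exists_with_cycleType_iff α
    (m := Multiset.replicate (Fintype.card α / r) r)).2 ⟨by
      rw [Multiset.sum_replicate, smul_eq_mul]
      exact Nat.div_mul_le_self _ _, by
      intro a ha
      rw [Multiset.eq_of_mem_replicate ha]
      exact hr.two_le⟩
  refine ⟨σ, ?_, ?_⟩
  · have h1 : orderOf σ ∣ r := by
      rw [← Equiv.Perm.lcm_cycleType, hσ, Multiset.lcm_dvd]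
      intro b hb
      rw [Multiset.eq_of_mem_replicate hb]
    rcases (Nat.dvd_prime hr).1 h1 with h2 | h2
    · exfalso
      rw [orderOf_eq_one_iff] at h2
      rw [h2, Equiv.Perm.cycleType_one] at hσ
      have := congrArg Multiset.card hσ
      rw [Multiset.card_zero, Multiset.card_replicate] at this
      omega
    · exact h2
  · have h1 := card_Fx_add σ
    rw [← Equiv.Perm.sum_cycleType, hσ, Multiset.sum_replicate, smul_eq_mul] at h1
    have h2 := Nat.div_add_mod (Fintype.card α) r
    rw [mul_comm] at h2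
    omega

theorem card_support_of_mem {σ c : Equiv.Perm α} {r : ℕ} (hr : r.Prime) (hσ : orderOf σ = r)
    (hc : c ∈ σ.cycleFactorsFinset) : c.support.card = r := by
  have h1 : c.support.card ∈ σ.cycleType := by
    rw [Equiv.Perm.cycleType_def, Multiset.mem_map]
    exact ⟨c, hc, rfl⟩
  have h2 := Equiv.Perm.dvd_of_mem_cycleType h1
  have h3 := Equiv.Perm.two_le_of_mem_cycleType h1
  rw [hσ] at h2
  rcases (Nat.dvd_prime hr).1 h2 with h | h
  · omega
  · exact h

theorem card_support_eq {σ : Equiv.Perm α} {r : ℕ} (hr : r.Prime) (hσ : orderOf σ = r) :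
    σ.support.card = σ.cycleFactorsFinset.card * r := by
  rw [← Equiv.Perm.sum_cycleType, Equiv.Perm.cycleType_def]
  have : Multiset.map (Finset.card ∘ Equiv.Perm.support) σ.cycleFactorsFinset.1 =
      Multiset.map (fun _ => r) σ.cycleFactorsFinset.1 := by
    apply Multiset.map_congr rfl
    intro c hc
    exact card_support_of_mem hr hσ hc
  rw [this, Multiset.map_const', Multiset.sum_replicate, smul_eq_mul]
  rfl

/-- construction of invariant subsets. -/
theorem exists_invariant {σ : Equiv.Perm α} {r : ℕ} (hr : r.Prime) (hσ : orderOf σ = r) {k : ℕ}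
    (hk : k ≤ Fintype.card α) (hmod : k % r ≤ Fintype.card α % r) :
    ∃ s : Finset α, s.card = k ∧ s.image σ = s := by
  have h1 := card_Fx_add σ
  rw [card_support_eq hr hσ] at h1
  have hka : min σ.cycleFactorsFinset.card (k / r) * r ≤ k :=
    le_trans (Nat.mul_le_mul_right _ (min_le_right _ _)) (Nat.div_mul_le_self _ _)
  have hb : k - min σ.cycleFactorsFinset.card (k / r) * r ≤ (Fx σ).card := by
    rcases le_total σ.cycleFactorsFinset.card (k / r) with h | h
    · rw [min_eq_left h]; omega
    · rw [min_eq_right h]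
      have e1 : k - k / r * r = k % r := by
        have := Nat.div_add_mod k r
        rw [mul_comm] at this
        omega
      have e2 : Fintype.card α % r = (Fx σ).card % r := by
        rw [← h1, Nat.add_mul_mod_self_right]
      have e3 := Nat.mod_le (Fx σ).card r
      omega
  obtain ⟨T, hT, hTc⟩ := Finset.exists_subset_card_eq
    (min_le_left σ.cycleFactorsFinset.card (k / r))
  obtain ⟨B, hB, hBc⟩ := Finset.exists_subset_card_eq hb
  have hcardU : (T.biUnion Equiv.Perm.support).card = T.card * r := by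
    rw [Finset.card_biUnion]
    · rw [Finset.sum_congr rfl (fun c hc => card_support_of_mem hr hσ (hT hc)), Finset.sum_const,
        smul_eq_mul]
    · intro c hc c' hc' hne
      exact (Equiv.Perm.cycleFactorsFinset_pairwise_disjoint σ (hT hc) (hT hc') hne).disjoint_support
  have hdisj : Disjoint (T.biUnion Equiv.Perm.support) B := by
    rw [Finset.disjoint_left]
    intro x hx hxB
    obtain ⟨c, hc, hxc⟩ := Finset.mem_biUnion.1 hx
    have h2 := (Equiv.Perm.mem_cycleFactorsFinset_iff.1 (hT hc)).2 x hxc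
    have h3 := mem_Fx.1 (hB hxB)
    rw [Equiv.Perm.mem_support, h2, h3] at hxc
    exact hxc rfl
  refine ⟨T.biUnion Equiv.Perm.support ∪ B, ?_, ?_⟩
  · rw [Finset.card_union_of_disjoint hdisj, hcardU, hTc, hBc]
    omega
  · apply Finset.eq_of_subset_of_card_le
    · intro y hy
      obtain ⟨x, hx, rfl⟩ := Finset.mem_image.1 hy
      rcases Finset.mem_union.1 hx with hx | hx
      · obtain ⟨c, hc, hxc⟩ := Finset.mem_biUnion.1 hx
        have h2 := (Equiv.Perm.mem_cycleFactorsFinset_iff.1 (hT hc)).2 x hxc
        apply Finset.mem_union_left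
        rw [Finset.mem_biUnion]
        refine ⟨c, hc, ?_⟩
        rw [← h2]
        exact Equiv.Perm.apply_mem_support.2 hxc
      · apply Finset.mem_union_right
        rw [mem_Fx.1 (hB hx)]
        exact hx
    · rw [Finset.card_image_of_injective _ σ.injective]

/-- the criterion. -/
theorem criterion {r : ℕ} (hr : r.Prime) (hrn : r ≤ Fintype.card α) {k : ℕ}
    (hk : k ≤ Fintype.card α) :
    (∀ σ : Equiv.Perm α, orderOf σ = r → ∃ s : Finset α, s.card = k ∧ s.image σ = s) ↔
      k % r ≤ Fintype.card α % r := by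
  constructor
  · intro h
    obtain ⟨σ, hσ, hf⟩ := exists_extremal (α := α) hr hrn
    obtain ⟨s, hs, hinv⟩ := h σ hσ
    have : Fact r.Prime := ⟨hr⟩
    have h1 := card_modEq (σ := σ) (r := r) (by rw [← hσ, pow_orderOf_eq_one]) hinv
    have h2 : (s ∩ Fx σ).card ≤ Fintype.card α % r := by
      rw [← hf]
      exact Finset.card_le_card Finset.inter_subset_right
    have h3 : Fintype.card α % r < r := Nat.mod_lt _ hr.pos
    rw [hs] at h1
    have h4 : (s ∩ Fx σ).card % r = k % r := h1
    rw [Nat.mod_eq_of_lt (by omega)] at h4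
    omega
  · intro h σ hσ
    exact exists_invariant hr hσ hk h

theorem le_of_dvd_choose {r n k : ℕ} (hr : r.Prime) (hk : k ≤ n) (h : r ∣ Nat.choose n k) :
    r ≤ n := by
  rw [← hr.dvd_factorial, ← Nat.choose_mul_factorial_mul_factorial hk, mul_assoc]
  exact Dvd.dvd.mul_right h _

theorem le_of_lucas {r n k : ℕ} (hr : r.Prime) (h : r ∣ Nat.choose n k)
    (hmod : k % r ≤ n % r) : r ≤ k := by
  by_contra hlt
  push Not at hlt
  have : Fact r.Prime := ⟨hr⟩
  have h1 := Choose.choose_modEq_choose_mod_mul_choose_div_nat (n := n) (k := k) (p := r)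
  rw [Nat.mod_eq_of_lt hlt] at hmod
  rw [Nat.mod_eq_of_lt hlt, Nat.div_eq_of_lt hlt, Nat.choose_zero_right, mul_one] at h1
  have h2 : r ∣ Nat.choose (n % r) k := (Nat.modEq_zero_iff_dvd.1
    (h1.symm.trans (Nat.modEq_zero_iff_dvd.2 h)))
  have h3 := le_of_dvd_choose hr hmod h2
  have h4 := Nat.mod_lt n hr.pos
  omega

end Cfsg.Agent.Lib.Helper94.InvS
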