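import Cfsg.Agent.Lib.Helper94.M22E7
import Cfsg.Agent.Lib.Helper94.GL4Abs

set_option autoImplicit false
open scoped Pointwise

namespace Cfsg.Agent.Lib.Helper94.M22O

open Cfsg Cfsg.Agent.Lib.Helper94

theorem Qm_lt : Qm < 2 ^ 24 := by norm_num [Qm]

theorem xx_Q : xx • unm Qm = unm Qm := by
  apply msk_injective
  rw [xx, applyM_permOf (validM_of_inM24 X11_in), msk_unm Qm_lt]
  decide +kernel

theorem xx_0 : xx (pt 0) = pt 0 := by
  have := xx_apply (t := 0) (by norm_num)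
  simpa using this

theorem xx_fix : xx ∈ fixG [0, 23] := by
  rw [mem_fixG]
  refine ⟨xx_mem, ?_⟩
  intro t ht
  simp only [List.mem_cons, List.not_mem_nil, or_false] at ht
  rcases ht with rfl | rfl
  · exact xx_0
  · exact xx_23

theorem fix_23 {g : Equiv.Perm GolayPt} (h : g ∈ fixG [0, 23]) : g (pt 23) = pt 23 :=
  (mem_fixG.1 h).2 23 (by simp)

theorem fix_0 {g : Equiv.Perm GolayPt} (h : g ∈ fixG [0, 23]) : g (pt 0) = pt 0 :=
  (mem_fixG.1 h).2 0 (by simp)

theorem norm_exp : ∀ c < 23, c ≠ 0 → ∃ i < 11, c * 2 ^ i % 23 = 1 ∨ c * 2 ^ i % 23 = 5 := by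
  decide

/-- a subgroup of the two point stabiliser containing `xx` preserves the set of squares or has
order divisible by seven. -/
theorem A7 (H : Subgroup (Equiv.Perm GolayPt)) (hH : H ≤ fixG [0, 23]) (hx : xx ∈ H) :
    (∀ h ∈ H, h • unm Qm = unm Qm) ∨ 7 ∣ Nat.card H := by
  by_cases hall : ∀ h ∈ H, h • unm Qm = unm Qm
  · exact Or.inl hall
  right
  push Not at hall
  obtain ⟨h, hh, hne⟩ := hall
  have h23 := fix_23 (hH hh)
  have h0 := fix_0 (hH hh)
  have c1 : enc (h (pt 1)) < 23 := enc_lt_of_fix h23 (by norm_num)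
  have c2 : enc (h (pt 1)) ≠ 0 := by
    intro hc
    have h3 : h (pt 1) = pt 0 := by rw [← hc, pt_enc]
    rw [← h0] at h3
    have h4 := congrArg enc (h.injective h3)
    rw [enc_pt (by norm_num), enc_pt (by norm_num)] at h4
    omega
  obtain ⟨i, _, hi⟩ := norm_exp _ c1 c2
  have hg : xx ^ i * h ∈ H := H.mul_mem (H.pow_mem hx i) hh
  have hg1 : (xx ^ i * h) (pt 1) = pt (enc (h (pt 1)) * 2 ^ i % 23) := by
    rw [Equiv.Perm.mul_apply, ← xx_pow_apply i c1, pt_enc]
  have hΦ : Phi7 (xx ^ i * h) := by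
    refine ⟨fix_23 (hH hg), fix_0 (hH hg), ?_⟩
    rw [hg1]
    rcases hi with hi | hi <;> rw [hi]
    · left; rfl
    · right; rfl
  rcases E7 _ (mem_fixG.1 (hH hg)).1 hΦ with hQ | ⟨wd, hwd⟩
  · exfalso
    apply hne
    have hxi : ∀ n : ℕ, xx ^ n • unm Qm = unm Qm := by
      intro n
      induction n with
      | zero => simp
      | succ n ih => rw [pow_succ, mul_smul, xx_Q, ih]
    rw [mul_smul] at hQ
    have := congrArg (fun X => (xx ^ i)⁻¹ • X) hQ
    simp only [inv_smul_smul] at this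
    rw [this, inv_smul_eq_iff, hxi]
  · have hw : wordP (xx ^ i * h) 3 wd ∈ H := wordP_mem hx hg 3 wd
    exact hwd.trans (Subgroup.orderOf_dvd_natCard H hw)

/-! ### the stabiliser of the set of squares -/

def PhiL (g : Equiv.Perm GolayPt) : Prop :=
  g • unm 8388608 = unm 8388608 ∧ g • unm 1 = unm 1 ∧ g • unm Qm = unm Qm

def psiL (A s : ℕ) : Bool :=
  Nat.beq (applyS2 A s 8388608) 8388608 && (Nat.beq (applyS2 A s 1) 1 &&
    Nat.beq (applyS2 A s Qm) Qm)

theorem beq_smul_iff (a s : Equiv.Perm GolayPt) {m : ℕ} (hm : m < 2 ^ 24) :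
    Nat.beq (applyS2 (codeS a) (codeS s) m) m = true ↔ (a * s) • unm m = unm m := by
  have h2 := applyS2_smul a s (unm m)
  rw [msk_unm hm] at h2
  rw [Nat.beq_eq, h2]
  constructor
  · intro h
    apply msk_injective
    rw [h, msk_unm hm]
  · intro h
    rw [h, msk_unm hm]

theorem psiL_iff (a s : Equiv.Perm GolayPt) : psiL (codeS a) (codeS s) = true ↔ PhiL (a * s) := by
  rw [psiL, Bool.and_eq_true, Bool.and_eq_true, beq_smul_iff a s (by norm_num),
    beq_smul_iff a s (by norm_num), beq_smul_iff a s Qm_lt, PhiL]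

def TL : List ℕ :=
  ((bitsOf 8388608).flatMap fun a => (bitsOf 1).flatMap fun b => (bitsOf Qm).flatMap fun c =>
    (bitsOf Qm).flatMap fun d => (bitsOf Qm).map fun e => pack5 a b c d e).filter validB

set_option maxRecDepth 1000000 in
theorem TL_nodup : TL.Nodup := by decide +kernel

theorem TL_valid : ∀ u ∈ TL, ValidU u := by
  intro u hu
  rw [TL, List.mem_filter] at hu
  exact (validB_iff u).1 hu.2

theorem PhiL_img : ∀ g ∈ M24, PhiL g → imgU g ∈ TL := by
  rintro g _ ⟨h1, h2, h3⟩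
  rw [TL, List.mem_filter]
  refine ⟨?_, (validB_iff _).2 (validU_imgU g)⟩
  rw [List.mem_flatMap]
  refine ⟨_, img_mem_bitsOf h1 (i := 23) (by decide), ?_⟩
  rw [List.mem_flatMap]
  refine ⟨_, img_mem_bitsOf h2 (i := 0) (by decide), ?_⟩
  rw [List.mem_flatMap]
  refine ⟨_, img_mem_bitsOf h3 (i := 1) (by decide), ?_⟩
  rw [List.mem_flatMap]
  refine ⟨_, img_mem_bitsOf h3 (i := 2) (by decide), ?_⟩
  rw [List.mem_map]
  exact ⟨_, img_mem_bitsOf h3 (i := 3) (by decide), rfl⟩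

set_option maxRecDepth 1000000 in
theorem pass_psiL : pass2 psiL TL = 660 := by decide +kernel

theorem card_PhiL : Nat.card {g : Equiv.Perm GolayPt // g ∈ M24 ∧ PhiL g} = 660 := by
  rw [card_by_enum2 PhiL TL TL_nodup TL_valid PhiL_img psiL (fun a _ s _ => psiL_iff a s),
    pass_psiL]

theorem unm_two_pow {i : ℕ} (hi : i < 24) : unm (2 ^ i) = {pt i} := by
  have := msk_singleton (pt i)
  rw [enc_pt hi] at this
  rw [← this, unm_msk]

theorem smul_unm_two_pow {g : Equiv.Perm GolayPt} {i : ℕ} (hi : i < 24) (h : g (pt i) = pt i) :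
    g • unm (2 ^ i) = unm (2 ^ i) := by
  rw [unm_two_pow hi, Finset.smul_finset_singleton, Equiv.Perm.smul_def, h]

theorem PhiL_of {g : Equiv.Perm GolayPt} (hg : g ∈ fixG [0, 23]) (hQ : g • unm Qm = unm Qm) :
    PhiL g :=
  ⟨smul_unm_two_pow (i := 23) (by norm_num) (fix_23 hg),
    smul_unm_two_pow (i := 0) (by norm_num) (fix_0 hg), hQ⟩

theorem card_le_of_Q (H : Subgroup (Equiv.Perm GolayPt)) (hH : H ≤ fixG [0, 23])
    (hQ : ∀ h ∈ H, h • unm Qm = unm Qm) : Nat.card H ≤ 660 := by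
  rw [← card_PhiL]
  apply Nat.card_le_card_of_injective
    (fun h : H => (⟨h.1, (mem_fixG.1 (hH h.2)).1, PhiL_of (hH h.2) (hQ h.1 h.2)⟩ :
      {g : Equiv.Perm GolayPt // g ∈ M24 ∧ PhiL g}))
  intro a b hab
  exact Subtype.ext (congrArg (fun z => z.1) hab)

/-- conjugate of a subgroup. -/
theorem exists_conj_xx (H : Subgroup (Equiv.Perm GolayPt)) (hH : H ≤ fixG [0, 23])
    (h11 : 11 ∣ Nat.card H) :
    ∃ k ∈ fixG [0, 23], xx ∈ H.map (MulAut.conj k).toMonoidHom := by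
  haveI : Fact (Nat.Prime 11) := ⟨by norm_num⟩
  obtain ⟨z, hz⟩ := exists_prime_orderOf_dvd_card' 11 h11
  have hz' : orderOf (z : Equiv.Perm GolayPt) = 11 := by rw [Subgroup.orderOf_coe]; exact hz
  obtain ⟨k, hk, hkz⟩ := GL4.sylConj 11 (fixG [0, 23]) (by rw [card_fixG2]; norm_num) xx z.1
    xx_fix (hH z.2) orderOf_xx hz'
  refine ⟨k, hk, ?_⟩
  have h1 : Subgroup.zpowers (k * z.1 * k⁻¹) = Subgroup.zpowers xx := by
    apply Subgroup.eq_of_le_of_card_ge
    · rw [Subgroup.zpowers_le]; exact hkz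
    · rw [Nat.card_zpowers, Nat.card_zpowers, GL4.orderOf_conj', hz', orderOf_xx]
  have h2 : xx ∈ Subgroup.zpowers (k * z.1 * k⁻¹) := by rw [h1]; exact Subgroup.mem_zpowers _
  have h3 : Subgroup.zpowers (k * z.1 * k⁻¹) ≤ H.map (MulAut.conj k).toMonoidHom := by
    rw [Subgroup.zpowers_le]
    exact ⟨z.1, z.2, rfl⟩
  exact h3 h2

theorem card_map_conj' (H : Subgroup (Equiv.Perm GolayPt)) (k : Equiv.Perm GolayPt) :
    Nat.card (H.map (MulAut.conj k).toMonoidHom) = Nat.card H :=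
  Subgroup.card_map_of_injective (MulAut.conj k).injective

theorem map_conj_le {H K : Subgroup (Equiv.Perm GolayPt)} (hH : H ≤ K) {k : Equiv.Perm GolayPt}
    (hk : k ∈ K) : H.map (MulAut.conj k).toMonoidHom ≤ K := by
  rintro _ ⟨h, hh, rfl⟩
  exact K.mul_mem (K.mul_mem hk (hH hh)) (K.inv_mem hk)

/-- a subgroup of the two point stabiliser of order divisible by 11 but not by 7 is small. -/
theorem card_le_660 (H : Subgroup (Equiv.Perm GolayPt)) (hH : H ≤ fixG [0, 23])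
    (h11 : 11 ∣ Nat.card H) (h7 : ¬ 7 ∣ Nat.card H) : Nat.card H ≤ 660 := by
  obtain ⟨k, hk, hx⟩ := exists_conj_xx H hH h11
  rw [← card_map_conj' H k] at h7 ⊢
  rcases A7 _ (map_conj_le hH hk) hx with h | h
  · exact card_le_of_Q _ (map_conj_le hH hk) h
  · exact absurd h h7

end Cfsg.Agent.Lib.Helper94.M22O
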