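import Cfsg.Agent.Lib.Helper94.M22Data7

set_option autoImplicit false
open scoped Pointwise

namespace Cfsg.Agent.Lib.Helper94.M22O

open Cfsg Cfsg.Agent.Lib.Helper94

/-- mask of the nonzero squares modulo 23. -/
def Qm : ℕ := 340830

def TE : List ℕ :=
  ((bitsOf 8388608).flatMap fun a => (bitsOf 1).flatMap fun b => [1, 5].flatMap fun c =>
    (bitsOf 8388606).flatMap fun d => (bitsOf 8388606).map fun e => pack5 a b c d e).filter validB

set_option maxRecDepth 1000000 in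
theorem TE_eq : TE = T7.map (fun e => Nat.land e 33554431) := by decide +kernel

def Phi7 (g : Equiv.Perm GolayPt) : Prop :=
  g (pt 23) = pt 23 ∧ g (pt 0) = pt 0 ∧ (g (pt 1) = pt 1 ∨ g (pt 1) = pt 5)

def Psi7 (g : Equiv.Perm GolayPt) : Prop :=
  g • unm Qm = unm Qm ∨ ∃ wd, 7 ∣ orderOf (wordP g 3 wd)

noncomputable def psi7 (A s h : ℕ) : Bool :=
  Bool.rec (cycB A s 7 (Nat.shiftRight h 5) (Nat.land h 31)) (Nat.beq (applyS2 A s Qm) Qm)
    (Nat.beq h 0)

theorem mem_bits22 {g : Equiv.Perm GolayPt} (h23 : g (pt 23) = pt 23) (h0 : g (pt 0) = pt 0)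
    {t : ℕ} (ht : t < 23) (ht0 : t ≠ 0) : enc (g (pt t)) ∈ bitsOf 8388606 := by
  have h1 := enc_lt_of_fix h23 ht
  have h2 : enc (g (pt t)) ≠ 0 := by
    intro hc
    have h3 : g (pt t) = pt 0 := by rw [← hc, pt_enc]
    rw [← h0] at h3
    have h4 := congrArg enc (g.injective h3)
    rw [enc_pt (by omega), enc_pt (by norm_num)] at h4
    exact ht0 h4
  have key : ∀ i < 23, i ≠ 0 → i ∈ bitsOf 8388606 := by decide
  exact key _ h1 h2

theorem Phi7_img : ∀ g ∈ M24, Phi7 g → imgU g ∈ T7.map (fun e => Nat.land e 33554431) := by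
  rintro g _ ⟨h23, h0, h1⟩
  rw [← TE_eq, TE, List.mem_filter]
  refine ⟨?_, (validB_iff _).2 (validU_imgU g)⟩
  rw [List.mem_flatMap]
  refine ⟨enc (g (pt 23)), by rw [h23, enc_pt (by norm_num)]; decide, ?_⟩
  rw [List.mem_flatMap]
  refine ⟨enc (g (pt 0)), by rw [h0, enc_pt (by norm_num)]; decide, ?_⟩
  rw [List.mem_flatMap]
  refine ⟨enc (g (pt 1)), by
    rcases h1 with h1 | h1 <;> rw [h1, enc_pt (by norm_num)] <;> decide, ?_⟩
  rw [List.mem_flatMap]
  refine ⟨enc (g (pt 2)), mem_bits22 h23 h0 (by norm_num) (by norm_num), ?_⟩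
  rw [List.mem_map]
  exact ⟨enc (g (pt 3)), mem_bits22 h23 h0 (by norm_num) (by norm_num), rfl⟩

theorem psi7_spec : ∀ a ∈ M24, ∀ s ∈ M24, ∀ h, Phi7 (a * s) →
    psi7 (codeS a) (codeS s) h = true → Psi7 (a * s) := by
  intro a _ s _ h hΦ hψ
  rw [psi7] at hψ
  cases h0 : Nat.beq h 0
  · rw [h0] at hψ
    exact Or.inr ⟨_, cycB_spec a s hΦ.1 (by norm_num) hψ⟩
  · rw [h0] at hψ
    left
    have h1 : Nat.beq (applyS2 (codeS a) (codeS s) Qm) Qm = true := hψ
    rw [Nat.beq_eq] at h1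
    have h2 := applyS2_smul a s (unm Qm)
    rw [msk_unm (by norm_num [Qm]), h1] at h2
    apply msk_injective
    rw [← h2, msk_unm (by norm_num [Qm])]

set_option maxRecDepth 1000000 in
theorem chk7 : chkT psi7 T7 = true := by decide +kernel

theorem E7 : ∀ g ∈ M24, Phi7 g → Psi7 g :=
  forall_by_enum3 Phi7 Psi7 T7 Phi7_img psi7 psi7_spec chk7

end Cfsg.Agent.Lib.Helper94.M22O
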