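import Mathlib

set_option autoImplicit false
open scoped Pointwise

namespace Cfsg.Agent.Lib.Helper94

/-- orbit-stabiliser, with `Nat.card` and `Set.ncard`. -/
theorem card_eq_ncard_orbit_mul {G X : Type*} [Group G] [MulAction G X] (x : X) :
    Nat.card G = (MulAction.orbit G x).ncard * Nat.card (MulAction.stabilizer G x) := by
  rw [Subgroup.card_eq_card_quotient_mul_card_subgroup (MulAction.stabilizer G x)]
  congr 1
  rw [← Nat.card_coe_set_eq]
  exact (Nat.card_congr (MulAction.orbitEquivQuotientStabilizer G x)).symm

/-- the stabiliser of `y` in the stabiliser of `x` is the joint stabiliser. -/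
noncomputable def stabStabEquiv {G X Y : Type*} [Group G] [MulAction G X] [MulAction G Y] (x : X) (y : Y) :
    MulAction.stabilizer ↥(MulAction.stabilizer G x) y ≃*
      ↥(MulAction.stabilizer G x ⊓ MulAction.stabilizer G y) := by
  have e : MulAction.stabilizer ↥(MulAction.stabilizer G x) y =
      (MulAction.stabilizer G x ⊓ MulAction.stabilizer G y).subgroupOf (MulAction.stabilizer G x) := by
    ext k
    rw [Subgroup.mem_subgroupOf, MulAction.mem_stabilizer_iff, Subgroup.mem_inf, MulAction.mem_stabilizer_iff,
      MulAction.mem_stabilizer_iff]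
    constructor
    · intro h; exact ⟨k.2, h⟩
    · intro h; exact h.2
  exact (MulEquiv.subgroupCongr e).trans (Subgroup.subgroupOfEquivOfLe inf_le_left)

theorem card_stab_stab {G X Y : Type*} [Group G] [MulAction G X] [MulAction G Y] (x : X) (y : Y) :
    Nat.card (MulAction.stabilizer ↥(MulAction.stabilizer G x) y) =
      Nat.card ↥(MulAction.stabilizer G x ⊓ MulAction.stabilizer G y) :=
  Nat.card_congr (stabStabEquiv x y).toEquiv

/-- two-step orbit-stabiliser. -/
theorem card_eq_orbit_orbit_mul {G X Y : Type*} [Group G] [MulAction G X] [MulAction G Y] (x : X) (y : Y) :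
    Nat.card G = (MulAction.orbit G x).ncard * ((MulAction.orbit ↥(MulAction.stabilizer G x) y).ncard *
      Nat.card ↥(MulAction.stabilizer G x ⊓ MulAction.stabilizer G y)) := by
  rw [← card_stab_stab, ← card_eq_ncard_orbit_mul, ← card_eq_ncard_orbit_mul]

end Cfsg.Agent.Lib.Helper94
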