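import Mathlib
import Cfsg.Prelude.Def_Sporadic_a
import Cfsg.Prelude.Def_SporadicCombinatorics
import Cfsg.Agent.Lib.Helper94.Fam
import Cfsg.Agent.Lib.Helper94.GolayClassFacts
import Cfsg.Agent.Lib.Helper94.OrbStab

set_option autoImplicit false
open scoped Pointwise

namespace Cfsg.Agent.Lib.Helper94

/-! ### the stabiliser of a sextet -/

theorem card_famOf {l : List ℕ} (hl : ∀ m ∈ l, m < 2 ^ 24) (hnd : l.Nodup) : (famOf l).card = l.length := by
  rw [famOf, List.toFinset_card_of_nodup, List.length_map]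
  exact List.Nodup.map_on (fun a ha b hb h => unm_injOn (hl a ha) (hl b hb) h) hnd

/-- numbers of the points of a mask. -/
def bitsOf (m : ℕ) : List ℕ := (List.range 24).filter fun i => Nat.testBit m i

theorem enc_mem_bitsOf {m : ℕ} {x : GolayPt} (hx : x ∈ unm m) : enc x ∈ bitsOf m :=
  List.mem_filter.2 ⟨List.mem_range.2 (enc_lt x), (mem_unm _ _).1 hx⟩

theorem img_mem_bitsOf {g : Equiv.Perm GolayPt} {m : ℕ} (h : g • unm m = unm m) {i : ℕ} (hi : i ∈ bitsOf m) :
    enc (g (pt i)) ∈ bitsOf m := by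
  apply enc_mem_bitsOf
  rw [← h]
  apply Finset.smul_mem_smul_finset
  obtain ⟨h1, h2⟩ := List.mem_filter.1 hi
  rw [mem_unm, enc_pt (List.mem_range.1 h1)]
  exact h2

/-- masks of the tetrads of the base sextet. -/
def l6 : List ℕ := [8388615, 147496, 268544, 1082880, 2621632, 4268048]

theorem l6_lt : ∀ m ∈ l6, m < 2 ^ 24 := by decide

theorem tet0_card : (unm 8388615).card = 4 := by
  rw [card_unm (by norm_num)]; decide +kernel

/-- the base sextet. -/
def Sx0 : Finset (Finset GolayPt) := sextetOf (unm 8388615)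

theorem Sx0_mem : Sx0 ∈ sextets := sextetOf_mem tet0_card

theorem Sx0_eq : Sx0 = famOf l6 := by
  symm
  apply Finset.eq_of_subset_of_card_le
  · intro d hd
    rw [mem_famOf l6_lt] at hd
    rw [Sx0, sextetOf, Finset.mem_filter]
    have key : ∀ m ∈ l6, popc m = 4 ∧ inCode (8388615 ^^^ m) = true := by decide +kernel
    obtain ⟨k1, k2⟩ := key _ hd
    refine ⟨Finset.mem_univ _, ?_, ?_⟩
    · rw [← unm_msk d, card_unm (msk_lt d)]; exact k1
    · rw [msk_unm (by norm_num)]; exact k2
  · rw [Sx0, card_sextetOf tet0_card, card_famOf l6_lt (by decide)]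
    decide

/-- fixing every tetrad of the base sextet. -/
def PhiK (g : Equiv.Perm GolayPt) : Prop := ∀ t ∈ Sx0, g • t = t

def psiK (A s : ℕ) : Bool := allL (fun m => Nat.beq (applyS2 A s m) m) l6

theorem psiK_iff (a s : Equiv.Perm GolayPt) : psiK (codeS a) (codeS s) = true ↔ PhiK (a * s) := by
  rw [psiK, allL_iff, PhiK, Sx0_eq]
  constructor
  · intro h t ht
    rw [mem_famOf l6_lt] at ht
    have h1 := h _ ht
    rw [Nat.beq_eq, applyS2_smul] at h1
    exact msk_injective h1
  · intro h m hm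
    have h1 := h (unm m) ((mem_famOf l6_lt).2 (by rw [msk_unm (l6_lt m hm)]; exact hm))
    have h2 := applyS2_smul a s (unm m)
    rw [h1, msk_unm (l6_lt m hm)] at h2
    rw [Nat.beq_eq, h2]

def TK : List ℕ :=
  ((bitsOf 8388615).flatMap fun a => (bitsOf 8388615).flatMap fun b => (bitsOf 8388615).flatMap fun c =>
    (bitsOf 8388615).flatMap fun d => (bitsOf 147496).map fun e => pack5 a b c d e).filter validB

def TKL : List ℕ := [35555, 35557, 35566, 35569, 56387, 56389, 56398, 56401, 67299, 67301, 67310, 67313, 89123, 89125, 89134, 89137, 754755, 754757, 754766, 754769, 755747, 755749, 755758, 755761, 1051363, 1051365, 1051374, 1051377, 1072195, 1072197, 1072206, 1072209, 1114851, 1114853, 1114862, 1114865, 1137667, 1137669, 1137678, 1137681, 1802307, 1802309, 1802318, 1802321, 1804291, 1804293, 1804302, 1804305, 2098915, 2098917, 2098926, 2098929, 2120739, 2120741, 2120750, 2120753, 2130659, 2130661, 2130670, 2130673, 2153475, 2153477, 2153486, 2153489, 2850851, 2850853,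 2850862, 2850865, 2851843, 2851845, 2851854, 2851857, 24118339, 24118341, 24118350, 24118353, 24119331, 24119333, 24119342, 24119345, 24150083, 24150085, 24150094, 24150097, 24152067, 24152069, 24152078, 24152081, 24182819, 24182821, 24182830, 24182833, 24183811, 24183813, 24183822, 24183825]

theorem TK_eq : TK = TKL := by decide +kernel

theorem TKL_nodup : TKL.Nodup := by decide +kernel

theorem TKL_valid : ∀ u ∈ TKL, ValidU u := by
  intro u hu
  rw [← TK_eq, TK, List.mem_filter] at hu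
  exact (validB_iff u).1 hu.2

theorem PhiK_img : ∀ g ∈ M24, PhiK g → imgU g ∈ TKL := by
  intro g _ h
  have h0 : g • unm 8388615 = unm 8388615 :=
    h _ (by rw [Sx0_eq, mem_famOf l6_lt, msk_unm (by norm_num)]; decide)
  have h1 : g • unm 147496 = unm 147496 :=
    h _ (by rw [Sx0_eq, mem_famOf l6_lt, msk_unm (by norm_num)]; decide)
  rw [← TK_eq, TK, List.mem_filter]
  refine ⟨?_, (validB_iff _).2 (validU_imgU g)⟩
  rw [List.mem_flatMap]
  refine ⟨_, img_mem_bitsOf h0 (i := 23) (by decide), ?_⟩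
  rw [List.mem_flatMap]
  refine ⟨_, img_mem_bitsOf h0 (i := 0) (by decide), ?_⟩
  rw [List.mem_flatMap]
  refine ⟨_, img_mem_bitsOf h0 (i := 1) (by decide), ?_⟩
  rw [List.mem_flatMap]
  refine ⟨_, img_mem_bitsOf h0 (i := 2) (by decide), ?_⟩
  rw [List.mem_map]
  exact ⟨_, img_mem_bitsOf h1 (i := 3) (by decide), rfl⟩

theorem pass_psiK : pass2 psiK TKL = 192 := by decide +kernel

theorem card_PhiK : Nat.card {g : Equiv.Perm GolayPt // g ∈ M24 ∧ PhiK g} = 192 := by
  rw [card_by_enum2 PhiK TKL TKL_nodup TKL_valid PhiK_img psiK (fun a _ s _ => psiK_iff a s), pass_psiK]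

/-- two partitions of the first tetrad into pairs. -/
def F1 : List ℕ := [8388609, 6]
def F2 : List ℕ := [8388610, 5]

theorem F1_lt : ∀ m ∈ F1, m < 2 ^ 24 := by decide
theorem F2_lt : ∀ m ∈ F2, m < 2 ^ 24 := by decide

/-- fixing every tetrad and acting on the first one as an element of the four-group. -/
def PhiN (g : Equiv.Perm GolayPt) : Prop := PhiK g ∧ g • famOf F1 = famOf F1 ∧ g • famOf F2 = famOf F2

def psiN (A s : ℕ) : Bool := psiK A s && (mapsFam (applyS2 A s) F1 && mapsFam (applyS2 A s) F2)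

theorem psiN_iff (a s : Equiv.Perm GolayPt) : psiN (codeS a) (codeS s) = true ↔ PhiN (a * s) := by
  rw [psiN, Bool.and_eq_true, Bool.and_eq_true, psiK_iff, mapsFam_iff (applyS2_hf a s) F1_lt,
    mapsFam_iff (applyS2_hf a s) F2_lt, PhiN]

theorem pass_psiN : pass2 psiN TKL = 64 := by decide +kernel

theorem card_PhiN : Nat.card {g : Equiv.Perm GolayPt // g ∈ M24 ∧ PhiN g} = 64 := by
  rw [card_by_enum2 PhiN TKL TKL_nodup TKL_valid (fun g hg h => PhiK_img g hg h.1) psiN
    (fun a _ s _ => psiN_iff a s), pass_psiN]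

/-- test: the product of the two factors squares to the identity. -/
def sq1 (A s : ℕ) : Bool :=
  all24 fun i => Nat.beq (applyS2 A s (applyS2 A s (Nat.pow 2 i))) (Nat.pow 2 i)

theorem sq1_iff (a s : Equiv.Perm GolayPt) : sq1 (codeS a) (codeS s) = true ↔ (a * s) * (a * s) = 1 := by
  rw [sq1, all24_iff]
  constructor
  · intro h
    apply Equiv.ext
    intro p
    have h1 := h (enc p) (enc_lt p)
    rw [Nat.beq_eq, Nat.pow_eq, applyS2_pt, applyS2_pt] at h1
    have h2 := enc_injective (Nat.pow_right_injective (le_refl 2) h1)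
    rw [Equiv.Perm.mul_apply, h2]
    rfl
  · intro h i hi
    have h1 := congrArg (fun f : Equiv.Perm GolayPt => f (pt i)) h
    simp only [Equiv.Perm.mul_apply (a * s) (a * s), Equiv.Perm.one_apply] at h1
    have h2 := applyS2_pt a s (pt i)
    rw [enc_pt hi] at h2
    rw [Nat.beq_eq, Nat.pow_eq, h2, applyS2_pt, h1, enc_pt hi]

theorem fail_sq : fail2 (fun A s => !psiK A s ||
    (sq1 A s == (mapsFam (applyS2 A s) F1 && mapsFam (applyS2 A s) F2))) TKL = 0 := by decide +kernel

theorem PhiK_sq : ∀ g ∈ M24, PhiK g → (g * g = 1 ↔ g • famOf F1 = famOf F1 ∧ g • famOf F2 = famOf F2) := by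
  apply forall_by_enum2 PhiK (fun g => g * g = 1 ↔ g • famOf F1 = famOf F1 ∧ g • famOf F2 = famOf F2) TKL
    PhiK_img _ _ fail_sq
  intro a _ s _ hΦ h
  rw [Bool.or_eq_true, (psiK_iff a s).2 hΦ] at h
  rcases h with h | h
  · exact absurd h (by simp)
  · rw [beq_iff_eq] at h
    rw [← sq1_iff, h, Bool.and_eq_true, mapsFam_iff (applyS2_hf a s) F1_lt, mapsFam_iff (applyS2_hf a s) F2_lt]

/-! transitivity on sextets, order of the stabiliser -/

theorem tet0_eq : unm 8388615 = {pt 23, pt 0, pt 1, pt 2} := by decide +kernel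

theorem sextet_trans {S : Finset (Finset GolayPt)} (hS : S ∈ sextets) : ∃ k ∈ M24, k • Sx0 = S := by
  obtain ⟨t, ht⟩ := sextet_nonempty hS
  have h4 := sextet_card_mem hS ht
  obtain ⟨a, t1, ha, e1, h1⟩ := Finset.card_eq_succ.1 h4
  obtain ⟨b, c, d, hbc, hbd, hcd, e2⟩ := Finset.card_eq_three.1 h1
  obtain ⟨e, he⟩ := exists_not_mem t (by rw [h4]; norm_num)
  subst e2
  rw [← e1] at he
  simp only [Finset.mem_insert, Finset.mem_singleton, not_or] at ha he
  obtain ⟨k, hk, k1, k2, k3, k4, _⟩ := five_trans (pt 23) (pt 0) (pt 1) (pt 2) (pt 3) a b c d e base5_nodup (by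
    simp only [List.nodup_cons, List.mem_cons, List.not_mem_nil, or_false, not_or, not_false_eq_true,
      List.nodup_nil, and_true]
    exact ⟨⟨ha.1, ha.2.1, ha.2.2, fun h => he.1 h.symm⟩, ⟨hbc, hbd, fun h => he.2.1 h.symm⟩,
      ⟨hcd, fun h => he.2.2.1 h.symm⟩, fun h => he.2.2.2 h.symm⟩)
  refine ⟨k, hk, ?_⟩
  rw [Sx0, smul_sextetOf hk tet0_card, sextet_eq hS ht]
  congr 1
  rw [tet0_eq, ← e1]
  simp only [Finset.smul_finset_insert, Finset.smul_finset_singleton, Equiv.Perm.smul_def, k1, k2, k3, k4]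

theorem ncard_sextets' : sextets.ncard = 1771 := by
  have h := sextet_count (fun _ => True) (fun _ => true) (fun _ _ => by simp)
  have e : {x | x ∈ sextets ∧ True} = sextets := by
    ext x; simp
  rw [e] at h
  rw [h]
  decide +kernel

theorem card_stab_sextet {S : Finset (Finset GolayPt)} (hS : S ∈ sextets) :
    Nat.card ↥(MulAction.stabilizer ↥M24 S) = 138240 := by
  have h := card_eq_ncard_orbit_mul (G := ↥M24) S
  have horb : MulAction.orbit ↥M24 S = sextets := by
    ext X
    constructor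
    · rintro ⟨g, rfl⟩
      exact smul_mem_sextets g.2 hS
    · intro hX
      obtain ⟨k, hk, e⟩ := sextet_trans hS
      obtain ⟨k', hk', e'⟩ := sextet_trans hX
      refine ⟨⟨k' * k⁻¹, M24.mul_mem hk' (M24.inv_mem hk)⟩, ?_⟩
      show (k' * k⁻¹) • S = X
      rw [← e, mul_smul, inv_smul_smul, e']
  rw [horb, card_M24, ncard_sextets'] at h
  omega

end Cfsg.Agent.Lib.Helper94
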