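import Mathlib
import Cfsg.Prelude.Def_Sporadic_a
import Cfsg.Agent.Lib.Helper94.GolayEnum2
import Cfsg.Agent.Lib.Helper94.Fam
import Cfsg.Agent.Lib.Helper94.SextetStab

set_option autoImplicit false
open scoped Pointwise

namespace Cfsg.Agent.Lib.Helper94.M22O

open Cfsg Cfsg.Agent.Lib.Helper94

/-! ### enumeration with hints -/

/-- the test `ψ A s h` holds for all `s` of the list, the hints `h` being the successive
20 bit digits of `H`. -/
noncomputable def chkS (ψ : ℕ → ℕ → ℕ → Bool) (A : ℕ) (l : List ℕ) : ℕ → Bool :=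
  List.rec (fun _ => true)
    (fun s _ ih H => Bool.rec false (ih (Nat.shiftRight H 20)) (ψ A s (Nat.land H 1048575))) l

theorem chkS_cons (ψ : ℕ → ℕ → ℕ → Bool) (A s : ℕ) (l : List ℕ) (H : ℕ) :
    chkS ψ A (s :: l) H =
      Bool.rec false (chkS ψ A l (Nat.shiftRight H 20)) (ψ A s (Nat.land H 1048575)) := rfl

theorem chkS_spec (ψ : ℕ → ℕ → ℕ → Bool) (A : ℕ) (l : List ℕ) :
    ∀ H, chkS ψ A l H = true → ∀ s ∈ l, ∃ h, ψ A s h = true := by
  induction l with
  | nil => intro H _ s hs; simp at hs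
  | cons a l ih =>
    intro H hH s hs
    rw [chkS_cons] at hH
    cases h1 : ψ A a (Nat.land H 1048575)
    · rw [h1] at hH; exact absurd hH (by simp)
    · rw [h1] at hH
      rcases List.mem_cons.1 hs with rfl | hs
      · exact ⟨_, h1⟩
      · exact ih _ hH s hs

/-- entries of the list: tuple (25 bits), then the hints. -/
noncomputable def chkT (ψ : ℕ → ℕ → ℕ → Bool) (T : List ℕ) : Bool :=
  allL (fun e => force (leadS (Nat.land e 33554431)) fun A =>
    chkS ψ A stab5S (Nat.shiftRight e 25)) T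

theorem forall_by_enum3 (Φ Ψ : Equiv.Perm GolayPt → Prop) (T : List ℕ)
    (hT : ∀ g ∈ M24, Φ g → imgU g ∈ T.map (fun e => Nat.land e 33554431))
    (ψ : ℕ → ℕ → ℕ → Bool)
    (hψ : ∀ a ∈ M24, ∀ s ∈ M24, ∀ h, Φ (a * s) → ψ (codeS a) (codeS s) h = true → Ψ (a * s))
    (chk : chkT ψ T = true) : ∀ g ∈ M24, Φ g → Ψ g := by
  intro g hg hΦ
  have hv := validU_imgU g
  obtain ⟨e, he, heq⟩ := List.mem_map.1 (hT g hg hΦ)
  have h1 := (allL_iff _ _).1 chk e he
  rw [force_eq, heq, ← stab5S_eq] at h1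
  obtain ⟨vA, mA⟩ := lead_valid hv
  have hmem := code_mem_candsU hg
  have e' : candsU (imgU g) = stab5L.map (mulM (leadM (imgU g))) := rfl
  rw [e', List.mem_map] at hmem
  obtain ⟨s, hs, hsg⟩ := hmem
  obtain ⟨e1, ms⟩ := toS_stab hs
  obtain ⟨vs, _⟩ := stab5L_spec hs
  have hg' : g = permOf (leadM (imgU g)) * permOf s := by
    rw [← permOf_mulM vA vs, hsg, permOf_code]
  obtain ⟨h, h2⟩ := chkS_spec ψ _ _ _ h1 (toS s) (List.mem_map_of_mem hs)
  rw [leadS_eq hv, e1] at h2
  rw [hg'] at hΦ ⊢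
  exact hψ _ mA _ ms h hΦ h2

/-! ### the element of order eleven -/

/-- code of `t ↦ 2 t`. -/
def X11 : ℕ := 0x400000080000010000002000000400000080000010000002000000400000080000010000002200000040000008000001000000200000040000008000001000000200000040000008000001

theorem X11_in : inM24 X11 = true := by decide +kernel

/-- the permutation `t ↦ 2 t`. -/
noncomputable def xx : Equiv.Perm GolayPt := permOf X11

theorem xx_mem : xx ∈ M24 := permOf_mem_M24 X11_in

theorem xx_apply {t : ℕ} (ht : t < 23) : xx (pt t) = pt (t * 2 % 23) := by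
  have key : ∀ t < 23, applyM X11 (2 ^ t) = 2 ^ (t * 2 % 23) := by decide +kernel
  rw [xx, permOf_apply_eq_iff (validM_of_inM24 X11_in), enc_pt (by omega),
    enc_pt (lt_trans (Nat.mod_lt _ (by norm_num)) (by norm_num))]
  exact key t ht

theorem xx_23 : xx (pt 23) = pt 23 := by
  rw [xx, permOf_apply_eq_iff (validM_of_inM24 X11_in), enc_pt (by norm_num)]
  decide +kernel

theorem xx_pow_apply (d : ℕ) {t : ℕ} (ht : t < 23) : (xx ^ d) (pt t) = pt (t * 2 ^ d % 23) := by
  induction d with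
  | zero => simp [Nat.mod_eq_of_lt ht]
  | succ d ih =>
    rw [pow_succ', Equiv.Perm.mul_apply, ih, xx_apply (Nat.mod_lt _ (by norm_num))]
    congr 1
    rw [Nat.mod_mul_mod, pow_succ, mul_assoc]

theorem xx_pow_eleven : xx ^ 11 = 1 := by
  ext1 p
  obtain ⟨i, hi, rfl⟩ : ∃ i, i < 24 ∧ p = pt i := ⟨enc p, enc_lt p, (pt_enc p).symm⟩
  by_cases h : i < 23
  · rw [xx_pow_apply 11 h, Equiv.Perm.one_apply]
    congr 1
    omega
  · have : i = 23 := by omega
    subst this
    rw [Equiv.Perm.one_apply]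
    exact Equiv.Perm.pow_apply_eq_self_of_apply_eq_self xx_23 11

theorem xx_ne_one : xx ≠ 1 := by
  intro h
  have h1 := xx_apply (t := 1) (by norm_num)
  rw [h, Equiv.Perm.one_apply] at h1
  have h2 := congrArg enc h1
  rw [enc_pt (by norm_num), enc_pt (by norm_num)] at h2
  omega

theorem orderOf_xx : orderOf xx = 11 := by
  haveI : Fact (Nat.Prime 11) := ⟨by norm_num⟩
  exact orderOf_eq_prime xx_pow_eleven xx_ne_one

/-! ### words -/

/-- image of the point number `t` under the product of the two factors. -/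
def gpt (A s t : ℕ) : ℕ := Nat.log2 (applyS2 A s (Nat.pow 2 t))

theorem gpt_spec (a s : Equiv.Perm GolayPt) {t : ℕ} (ht : t < 24) :
    gpt (codeS a) (codeS s) t = enc ((a * s) (pt t)) := by
  have h := applyS2_pt a s (pt t)
  rw [enc_pt ht] at h
  rw [gpt, Nat.pow_eq, h, Nat.log2_two_pow]

/-- apply the product of the two factors, then `t ↦ 2 ^ d t`. -/
def syl (A s d t : ℕ) : ℕ := Nat.mod (Nat.mul (gpt A s t) (Nat.pow 2 d)) 23

/-- image of a point number under a word (4 bit digits `d + 1`, first digit applied first). -/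
noncomputable def appW (A s : ℕ) (n : ℕ) : ℕ → ℕ → ℕ :=
  Nat.rec (fun _ t => t)
    (fun _ ih wd t => Bool.rec
      (force (syl A s (Nat.pred (Nat.land wd 15)) t) fun t' => ih (Nat.shiftRight wd 4) t') t
      (Nat.beq (Nat.land wd 15) 0)) n

theorem appW_zero (A s wd t : ℕ) : appW A s 0 wd t = t := rfl

theorem appW_succ (A s n wd t : ℕ) : appW A s (n + 1) wd t =
    Bool.rec (force (syl A s (Nat.pred (Nat.land wd 15)) t) fun t' =>
      appW A s n (Nat.shiftRight wd 4) t') t (Nat.beq (Nat.land wd 15) 0) := rfl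

/-- the element of the group given by a word. -/
noncomputable def wordP (g : Equiv.Perm GolayPt) : ℕ → ℕ → Equiv.Perm GolayPt
  | 0, _ => 1
  | n + 1, wd => if Nat.land wd 15 = 0 then 1
      else wordP g n (Nat.shiftRight wd 4) * (xx ^ (Nat.pred (Nat.land wd 15)) * g)

theorem wordP_mem {H : Subgroup (Equiv.Perm GolayPt)} {g : Equiv.Perm GolayPt} (hx : xx ∈ H)
    (hg : g ∈ H) : ∀ n wd, wordP g n wd ∈ H := by
  intro n
  induction n with
  | zero => intro wd; exact H.one_mem
  | succ n ih =>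
    intro wd
    rw [wordP]
    split_ifs
    · exact H.one_mem
    · exact H.mul_mem (ih _) (H.mul_mem (H.pow_mem hx _) hg)

theorem enc_lt_of_fix {g : Equiv.Perm GolayPt} (h23 : g (pt 23) = pt 23) {t : ℕ} (ht : t < 23) :
    enc (g (pt t)) < 23 := by
  have h1 := enc_lt (g (pt t))
  by_contra hc
  have h2 : enc (g (pt t)) = 23 := by omega
  have h3 : g (pt t) = pt 23 := by rw [← h2, pt_enc]
  rw [← h23] at h3
  have h4 := congrArg enc (g.injective h3)
  rw [enc_pt (by omega), enc_pt (by norm_num)] at h4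
  omega

theorem appW_spec (a s : Equiv.Perm GolayPt) (h23 : (a * s) (pt 23) = pt 23) :
    ∀ n wd t, t < 23 → appW (codeS a) (codeS s) n wd t < 23 ∧
      wordP (a * s) n wd (pt t) = pt (appW (codeS a) (codeS s) n wd t) := by
  intro n
  induction n with
  | zero => intro wd t ht; exact ⟨ht, rfl⟩
  | succ n ih =>
    intro wd t ht
    rw [appW_succ, wordP]
    by_cases h0 : Nat.land wd 15 = 0
    · have : Nat.beq (Nat.land wd 15) 0 = true := by rw [Nat.beq_eq]; exact h0
      rw [this, if_pos h0]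
      exact ⟨ht, rfl⟩
    · have : Nat.beq (Nat.land wd 15) 0 = false := by
        cases h : Nat.beq (Nat.land wd 15) 0
        · rfl
        · exact absurd (Nat.eq_of_beq_eq_true h) h0
      rw [this, if_neg h0, force_eq]
      have hlt : syl (codeS a) (codeS s) (Nat.pred (Nat.land wd 15)) t < 23 :=
        Nat.mod_lt _ (by norm_num)
      obtain ⟨i1, i2⟩ := ih (Nat.shiftRight wd 4) _ hlt
      refine ⟨i1, ?_⟩
      rw [Equiv.Perm.mul_apply, Equiv.Perm.mul_apply, ← i2]
      congr 1
      have h5 : (a * s) (pt t) = pt (enc ((a * s) (pt t))) := (pt_enc _).symm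
      rw [h5, xx_pow_apply _ (enc_lt_of_fix h23 ht), syl, gpt_spec a s (by omega)]
      rfl

/-- `k` fold image under a word. -/
noncomputable def itW (A s wd : ℕ) (k : ℕ) : ℕ → ℕ :=
  Nat.rec (fun t => t) (fun _ ih t => force (appW A s 3 wd t) fun t' => ih t') k

theorem itW_zero (A s wd t : ℕ) : itW A s wd 0 t = t := rfl
theorem itW_succ (A s wd k t : ℕ) :
    itW A s wd (k + 1) t = force (appW A s 3 wd t) fun t' => itW A s wd k t' := rfl

theorem itW_spec (a s : Equiv.Perm GolayPt) (h23 : (a * s) (pt 23) = pt 23) (wd : ℕ) :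
    ∀ k t, t < 23 → (wordP (a * s) 3 wd ^ k) (pt t) = pt (itW (codeS a) (codeS s) wd k t) := by
  intro k
  induction k with
  | zero => intro t _; rfl
  | succ k ih =>
    intro t ht
    obtain ⟨i1, i2⟩ := appW_spec a s h23 3 wd t ht
    rw [itW_succ, force_eq, pow_succ, Equiv.Perm.mul_apply, i2, ih _ i1]

theorem dvd_orderOf_of_cycle {α : Type*} {w : Equiv.Perm α} {x : α} {p : ℕ} (hp : p.Prime)
    (h1 : (w ^ p) x = x) (h2 : w x ≠ x) : p ∣ orderOf w := by
  by_contra hc
  obtain ⟨m, hm⟩ := exists_pow_eq_self_of_coprime ((Nat.Prime.coprime_iff_not_dvd hp).2 hc)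
  apply h2
  conv_lhs => rw [← hm]
  exact Equiv.Perm.pow_apply_eq_self_of_apply_eq_self h1 m

/-- the word has a cycle of length `k` (a prime) through `t`. -/
noncomputable def cycB (A s k wd t : ℕ) : Bool :=
  Nat.ble t 22 && (Nat.beq (itW A s wd k t) t && !Nat.beq (itW A s wd 1 t) t)

theorem cycB_spec (a s : Equiv.Perm GolayPt) (h23 : (a * s) (pt 23) = pt 23) {k wd t : ℕ}
    (hk : k.Prime) (h : cycB (codeS a) (codeS s) k wd t = true) :
    k ∣ orderOf (wordP (a * s) 3 wd) := by
  rw [cycB, Bool.and_eq_true, Bool.and_eq_true, Nat.ble_eq, Nat.beq_eq, Bool.not_eq_true'] at h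
  obtain ⟨h1, h2, h3⟩ := h
  have ht : t < 23 := by omega
  apply dvd_orderOf_of_cycle (x := pt t) hk
  · rw [itW_spec a s h23 wd k t ht, h2]
  · intro hc
    have h4 := itW_spec a s h23 wd 1 t ht
    rw [pow_one, hc] at h4
    have h5 := congrArg enc h4
    have h6 : itW (codeS a) (codeS s) wd 1 t < 23 := by
      rw [itW_succ, force_eq, itW_zero]
      exact (appW_spec a s h23 3 wd t ht).1
    rw [enc_pt (by omega), enc_pt (by omega)] at h5
    have : Nat.beq (itW (codeS a) (codeS s) wd 1 t) t = true := by rw [Nat.beq_eq]; exact h5.symm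
    rw [this] at h3
    exact absurd h3 (by simp)

end Cfsg.Agent.Lib.Helper94.M22O
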