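import Cfsg.Agent.Lib.Helper94.M22A
import Cfsg.Agent.Lib.Helper94.ConjSub
import Cfsg.Agent.Lib.Helper94.GolayCount

set_option autoImplicit false
open scoped Pointwise

namespace Cfsg.Agent.Lib.Helper94.M22O

open Cfsg Cfsg.Agent.Lib.Helper94

/-! ### counting Sylow subgroups of prime order -/

theorem sylow_count {G : Type*} [Group G] [Finite G] (p : ℕ) [Fact p.Prime] (K : Subgroup G)
    (x : G) (hx : x ∈ K) (ox : orderOf x = p) (hK : ¬ p ^ 2 ∣ Nat.card K) :
    ∃ n, n % p = 1 ∧ Nat.card K = n *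
      Nat.card ↥(Subgroup.normalizer ((Subgroup.zpowers x : Subgroup G) : Set G) ⊓ K) := by
  have hp : p.Prime := Fact.out
  have hle : Subgroup.zpowers x ≤ K := (Subgroup.zpowers_le).2 hx
  have hcP : Nat.card ((Subgroup.zpowers x).subgroupOf K) = p := by
    rw [Nat.card_congr (Subgroup.subgroupOfEquivOfLe hle).toEquiv, Nat.card_zpowers, ox]
  have hfac : (Nat.card K).factorization p = 1 := by
    have h0 : Nat.card K ≠ 0 := Nat.card_pos.ne'
    have h1 : 1 ≤ (Nat.card K).factorization p := by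
      rw [← hp.pow_dvd_iff_le_factorization h0, pow_one, ← ox]
      exact Subgroup.orderOf_dvd_natCard K hx
    have h2 : ¬ 2 ≤ (Nat.card K).factorization p := by
      rw [← hp.pow_dvd_iff_le_factorization h0]; exact hK
    omega
  let P : Sylow p K := Sylow.ofCard ((Subgroup.zpowers x).subgroupOf K) (by rw [hcP, hfac, pow_one])
  have h1 : Nat.card (Sylow p K) ≡ 1 [MOD p] := card_sylow_modEq_one p K
  have h2 := P.card_eq_index_normalizer
  have h3 : Subgroup.normalizer ((P : Subgroup K) : Set K) =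
      (Subgroup.normalizer ((Subgroup.zpowers x : Subgroup G) : Set G)).subgroupOf K :=
    (Subgroup.subgroupOf_normalizer_eq hle).symm
  have h4 : Nat.card ((Subgroup.normalizer ((Subgroup.zpowers x : Subgroup G) : Set G)).subgroupOf K)
      = Nat.card ↥(Subgroup.normalizer ((Subgroup.zpowers x : Subgroup G) : Set G) ⊓ K) := by
    rw [← Subgroup.inf_subgroupOf_right]
    exact Nat.card_congr (Subgroup.subgroupOfEquivOfLe inf_le_right).toEquiv
  refine ⟨Nat.card (Sylow p K), ?_, ?_⟩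
  · have := h1
    rw [Nat.ModEq, Nat.mod_eq_of_lt hp.one_lt] at this
    exact this
  · rw [h2, ← h4, ← h3]
    exact (Subgroup.index_mul_card _).symm

/-! ### lists and tests -/

def anyE (q : ℕ → Bool) : List ℕ → Bool
  | [] => false
  | a :: l => q a || anyE q l

theorem anyE_iff (q : ℕ → Bool) (l : List ℕ) : anyE q l = true ↔ ∃ x ∈ l, q x = true := by
  induction l with
  | nil => simp [anyE]
  | cons a l ih => rw [anyE, Bool.or_eq_true, ih, List.exists_mem_cons_iff]

def r23 : List ℕ := [1, 2, 3, 4, 5, 6, 7, 8, 9, 10, 11, 12, 13, 14, 15, 16, 17, 18, 19, 20, 21, 22, 0]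
def r11 : List ℕ := [0, 1, 2, 3, 4, 5, 6, 7, 8, 9, 10]

theorem mem_r23 (t : ℕ) : t ∈ r23 ↔ t < 23 := by
  constructor
  · intro h
    simp only [r23, List.mem_cons, List.not_mem_nil, or_false] at h
    omega
  · intro h
    unfold r23
    interval_cases t <;> simp

theorem mem_r11 (t : ℕ) : t ∈ r11 ↔ t < 11 := by
  constructor
  · intro h
    simp only [r11, List.mem_cons, List.not_mem_nil, or_false] at h
    omega
  · intro h
    unfold r11
    interval_cases t <;> simp

theorem gpt_beq_iff (a s : Equiv.Perm GolayPt) {t c : ℕ} (ht : t < 24) (hc : c < 24) :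
    Nat.beq (gpt (codeS a) (codeS s) t) c = true ↔ (a * s) (pt t) = pt c := by
  rw [Nat.beq_eq, gpt_spec a s ht, enc_eq_iff hc]

/-! ### the normaliser of the group of order eleven -/

def Phi11 (g : Equiv.Perm GolayPt) : Prop :=
  g (pt 23) = pt 23 ∧ g (pt 0) = pt 0 ∧ ∃ k < 11, ∀ t < 23,
    enc (g (pt (t * 2 % 23))) = enc (g (pt t)) * 2 ^ k % 23

def psi11 (A s : ℕ) : Bool :=
  Nat.beq (gpt A s 23) 23 && (Nat.beq (gpt A s 0) 0 && anyE (fun k => allL (fun t =>
    Nat.beq (gpt A s (Nat.mod (Nat.mul t 2) 23)) (Nat.mod (Nat.mul (gpt A s t) (Nat.pow 2 k)) 23))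
    r23) r11)

theorem psi11_iff (a s : Equiv.Perm GolayPt) :
    psi11 (codeS a) (codeS s) = true ↔ Phi11 (a * s) := by
  rw [psi11, Bool.and_eq_true, Bool.and_eq_true, gpt_beq_iff a s (by norm_num) (by norm_num),
    gpt_beq_iff a s (by norm_num) (by norm_num), anyE_iff, Phi11]
  refine and_congr Iff.rfl (and_congr Iff.rfl ?_)
  constructor
  · rintro ⟨k, hk, h⟩
    refine ⟨k, (mem_r11 k).1 hk, ?_⟩
    intro t ht
    have h1 := (allL_iff _ _).1 h t ((mem_r23 t).2 ht)
    have hm : Nat.mod (Nat.mul t 2) 23 < 24 := lt_trans (Nat.mod_lt _ (by norm_num)) (by norm_num)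
    rw [Nat.beq_eq, gpt_spec a s hm, gpt_spec a s (by omega)] at h1
    exact h1
  · rintro ⟨k, hk, h⟩
    refine ⟨k, (mem_r11 k).2 hk, ?_⟩
    rw [allL_iff]
    intro t ht
    have hm : Nat.mod (Nat.mul t 2) 23 < 24 := lt_trans (Nat.mod_lt _ (by norm_num)) (by norm_num)
    rw [Nat.beq_eq, gpt_spec a s hm, gpt_spec a s (by have := (mem_r23 t).1 ht; omega)]
    exact h t ((mem_r23 t).1 ht)

def T11 : List ℕ :=
  ((bitsOf 8388606).flatMap fun a => r11.map fun k =>
    pack5 23 0 a (a * 2 ^ k % 23) (a * 2 ^ (k * 8) % 23)).filter validB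

theorem T11_nodup : T11.Nodup := by decide +kernel

theorem T11_valid : ∀ u ∈ T11, ValidU u := by
  intro u hu
  rw [T11, List.mem_filter] at hu
  exact (validB_iff u).1 hu.2

theorem chain11 {g : Equiv.Perm GolayPt} {k : ℕ}
    (h : ∀ t < 23, enc (g (pt (t * 2 % 23))) = enc (g (pt t)) * 2 ^ k % 23) (j : ℕ) :
    enc (g (pt (2 ^ j % 23))) = enc (g (pt 1)) * 2 ^ (k * j) % 23 := by
  induction j with
  | zero =>
    have h1 := h 12 (by norm_num)
    have h2 : enc (g (pt 1)) < 23 := by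
      have : (12 * 2 % 23) = 1 := by norm_num
      rw [this] at h1
      rw [h1]
      exact Nat.mod_lt _ (by norm_num)
    simp [Nat.mod_eq_of_lt h2]
  | succ j ih =>
    have e : 2 ^ (j + 1) % 23 = (2 ^ j % 23) * 2 % 23 := by rw [Nat.mod_mul_mod, pow_succ]
    rw [e, h _ (Nat.mod_lt _ (by norm_num)), ih, Nat.mod_mul_mod, mul_assoc, ← pow_add]
    congr 3

theorem Phi11_img : ∀ g ∈ M24, Phi11 g → imgU g ∈ T11 := by
  rintro g _ ⟨h23, h0, k, hk, h⟩
  rw [T11, List.mem_filter]
  refine ⟨?_, (validB_iff _).2 (validU_imgU g)⟩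
  rw [List.mem_flatMap]
  refine ⟨enc (g (pt 1)), mem_bits22 h23 h0 (by norm_num) (by norm_num), ?_⟩
  rw [List.mem_map]
  refine ⟨k, (mem_r11 k).2 hk, ?_⟩
  have e2 := chain11 h 1
  have e3 := chain11 h 8
  have n2 : 2 ^ 1 % 23 = 2 := by norm_num
  have n3 : 2 ^ 8 % 23 = 3 := by norm_num
  rw [n2, mul_one] at e2
  rw [n3] at e3
  rw [imgU, h23, h0, enc_pt (by norm_num), enc_pt (by norm_num), e2, e3]

theorem pass_psi11 : pass2 psi11 T11 = 55 := by decide +kernel

theorem card_Phi11 : Nat.card {g : Equiv.Perm GolayPt // g ∈ M24 ∧ Phi11 g} = 55 := by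
  rw [card_by_enum2 Phi11 T11 T11_nodup T11_valid Phi11_img psi11 (fun a _ s _ => psi11_iff a s),
    pass_psi11]

theorem exists_pow_of_mem_zpowers {G : Type*} [Group G] {x y : G} {n : ℕ} (hn : 0 < n)
    (ox : orderOf x = n) (h : y ∈ Subgroup.zpowers x) : ∃ k < n, y = x ^ k := by
  classical
  have hfin : IsOfFinOrder x := by rw [← orderOf_pos_iff, ox]; exact hn
  rw [← hfin.mem_powers_iff_mem_zpowers, hfin.mem_powers_iff_mem_range_orderOf] at h
  obtain ⟨k, hk, rfl⟩ := Finset.mem_image.1 h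
  exact ⟨k, by rw [← ox]; exact Finset.mem_range.1 hk, rfl⟩

theorem mem_N11_iff (g : Equiv.Perm GolayPt) :
    g ∈ Subgroup.normalizer ((Subgroup.zpowers xx : Subgroup (Equiv.Perm GolayPt)) : Set _) ⊓
      fixG [0, 23] ↔ g ∈ M24 ∧ Phi11 g := by
  rw [Subgroup.mem_inf, mem_normalizer_zpowers_iff]
  constructor
  · rintro ⟨h1, h2⟩
    refine ⟨(mem_fixG.1 h2).1, fix_23 h2, fix_0 h2, ?_⟩
    obtain ⟨k, hk, e⟩ := exists_pow_of_mem_zpowers (by norm_num) orderOf_xx h1
    refine ⟨k, hk, ?_⟩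
    intro t ht
    have e1 : g * xx = xx ^ k * g := by rw [← e]; group
    have e2 := congrArg (fun f : Equiv.Perm GolayPt => f (pt t)) e1
    simp only [Equiv.Perm.mul_apply] at e2
    rw [xx_apply ht] at e2
    rw [e2]
    conv_lhs => rw [← pt_enc (g (pt t))]
    rw [xx_pow_apply k (enc_lt_of_fix (fix_23 h2) ht),
      enc_pt (lt_trans (Nat.mod_lt _ (by norm_num)) (by norm_num))]
  · rintro ⟨hM, h23, h0, k, _, h⟩
    refine ⟨?_, mem_fixG.2 ⟨hM, ?_⟩⟩
    · have e1 : g * xx = xx ^ k * g := by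
        ext1 p
        obtain ⟨i, hi, rfl⟩ : ∃ i, i < 24 ∧ p = pt i := ⟨enc p, enc_lt p, (pt_enc p).symm⟩
        rw [Equiv.Perm.mul_apply, Equiv.Perm.mul_apply]
        by_cases hi' : i < 23
        · rw [xx_apply hi']
          conv_rhs => rw [← pt_enc (g (pt i))]
          rw [xx_pow_apply k (enc_lt_of_fix h23 hi'), ← h i hi', pt_enc]
        · have : i = 23 := by omega
          subst this
          rw [xx_23, h23]
          exact (Equiv.Perm.pow_apply_eq_self_of_apply_eq_self xx_23 k).symm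
      have e2 : g * xx * g⁻¹ = xx ^ k := by rw [e1]; group
      rw [e2]
      exact Subgroup.pow_mem _ (Subgroup.mem_zpowers _) k
    · intro t ht
      simp only [List.mem_cons, List.not_mem_nil, or_false] at ht
      rcases ht with rfl | rfl
      · exact h0
      · exact h23

theorem card_N11 : Nat.card ↥(Subgroup.normalizer
    ((Subgroup.zpowers xx : Subgroup (Equiv.Perm GolayPt)) : Set _) ⊓ fixG [0, 23]) = 55 := by
  rw [← card_Phi11]
  exact Nat.card_congr (Equiv.subtypeEquivRight mem_N11_iff)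

end Cfsg.Agent.Lib.Helper94.M22O
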