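import Cfsg.Agent.Lib.Helper94.GolayConj
import Cfsg.Agent.Lib.Helper94.Fam

set_option autoImplicit false
open scoped Pointwise

namespace Cfsg.Agent.Lib.Helper94.M23S

open Cfsg Cfsg.Agent.Lib.Helper94

/-! ### general lemmas -/

/-- a `p`-subgroup is conjugate into any subgroup of index prime to `p`. -/
theorem exists_conj_le {G : Type*} [Group G] (p : ℕ) [Fact p.Prime] (M K E : Subgroup G)
    (hE : E ≤ M) (hp : IsPGroup p E) (hi : ¬ p ∣ K.relIndex M) :
    ∃ g ∈ M, ∀ e ∈ E, g⁻¹ * e * g ∈ K := by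
  have hp' : IsPGroup p (E.subgroupOf M) := hp.of_equiv (Subgroup.subgroupOfEquivOfLe hE).symm
  obtain ⟨q, hq⟩ := hp'.nonempty_fixed_point_of_prime_not_dvd_card (↥M ⧸ K.subgroupOf M) (by
    rw [← Subgroup.index_eq_card]; exact hi)
  induction q using QuotientGroup.induction_on with
  | H g =>
    refine ⟨g, g.2, fun e he => ?_⟩
    have h1 := hq ⟨⟨e, hE he⟩, Subgroup.mem_subgroupOf.2 he⟩
    have h2 : (((⟨e, hE he⟩ : ↥M) * g : ↥M) : ↥M ⧸ K.subgroupOf M) = (g : ↥M ⧸ K.subgroupOf M) := h1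
    rw [eq_comm, QuotientGroup.eq, Subgroup.mem_subgroupOf] at h2
    have h3 : ((g⁻¹ * ((⟨e, hE he⟩ : ↥M) * g) : ↥M) : G) = (g : G)⁻¹ * e * g := by
      simp [mul_assoc]
    rw [← h3]; exact h2

theorem pow_mem_of_inv {α : Type*} (t : Equiv.Perm α) (Y : Finset α) (hY : ∀ y ∈ Y, t y ∈ Y)
    (n : ℕ) : ∀ y ∈ Y, (t ^ n) y ∈ Y := by
  induction n with
  | zero => intro y hy; simpa using hy
  | succ n ih =>
    intro y hy
    rw [pow_succ', Equiv.Perm.mul_apply]
    exact hY _ (ih y hy)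

/-- an element of prime order fixes every point of an invariant set with fewer than `p` points. -/
theorem fix_of_prime {α : Type*} (t : Equiv.Perm α) {p : ℕ} (hp : p.Prime)
    (ht : orderOf t = p) (Y : Finset α) (hY : ∀ y ∈ Y, t y ∈ Y) (hc : Y.card < p) :
    ∀ y ∈ Y, t y = y := by
  intro y hy
  have h1 := card_eq_orbit_mul (Subgroup.zpowers t) y
  rw [Nat.card_zpowers, ht] at h1
  have hsub : MulAction.orbit (Subgroup.zpowers t) y ⊆ (Y : Set α) := by
    rintro _ ⟨⟨g, hg⟩, rfl⟩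
    have hfin : IsOfFinOrder t := by rw [← orderOf_pos_iff, ht]; exact hp.pos
    rw [← hfin.mem_powers_iff_mem_zpowers] at hg
    obtain ⟨n, rfl⟩ := hg
    exact pow_mem_of_inv t Y hY n y hy
  have hle : (MulAction.orbit (Subgroup.zpowers t) y).ncard ≤ Y.card := by
    rw [← Set.ncard_coe_finset]
    exact Set.ncard_le_ncard hsub (Finset.finite_toSet Y)
  have hd : (MulAction.orbit (Subgroup.zpowers t) y).ncard ∣ p := ⟨_, h1⟩
  rcases (Nat.dvd_prime hp).1 hd with h | h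
  · obtain ⟨a, ha⟩ := Set.ncard_eq_one.1 h
    have e1 : y ∈ MulAction.orbit (Subgroup.zpowers t) y := MulAction.mem_orbit_self y
    have e2 : t y ∈ MulAction.orbit (Subgroup.zpowers t) y :=
      ⟨⟨t, Subgroup.mem_zpowers t⟩, rfl⟩
    rw [ha, Set.mem_singleton_iff] at e1 e2
    rw [e2, e1]
  · omega

/-! ### elements with three or four fixed points -/

theorem orderOf_conj' (k t : Equiv.Perm GolayPt) : orderOf (k * t * k⁻¹) = orderOf t := by
  have := (MulAut.conj k).orderOf_eq t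
  rwa [MulAut.conj_apply] at this

theorem conj_fix {k t : Equiv.Perm GolayPt} {a b : GolayPt} (hk : k a = b) (ht : t a = a) :
    (k * t * k⁻¹) b = b := by
  rw [← hk, conj_apply, ht]

theorem order_dvd_of_fix3 {t : Equiv.Perm GolayPt} (ht : t ∈ M24) {a b c : GolayPt} (hab : a ≠ b)
    (hac : a ≠ c) (hbc : b ≠ c) (ha : t a = a) (hb : t b = b) (hc : t c = c) :
    orderOf t ∣ 20160 := by
  obtain ⟨d, hd⟩ := exists_not_mem {a, b, c} (lt_of_le_of_lt (Finset.card_le_three) (by norm_num))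
  obtain ⟨e, he⟩ := exists_not_mem {a, b, c, d} (lt_of_le_of_lt (Finset.card_le_four) (by norm_num))
  simp only [Finset.mem_insert, Finset.mem_singleton, not_or] at hd he
  obtain ⟨k, hk, k1, k2, k3, _, _⟩ := five_trans_to_base a b c d e (by
    simp only [List.nodup_cons, List.mem_cons, List.not_mem_nil, or_false, not_or,
      not_false_eq_true, List.nodup_nil, and_true]
    exact ⟨⟨hab, hac, Ne.symm hd.1, Ne.symm he.1⟩, ⟨hbc, Ne.symm hd.2.1, Ne.symm he.2.1⟩,
      ⟨Ne.symm hd.2.2, Ne.symm he.2.2.1⟩, Ne.symm he.2.2.2⟩)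
  rw [← orderOf_conj' k t, ← card_fixG3]
  apply Subgroup.orderOf_dvd_natCard
  rw [mem_fixG]
  refine ⟨conj_mem_M24 hk ht, ?_⟩
  intro i hi
  simp only [List.mem_cons, List.not_mem_nil, or_false] at hi
  rcases hi with rfl | rfl | rfl
  · exact conj_fix k3 hc
  · exact conj_fix k2 hb
  · exact conj_fix k1 ha

theorem order_dvd_of_fix4 {t : Equiv.Perm GolayPt} (ht : t ∈ M24) {a b c d : GolayPt} (hab : a ≠ b)
    (hac : a ≠ c) (hbc : b ≠ c) (hd : d ∉ ({a, b, c} : Finset GolayPt))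
    (ha : t a = a) (hb : t b = b) (hc : t c = c) (hd' : t d = d) :
    orderOf t ∣ 960 := by
  obtain ⟨e, he⟩ := exists_not_mem {a, b, c, d} (lt_of_le_of_lt (Finset.card_le_four) (by norm_num))
  simp only [Finset.mem_insert, Finset.mem_singleton, not_or] at hd he
  obtain ⟨k, hk, k1, k2, k3, k4, _⟩ := five_trans_to_base a b c d e (by
    simp only [List.nodup_cons, List.mem_cons, List.not_mem_nil, or_false, not_or,
      not_false_eq_true, List.nodup_nil, and_true]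
    exact ⟨⟨hab, hac, Ne.symm hd.1, Ne.symm he.1⟩, ⟨hbc, Ne.symm hd.2.1, Ne.symm he.2.1⟩,
      ⟨Ne.symm hd.2.2, Ne.symm he.2.2.1⟩, Ne.symm he.2.2.2⟩)
  rw [← orderOf_conj' k t, ← card_fixG4]
  apply Subgroup.orderOf_dvd_natCard
  rw [mem_fixG]
  refine ⟨conj_mem_M24 hk ht, ?_⟩
  intro i hi
  simp only [List.mem_cons, List.not_mem_nil, or_false] at hi
  rcases hi with rfl | rfl | rfl | rfl
  · exact conj_fix k4 hd'
  · exact conj_fix k3 hc
  · exact conj_fix k2 hb
  · exact conj_fix k1 ha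

theorem order_dvd_3 {t : Equiv.Perm GolayPt} (ht : t ∈ M24) (Y : Finset GolayPt)
    (hfix : ∀ y ∈ Y, t y = y) (h3 : 3 ≤ Y.card) : orderOf t ∣ 20160 := by
  obtain ⟨a, ha, b, hb, c, hc, hab, hac, hbc⟩ := Finset.two_lt_card.1 h3
  exact order_dvd_of_fix3 ht hab hac hbc (hfix a ha) (hfix b hb) (hfix c hc)

theorem order_dvd_4 {t : Equiv.Perm GolayPt} (ht : t ∈ M24) (Y : Finset GolayPt)
    (hfix : ∀ y ∈ Y, t y = y) (h4 : 4 ≤ Y.card) : orderOf t ∣ 960 := by
  obtain ⟨a, ha, b, hb, c, hc, hab, hac, hbc⟩ := Finset.two_lt_card.1 (by omega : 2 < Y.card)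
  obtain ⟨d, hd, hd'⟩ := Finset.exists_mem_notMem_of_card_lt_card
    (lt_of_le_of_lt (Finset.card_le_three (a := a) (b := b) (c := c)) (by omega : 3 < Y.card))
  exact order_dvd_of_fix4 ht hab hac hbc hd' (hfix a ha) (hfix b hb) (hfix c hc) (hfix d hd)

/-! ### the elementary abelian group of order 16 -/

/-- the elements fixing six points of the base octad. -/
def E0 : Subgroup (Equiv.Perm GolayPt) := fixG [5, 3, 2, 1, 0, 23]

theorem E0_le5 : E0 ≤ fixG [3, 2, 1, 0, 23] := fixG_mono (by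
  intro t ht; exact List.mem_cons_of_mem _ ht)

theorem E0_le : E0 ≤ fixG [23] := fixG_mono (by
  intro t ht; rw [List.mem_singleton.1 ht]; simp)

def anyL (q : ℕ → Bool) : List ℕ → Bool
  | [] => false
  | a :: l => q a || anyL q l

theorem anyL_iff (q : ℕ → Bool) (l : List ℕ) : anyL q l = true ↔ ∃ x ∈ l, q x = true := by
  induction l with
  | nil => simp [anyL]
  | cons a l ih => rw [anyL, Bool.or_eq_true, ih, List.exists_mem_cons_iff]

theorem sq_check : allL (fun P => !(Nat.beq (applyM P 32) 32) || Nat.beq (mulM P P) idM) stab5L = true := by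
  decide +kernel

theorem E0_sq {g : Equiv.Perm GolayPt} (hg : g ∈ E0) : g * g = 1 := by
  have h1 := (allL_iff _ _).1 sq_check _ (code_mem_stab5L (E0_le5 hg))
  have h5 : g (pt 5) = pt 5 := (mem_fixG.1 hg).2 5 (by simp)
  have h2 : applyM (code g) 32 = 32 := by
    have := applyM_code_pt g (pt 5)
    rw [h5, enc_pt (by norm_num)] at this
    exact this
  rw [h2] at h1
  have h3 : Nat.beq (mulM (code g) (code g)) idM = true := by simpa using h1
  rw [Nat.beq_eq, ← code_mul, ← code_one] at h3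
  exact code_injective h3

theorem E0_pgroup : IsPGroup 2 E0 := by
  intro g
  refine ⟨1, ?_⟩
  apply Subtype.ext
  rw [pow_one, pow_two]
  exact E0_sq g.2

def outL : List ℕ := [4, 6, 7, 8, 9, 10, 11, 12, 13, 15, 16, 18, 19, 20, 21, 22]

theorem tr_check : allL (fun j => anyL (fun P => Nat.beq (applyM P 32) 32 &&
    Nat.beq (applyM P 16) (Nat.pow 2 j)) stab5L) outL = true := by
  decide +kernel

theorem mem_outL {z : GolayPt} (hz : z ∉ unm 8536111) : enc z ∈ outL := by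
  have key : ∀ j < 24, (8536111 : ℕ).testBit j ≠ true → j ∈ outL := by decide
  rw [mem_unm] at hz
  exact key _ (enc_lt z) hz

theorem E0_move {z : GolayPt} (hz : z ∉ unm 8536111) : ∃ e ∈ E0, e (pt 4) = z := by
  have h1 := (allL_iff _ _).1 tr_check _ (mem_outL hz)
  obtain ⟨P, hP, h2⟩ := (anyL_iff _ _).1 h1
  rw [Bool.and_eq_true, Nat.beq_eq, Nat.beq_eq] at h2
  obtain ⟨vP, mP⟩ := stab5L_spec hP
  refine ⟨permOf P, ?_, ?_⟩
  · rw [E0, fixG_cons]
    refine ⟨mP, MulAction.mem_stabilizer_iff.2 ?_⟩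
    show permOf P (pt 5) = pt 5
    rw [permOf_apply_eq_iff vP, enc_pt (by norm_num)]
    exact h2.1
  · rw [permOf_apply_eq_iff vP, enc_pt (by norm_num)]
    exact h2.2

theorem E0_trans {z z' : GolayPt} (hz : z ∉ unm 8536111) (hz' : z' ∉ unm 8536111) :
    ∃ e ∈ E0, e z = z' := by
  obtain ⟨a, ha, ea⟩ := E0_move hz
  obtain ⟨b, hb, eb⟩ := E0_move hz'
  refine ⟨b * a⁻¹, E0.mul_mem hb (E0.inv_mem ha), ?_⟩
  rw [Equiv.Perm.mul_apply, ← ea]
  have : a⁻¹ (a (pt 4)) = pt 4 := a.symm_apply_apply _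
  rw [this, eb]

/-! ### subgroups of order 40320 of the point stabiliser -/

theorem smul_mem_of_smul_eq {g : Equiv.Perm GolayPt} {W : Finset GolayPt} (h : g • W = W) :
    ∀ y ∈ W, g y ∈ W := by
  intro y hy
  have := Finset.smul_mem_smul_finset (a := g) hy
  rw [h] at this
  exact this

theorem eq_of_stab (K : Subgroup (Equiv.Perm GolayPt)) (hK : K ≤ fixG [23])
    (hc : Nat.card K = 40320) (W : Finset GolayPt) (h3 : 3 ≤ (insert (pt 23) W).card)
    (h8 : (insert (pt 23) W).card ≤ 8) (hKW : ∀ k ∈ K, k • W = W) :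
    ∀ g, g ∈ K ↔ g ∈ fixG [23] ∧ g • W = W := by
  have hKS : K ≤ fixG [23] ⊓ MulAction.stabilizer (Equiv.Perm GolayPt) W :=
    fun k hk => ⟨hK hk, MulAction.mem_stabilizer_iff.2 (hKW k hk)⟩
  have hnot : ∀ p : ℕ, p.Prime → 8 < p → ¬ p ∣ 20160 →
      ¬ p ∣ Nat.card ↥(fixG [23] ⊓ MulAction.stabilizer (Equiv.Perm GolayPt) W) := by
    intro p hp h8p hnd hdvd
    have : Fact p.Prime := ⟨hp⟩
    obtain ⟨t, ht⟩ := exists_prime_orderOf_dvd_card' p hdvd
    have ht' : orderOf (t : Equiv.Perm GolayPt) = p := by rw [Subgroup.orderOf_coe]; exact ht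
    have hm := t.2
    have h23 : (t : Equiv.Perm GolayPt) (pt 23) = pt 23 := (mem_fixG.1 hm.1).2 23 (by simp)
    have hW : (t : Equiv.Perm GolayPt) • W = W := MulAction.mem_stabilizer_iff.1 hm.2
    have hinv : ∀ y ∈ insert (pt 23) W, (t : Equiv.Perm GolayPt) y ∈ insert (pt 23) W := by
      intro y hy
      rcases Finset.mem_insert.1 hy with rfl | hy
      · rw [h23]; exact Finset.mem_insert_self _ _
      · exact Finset.mem_insert_of_mem (smul_mem_of_smul_eq hW y hy)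
    have hfix := fix_of_prime _ hp ht' _ hinv (by omega)
    have := order_dvd_3 (mem_fixG.1 hm.1).1 _ hfix h3
    rw [ht'] at this
    exact hnd this
  have h11 := hnot 11 (by norm_num) (by norm_num) (by norm_num)
  have h23 := hnot 23 (by norm_num) (by norm_num) (by norm_num)
  have hd : Nat.card ↥(fixG [23] ⊓ MulAction.stabilizer (Equiv.Perm GolayPt) W) ∣ 10200960 := by
    rw [← card_fixG1]; exact Subgroup.card_dvd_of_le inf_le_left
  have hd2 : Nat.card ↥(fixG [23] ⊓ MulAction.stabilizer (Equiv.Perm GolayPt) W) ∣ 40320 := by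
    have c11 : Nat.Coprime (Nat.card ↥(fixG [23] ⊓ MulAction.stabilizer (Equiv.Perm GolayPt) W)) 11 :=
      ((Nat.Prime.coprime_iff_not_dvd (by norm_num)).2 h11).symm
    have c23 : Nat.Coprime (Nat.card ↥(fixG [23] ⊓ MulAction.stabilizer (Equiv.Perm GolayPt) W)) 23 :=
      ((Nat.Prime.coprime_iff_not_dvd (by norm_num)).2 h23).symm
    have e : (10200960 : ℕ) = 40320 * 11 * 23 := by norm_num
    rw [e] at hd
    exact c11.dvd_of_dvd_mul_right (c23.dvd_of_dvd_mul_right hd)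
  have hKS' : K = fixG [23] ⊓ MulAction.stabilizer (Equiv.Perm GolayPt) W :=
    Subgroup.eq_of_le_of_card_ge hKS (by rw [hc]; exact Nat.le_of_dvd (by norm_num) hd2)
  intro g
  rw [hKS', Subgroup.mem_inf, MulAction.mem_stabilizer_iff]

theorem arith_key : ∀ y < 9, 1 ≤ y → (24 - y) ∣ 40320 → ¬ (4 ≤ y ∧ y < 7) → y = 8 ∨ y = 3 := by
  decide

theorem main_base (K : Subgroup (Equiv.Perm GolayPt)) (hK : K ≤ fixG [23])
    (hc : Nat.card K = 40320) :
    (∃ s : Finset GolayPt, s.card = 2 ∧ pt 23 ∉ s ∧ ∀ g, g ∈ K ↔ g ∈ fixG [23] ∧ g • s = s) ∨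
    (∃ o ∈ octads, pt 23 ∈ o ∧ ∀ g, g ∈ K ↔ g ∈ fixG [23] ∧ g • o = o) := by
  classical
  have : Fact (Nat.Prime 2) := ⟨by norm_num⟩
  have : Fact (Nat.Prime 7) := ⟨by norm_num⟩
  have hri : K.relIndex (fixG [23]) = 253 := by
    have := Subgroup.relIndex_mul_relIndex (⊥ : Subgroup (Equiv.Perm GolayPt)) K (fixG [23]) bot_le hK
    rw [Subgroup.relIndex_bot_left, Subgroup.relIndex_bot_left, hc, card_fixG1] at this
    omega
  obtain ⟨g, hg, hE⟩ := exists_conj_le 2 (fixG [23]) K E0 E0_le E0_pgroup (by rw [hri]; norm_num)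
  have hgM : g ∈ M24 := (mem_fixG.1 hg).1
  have hg23 : g (pt 23) = pt 23 := (mem_fixG.1 hg).2 23 (by simp)
  have hoct : g⁻¹ • unm 8536111 ∈ octads :=
    (smul_mem_octads_iff (M24.inv_mem hgM) _).2 baseOctad_mem
  have mem_o : ∀ z, z ∈ g⁻¹ • unm 8536111 ↔ g z ∈ unm 8536111 := by
    intro z
    rw [Finset.mem_inv_smul_finset_iff]; rfl
  generalize g⁻¹ • unm 8536111 = o at hoct mem_o
  have h23o : pt 23 ∈ o := by
    rw [mem_o, hg23, mem_unm, enc_pt (by norm_num)]; decide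
  have htr : ∀ z z', z ∉ o → z' ∉ o → ∃ k ∈ K, k z = z' := by
    intro z z' hz hz'
    rw [mem_o] at hz hz'
    obtain ⟨e, he, hee⟩ := E0_trans hz hz'
    refine ⟨g⁻¹ * e * g, hE e he, ?_⟩
    rw [Equiv.Perm.mul_apply, Equiv.Perm.mul_apply, hee]
    exact g.symm_apply_apply z'
  obtain ⟨z0, hz0⟩ : ∃ z0, z0 ∉ o := exists_not_mem o (by rw [octad_card hoct]; norm_num)
  obtain ⟨Y, memY⟩ : ∃ Y : Finset GolayPt, ∀ y, y ∈ Y ↔ y ∉ MulAction.orbit K z0 :=
    ⟨Finset.univ.filter (fun y => y ∉ MulAction.orbit K z0), by intro y; simp⟩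
  have hYo : Y ⊆ o := by
    intro y hy
    by_contra hyo
    obtain ⟨k, hk, e⟩ := htr z0 y hz0 hyo
    exact (memY y).1 hy ⟨⟨k, hk⟩, e⟩
  have hK23 : ∀ k ∈ K, k (pt 23) = pt 23 := fun k hk => (mem_fixG.1 (hK hk)).2 23 (by simp)
  have h23Y : pt 23 ∈ Y := by
    rw [memY]
    rintro ⟨⟨k, hk⟩, e⟩
    have e' : k z0 = pt 23 := e
    rw [← hK23 k hk] at e'
    exact hz0 (by rw [k.injective e']; exact h23o)
  have hYinv : ∀ k ∈ K, ∀ y ∈ Y, k y ∈ Y := by
    intro k hk y hy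
    rw [memY] at hy ⊢
    rintro ⟨⟨k', hk'⟩, e⟩
    apply hy
    refine ⟨⟨k⁻¹ * k', K.mul_mem (K.inv_mem hk) hk'⟩, ?_⟩
    show (k⁻¹ * k') z0 = y
    have e' : k' z0 = k y := e
    rw [Equiv.Perm.mul_apply, e']
    exact k.symm_apply_apply y
  have hcardY : Y.card + (MulAction.orbit K z0).ncard = 24 := by
    have h1 : (MulAction.orbit K z0) = ((Yᶜ : Finset GolayPt) : Set GolayPt) := by
      ext y
      rw [Finset.mem_coe, Finset.mem_compl, memY, not_not]
    rw [h1, Set.ncard_coe_finset, Finset.card_add_card_compl, card_golayPt]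
  have hdvd : (MulAction.orbit K z0).ncard ∣ 40320 := by
    rw [← hc]; exact ⟨_, card_eq_orbit_mul K z0⟩
  have hY8 : Y.card ≤ 8 := by rw [← octad_card hoct]; exact Finset.card_le_card hYo
  have hY1 : 1 ≤ Y.card := Finset.card_pos.2 ⟨_, h23Y⟩
  obtain ⟨t, ht⟩ := exists_prime_orderOf_dvd_card' (G := K) 7 (by rw [hc]; norm_num)
  have ht' : orderOf (t : Equiv.Perm GolayPt) = 7 := by rw [Subgroup.orderOf_coe]; exact ht
  have hno : ¬ (4 ≤ Y.card ∧ Y.card < 7) := by
    rintro ⟨h4, h7⟩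
    have hfix := fix_of_prime _ (by norm_num) ht' Y (hYinv _ t.2) h7
    have := order_dvd_4 (mem_fixG.1 (hK t.2)).1 Y hfix h4
    rw [ht'] at this
    norm_num at this
  have hcases : Y.card = 8 ∨ Y.card = 3 := by
    apply arith_key _ (by omega) hY1 _ hno
    have : 24 - Y.card = (MulAction.orbit K z0).ncard := by omega
    rw [this]; exact hdvd
  rcases hcases with h | h
  · right
    have hYeq : Y = o := Finset.eq_of_subset_of_card_le hYo (by rw [octad_card hoct, h])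
    subst hYeq
    refine ⟨Y, hoct, h23o, eq_of_stab K hK hc Y ?_ ?_ ?_⟩
    · rw [Finset.insert_eq_self.2 h23o, h]; norm_num
    · rw [Finset.insert_eq_self.2 h23o, h]
    · intro k hk
      exact (smul_eq_iff_forall k Y).2 (hYinv k hk)
  · left
    refine ⟨Y.erase (pt 23), ?_, Finset.notMem_erase _ _, eq_of_stab K hK hc _ ?_ ?_ ?_⟩
    · rw [Finset.card_erase_of_mem h23Y, h]
    · rw [Finset.insert_erase h23Y, h]
    · rw [Finset.insert_erase h23Y, h]; norm_num
    · intro k hk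
      apply (smul_eq_iff_forall k _).2
      intro y hy
      rw [Finset.mem_erase] at hy ⊢
      refine ⟨?_, hYinv k hk y hy.2⟩
      intro e
      have e' : k y = pt 23 := e
      rw [← hK23 k hk] at e'
      exact hy.1 (k.injective e')

/-! ### an arbitrary fixed point -/

theorem exists_to_base (x : GolayPt) : ∃ k ∈ M24, k x = pt 23 := by
  obtain ⟨k1, hk1, e1⟩ := exists_move (by norm_num) (by decide) tab1_ok x
    (testBit_of_ne (l := []) (by decide) _ (by simp))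
  rw [fixG_nil] at hk1
  exact ⟨k1, hk1, e1⟩

theorem transport {k : Equiv.Perm GolayPt} (hk : k ∈ M24) {x : GolayPt} (hkx : k x = pt 23)
    (K : Subgroup (Equiv.Perm GolayPt)) (W : Finset GolayPt)
    (h : ∀ g, g ∈ K.map (MulAut.conj k).toMonoidHom ↔ g ∈ fixG [23] ∧ g • W = W) :
    ∀ g, g ∈ K ↔ (g ∈ M24 ∧ g x = x) ∧ g • (k⁻¹ • W) = k⁻¹ • W := by
  intro g
  have h1 : g ∈ K ↔ k * g * k⁻¹ ∈ K.map (MulAut.conj k).toMonoidHom := by
    rw [Subgroup.mem_map_equiv, MulAut.conj_symm_apply]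
    have : k⁻¹ * (k * g * k⁻¹) * k = g := by group
    rw [this]
  rw [h1, h, mem_fixG]
  have h2 : k * g * k⁻¹ ∈ M24 ↔ g ∈ M24 := by
    rw [Subgroup.mul_mem_cancel_right _ (M24.inv_mem hk), Subgroup.mul_mem_cancel_left _ hk]
  have h3 : (∀ t ∈ [23], (k * g * k⁻¹) (pt t) = pt t) ↔ g x = x := by
    simp only [List.mem_singleton, forall_eq]
    rw [← hkx, conj_apply]
    exact k.injective.eq_iff
  have h4 : (k * g * k⁻¹) • W = W ↔ g • (k⁻¹ • W) = k⁻¹ • W := by
    rw [mul_smul, mul_smul, smul_eq_iff_eq_inv_smul]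
  rw [h2, h3, h4]

theorem main (x : GolayPt) (K : Subgroup (Equiv.Perm GolayPt)) (hK : K ≤ M24)
    (hx : ∀ g ∈ K, g x = x) (hc : Nat.card K = 40320) :
    (∃ s : Finset GolayPt, s.card = 2 ∧ x ∉ s ∧ ∀ g, g ∈ K ↔ (g ∈ M24 ∧ g x = x) ∧ g • s = s) ∨
    (∃ o ∈ octads, x ∈ o ∧ ∀ g, g ∈ K ↔ (g ∈ M24 ∧ g x = x) ∧ g • o = o) := by
  obtain ⟨k, hk, hkx⟩ := exists_to_base x
  have hK' : K.map (MulAut.conj k).toMonoidHom ≤ fixG [23] := by
    rintro _ ⟨g, hg, rfl⟩
    rw [mem_fixG]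
    refine ⟨conj_mem_M24 hk (hK hg), ?_⟩
    intro t ht
    rw [List.mem_singleton.1 ht]
    exact conj_fix hkx (hx g hg)
  have hc' : Nat.card (K.map (MulAut.conj k).toMonoidHom) = 40320 := by
    rw [← hc]
    exact Subgroup.card_map_of_injective (MulAut.conj k).injective
  have hmem : ∀ W : Finset GolayPt, x ∈ k⁻¹ • W ↔ pt 23 ∈ W := by
    intro W
    rw [Finset.mem_inv_smul_finset_iff, ← hkx]; rfl
  rcases main_base _ hK' hc' with ⟨s, h1, h2, h3⟩ | ⟨o, h1, h2, h3⟩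
  · left
    exact ⟨k⁻¹ • s, by rw [Finset.card_smul_finset, h1], by rw [hmem]; exact h2,
      transport hk hkx K s h3⟩
  · right
    exact ⟨k⁻¹ • o, (smul_mem_octads_iff (M24.inv_mem hk) _).2 h1, by rw [hmem]; exact h2,
      transport hk hkx K o h3⟩

theorem orbit_univ (x : GolayPt) : MulAction.orbit M24 x = Set.univ := by
  ext y
  simp only [Set.mem_univ, iff_true]
  obtain ⟨a, ha, ea⟩ := exists_to_base x
  obtain ⟨b, hb, eb⟩ := exists_to_base y
  refine ⟨⟨b⁻¹ * a, M24.mul_mem (M24.inv_mem hb) ha⟩, ?_⟩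
  show (b⁻¹ * a) x = y
  rw [Equiv.Perm.mul_apply, ea, ← eb]
  exact b.symm_apply_apply y

theorem card_stab (x : GolayPt) : Nat.card (MulAction.stabilizer M24 x) = 10200960 := by
  have h1 := (MulAction.stabilizer M24 x).index_mul_card
  rw [MulAction.index_stabilizer, orbit_univ, Set.ncard_univ, Nat.card_eq_fintype_card,
    card_golayPt, card_M24] at h1
  omega

end Cfsg.Agent.Lib.Helper94.M23S
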