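import Cfsg.Agent.Lib.Helper94.M24Max
import Cfsg.Agent.Lib.Helper94.M23Sub

set_option autoImplicit false
open scoped Pointwise

namespace Cfsg.Agent.Lib.Helper94.M23G

open Cfsg Cfsg.Agent.Lib.Helper94 Cfsg.Agent.Lib.Helper94.M22O Cfsg.Agent.Lib.Helper94.M23S

theorem arith_aux2 : ∀ i < 1754, (253 * i + 231) ∣ 443520 →
    ((253 * i + 231) / 11 % 11 = 1 ∨ (55 ∣ (253 * i + 231) ∧ (253 * i + 231) / 55 % 11 = 1)) →
    (253 * i + 231 ≤ 660 ∨ 7 ∣ (253 * i + 231)) → False := by decide +kernel

theorem arith_m2 {m : ℕ} (h1 : m ∣ 443520) (h2 : m % 23 = 1) (h11 : 11 ∣ m)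
    (h3 : m / 11 % 11 = 1 ∨ (55 ∣ m ∧ m / 55 % 11 = 1)) (h4 : m ≤ 660 ∨ 7 ∣ m) : False := by
  have hle : m ≤ 443520 := Nat.le_of_dvd (by norm_num) h1
  have e : m = 253 * (m / 253) + 231 := by omega
  have hj : m / 253 < 1754 := by omega
  exact arith_aux2 (m / 253) hj (by rw [← e]; exact h1) (by rw [← e]; exact h3)
    (by rw [← e]; exact h4)

theorem relIndex_mul' (H M : Subgroup (Equiv.Perm GolayPt)) (h : H ≤ M) :
    Nat.card H * H.relIndex M = Nat.card M := by
  have := Subgroup.relIndex_mul_relIndex (⊥ : Subgroup (Equiv.Perm GolayPt)) H M bot_le h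
  rwa [Subgroup.relIndex_bot_left, Subgroup.relIndex_bot_left] at this

theorem mem_map_conj (K : Subgroup (Equiv.Perm GolayPt)) (c g : Equiv.Perm GolayPt) :
    g ∈ K.map (MulAut.conj c).toMonoidHom ↔ c⁻¹ * g * c ∈ K := by
  rw [Subgroup.mem_map_equiv, MulAut.conj_symm_apply]

theorem card_map_conj (K : Subgroup (Equiv.Perm GolayPt)) (c : Equiv.Perm GolayPt) :
    Nat.card (K.map (MulAut.conj c).toMonoidHom) = Nat.card K :=
  Subgroup.card_map_of_injective (MulAut.conj c).injective

theorem map_conj_le {K M : Subgroup (Equiv.Perm GolayPt)} (h : K ≤ M) {c : Equiv.Perm GolayPt}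
    (hc : c ∈ M) : K.map (MulAut.conj c).toMonoidHom ≤ M := by
  rintro _ ⟨g, hg, rfl⟩
  exact M.mul_mem (M.mul_mem hc (h hg)) (M.inv_mem hc)

theorem pgroup_zpowers {t : Equiv.Perm GolayPt} {p : ℕ} (h : orderOf t = p) :
    IsPGroup p (Subgroup.zpowers t) := by
  apply IsPGroup.of_card (n := 1)
  rw [Nat.card_zpowers, h, pow_one]

/-- subgroups of the point stabiliser containing `sh` and of order divisible by 11. -/
theorem gen_core (K : Subgroup (Equiv.Perm GolayPt)) (hK : K ≤ fixG [23]) (hs : sh ∈ K)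
    (h11 : 11 ∣ Nat.card K) : Nat.card K = 253 ∨ K = fixG [23] := by
  have f23 : Fact (Nat.Prime 23) := ⟨by norm_num⟩
  have f11 : Fact (Nat.Prime 11) := ⟨by norm_num⟩
  have hK0 : K ⊓ MulAction.stabilizer (Equiv.Perm GolayPt) (pt 0) ≤ fixG [0, 23] := by
    rw [fixG_cons]; exact inf_le_inf_right _ hK
  have horb : (MulAction.orbit K (pt 0)).ncard = 23 := by
    rw [← ncard_ne (pt 23)]
    congr 1
    ext p
    constructor
    · rintro ⟨⟨g, hg⟩, rfl⟩
      have h23 : g (pt 23) = pt 23 := (mem_fixG.1 (hK hg)).2 23 (by simp)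
      intro hc
      have hc' : g (pt 0) = pt 23 := hc
      rw [← h23] at hc'
      have := congrArg enc (g.injective hc')
      rw [enc_pt (by norm_num), enc_pt (by norm_num)] at this
      omega
    · intro hp
      have hlt : enc p < 23 := by
        have := enc_lt p
        by_contra h3
        have h4 : enc p = 23 := by omega
        exact hp (by rw [← pt_enc p, h4])
      refine ⟨⟨sh ^ enc p, K.pow_mem hs _⟩, ?_⟩
      show (sh ^ enc p) (pt 0) = p
      rw [sh_pow_apply _ (by norm_num), Nat.zero_add, Nat.mod_eq_of_lt hlt, pt_enc]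
  have hcard := card_eq_orbit_mul K (pt 0)
  rw [horb] at hcard
  generalize hK0def : K ⊓ MulAction.stabilizer (Equiv.Perm GolayPt) (pt 0) = K0 at hK0 hcard
  have hdK : Nat.card K ∣ 10200960 := by rw [← card_fixG1]; exact Subgroup.card_dvd_of_le hK
  have hdK0 : Nat.card K0 ∣ 443520 := by rw [← card_fixG2]; exact Subgroup.card_dvd_of_le hK0
  have h11' : 11 ∣ Nat.card K0 := by
    rw [hcard] at h11
    exact (Nat.Coprime.dvd_mul_left (by norm_num)).1 h11
  -- conjugate an element of order 11 to `xx`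
  obtain ⟨c, hc, hcE⟩ := exists_conj_le 11 (fixG [0, 23]) K0 (Subgroup.zpowers xx)
    ((Subgroup.zpowers_le).2 xx_fix) (pgroup_zpowers orderOf_xx) (by
      intro h
      have h1 := relIndex_mul' K0 _ hK0
      rw [card_fixG2] at h1
      have h3 : 11 * 11 ∣ Nat.card K0 * K0.relIndex (fixG [0, 23]) := Nat.mul_dvd_mul h11' h
      rw [h1] at h3
      norm_num at h3)
  have hx1 : xx ∈ K0.map (MulAut.conj c).toMonoidHom := by
    rw [mem_map_conj]; exact hcE xx (Subgroup.mem_zpowers xx)
  have hK1 : K0.map (MulAut.conj c).toMonoidHom ≤ fixG [0, 23] := map_conj_le hK0 hc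
  have hc1 := card_map_conj K0 c
  generalize K0.map (MulAut.conj c).toMonoidHom = K1 at hx1 hK1 hc1
  -- Sylow 23
  obtain ⟨n, hn1, hn2⟩ := sylow_count 23 K sh hs orderOf_sh (by
    intro h
    have := h.trans hdK
    norm_num at this)
  have hN : Nat.card ↥(Subgroup.normalizer
      ((Subgroup.zpowers sh : Subgroup (Equiv.Perm GolayPt)) : Set _) ⊓ K) = 23 ∨
      Nat.card ↥(Subgroup.normalizer
      ((Subgroup.zpowers sh : Subgroup (Equiv.Perm GolayPt)) : Set _) ⊓ K) = 253 := by
    have hle : Subgroup.normalizer ((Subgroup.zpowers sh : Subgroup (Equiv.Perm GolayPt)) : Set _) ⊓ K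
        ≤ Subgroup.normalizer ((Subgroup.zpowers sh : Subgroup (Equiv.Perm GolayPt)) : Set _) ⊓ M24 :=
      inf_le_inf_left _ (hK.trans (fun g hg => (mem_fixG.1 hg).1))
    have d1 := Subgroup.card_dvd_of_le hle
    rw [card_N23] at d1
    have d2 : 23 ∣ Nat.card ↥(Subgroup.normalizer
        ((Subgroup.zpowers sh : Subgroup (Equiv.Perm GolayPt)) : Set _) ⊓ K) := by
      rw [← orderOf_sh]
      exact Subgroup.orderOf_dvd_natCard _ ⟨sh_norm_sh.1, hs⟩
    obtain ⟨e, he⟩ := d2
    rw [he] at d1 ⊢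
    have h5 : e ∣ 11 := by
      have : 23 * e ∣ 23 * 11 := d1
      exact Nat.dvd_of_mul_dvd_mul_left (by norm_num) this
    rcases (Nat.dvd_prime (by norm_num : Nat.Prime 11)).1 h5 with rfl | rfl
    · left; rfl
    · right; rfl
  -- Sylow 11
  obtain ⟨n', hn1', hn2'⟩ := sylow_count 11 K1 xx hx1 orderOf_xx (by
    intro h
    rw [hc1] at h
    have := h.trans hdK0
    norm_num at this)
  have hd : Nat.card ↥(Subgroup.normalizer
      ((Subgroup.zpowers xx : Subgroup (Equiv.Perm GolayPt)) : Set _) ⊓ K1) = 11 ∨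
      Nat.card ↥(Subgroup.normalizer
      ((Subgroup.zpowers xx : Subgroup (Equiv.Perm GolayPt)) : Set _) ⊓ K1) = 55 := by
    have d1 := Subgroup.card_dvd_of_le (inf_le_inf_left (Subgroup.normalizer
      ((Subgroup.zpowers xx : Subgroup (Equiv.Perm GolayPt)) : Set _)) hK1)
    rw [card_N11] at d1
    have d2 : 11 ∣ Nat.card ↥(Subgroup.normalizer
      ((Subgroup.zpowers xx : Subgroup (Equiv.Perm GolayPt)) : Set _) ⊓ K1) := by
      rw [← orderOf_xx]
      exact Subgroup.orderOf_dvd_natCard _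
        ⟨Subgroup.le_normalizer (Subgroup.mem_zpowers xx), hx1⟩
    obtain ⟨e, he⟩ := d2
    rw [he] at d1 ⊢
    have h5 : e ∣ 5 := by
      have : 11 * e ∣ 11 * 5 := d1
      exact Nat.dvd_of_mul_dvd_mul_left (by norm_num) this
    rcases (Nat.dvd_prime (by norm_num : Nat.Prime 5)).1 h5 with rfl | rfl
    · left; rfl
    · right; rfl
  have hA : Nat.card K0 ≤ 660 ∨ 7 ∣ Nat.card K0 := by
    rw [← hc1]
    rcases A7 K1 hK1 hx1 with hA | hA
    · left; exact card_le_of_Q _ hK1 hA
    · right; exact hA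
  rw [hc1] at hn2'
  rcases hN with hN | hN
  · exfalso
    rw [hN] at hn2
    have hm : Nat.card K0 = n := by omega
    apply arith_m2 hdK0 (by rw [hm]; exact hn1) h11' _ hA
    rcases hd with hd | hd
    · left
      rw [hd] at hn2'
      rw [hn2', Nat.mul_div_cancel _ (by norm_num)]; exact hn1'
    · right
      rw [hd] at hn2'
      rw [hn2', Nat.mul_div_cancel _ (by norm_num)]
      exact ⟨Dvd.intro_left _ rfl, hn1'⟩
  · rw [hN] at hn2
    have hk : Nat.card K0 = 11 * n := by omega
    have hn : n = 1 ∨ n = 40320 := by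
      apply arith_m
      · rw [hk] at hdK0
        have : 11 * n ∣ 11 * 40320 := hdK0
        exact Nat.dvd_of_mul_dvd_mul_left (by norm_num) this
      · exact hn1
      · rcases hd with hd | hd
        · left
          rw [hd, hk] at hn2'
          have : n = n' := by omega
          rw [this]; exact hn1'
        · right
          rw [hd, hk] at hn2'
          have : n = 5 * n' := by omega
          rw [this]
          exact ⟨Dvd.intro _ rfl, by rw [Nat.mul_div_cancel_left _ (by norm_num)]; exact hn1'⟩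
      · rcases hA with hA | hA
        · left; omega
        · right
          rw [hk] at hA
          exact (Nat.Coprime.dvd_mul_left (by norm_num)).1 hA
    rcases hn with rfl | rfl
    · left; omega
    · right
      apply Subgroup.eq_of_le_of_card_ge hK
      rw [card_fixG1]
      omega

/-- generation criterion for the point stabiliser. -/
theorem gen_crit (K : Subgroup (Equiv.Perm GolayPt)) (hK : K ≤ fixG [23])
    (h23 : 23 ∣ Nat.card K) (h11 : 11 ∣ Nat.card K) (hne : Nat.card K ≠ 253) :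
    K = fixG [23] := by
  have f23 : Fact (Nat.Prime 23) := ⟨by norm_num⟩
  have hsf : sh ∈ fixG [23] := by
    rw [mem_fixG]
    refine ⟨sh_mem, ?_⟩
    intro t ht
    rw [List.mem_singleton.1 ht]; exact sh_23
  obtain ⟨c, hc, hcE⟩ := exists_conj_le 23 (fixG [23]) K (Subgroup.zpowers sh)
    ((Subgroup.zpowers_le).2 hsf) (pgroup_zpowers orderOf_sh) (by
      intro h
      have h1 := relIndex_mul' K _ hK
      rw [card_fixG1] at h1
      have h3 : 23 * 23 ∣ Nat.card K * K.relIndex (fixG [23]) := Nat.mul_dvd_mul h23 h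
      rw [h1] at h3
      norm_num at h3)
  have hs1 : sh ∈ K.map (MulAut.conj c).toMonoidHom := by
    rw [mem_map_conj]; exact hcE sh (Subgroup.mem_zpowers sh)
  have hc1 := card_map_conj K c
  rcases gen_core _ (map_conj_le hK hc) hs1 (by rw [hc1]; exact h11) with h | h
  · rw [hc1] at h; exact absurd h hne
  · apply Subgroup.eq_of_le_of_card_ge hK
    rw [← hc1, h]

end Cfsg.Agent.Lib.Helper94.M23G
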