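import Cfsg.Agent.Lib.Helper94.M22N

set_option autoImplicit false
open scoped Pointwise

namespace Cfsg.Agent.Lib.Helper94.M22O

open Cfsg Cfsg.Agent.Lib.Helper94

/-! ### the element of order 23 -/

/-- code of `t ↦ t + 1`. -/
def SH : ℕ := 0x400000000000480000020000008000002000000800000200000080000020000008000002000000800000200000080000020000008000002000000800000200000080000020000008000002

theorem SH_in : inM24 SH = true := by decide +kernel

noncomputable def sh : Equiv.Perm GolayPt := permOf SH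

theorem sh_mem : sh ∈ M24 := permOf_mem_M24 SH_in

theorem sh_apply {t : ℕ} (ht : t < 23) : sh (pt t) = pt ((t + 1) % 23) := by
  have key : ∀ t < 23, applyM SH (2 ^ t) = 2 ^ ((t + 1) % 23) := by decide +kernel
  rw [sh, permOf_apply_eq_iff (validM_of_inM24 SH_in), enc_pt (by omega),
    enc_pt (lt_trans (Nat.mod_lt _ (by norm_num)) (by norm_num))]
  exact key t ht

theorem sh_23 : sh (pt 23) = pt 23 := by
  rw [sh, permOf_apply_eq_iff (validM_of_inM24 SH_in), enc_pt (by norm_num)]
  decide +kernel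

theorem sh_pow_apply (d : ℕ) {t : ℕ} (ht : t < 23) : (sh ^ d) (pt t) = pt ((t + d) % 23) := by
  induction d with
  | zero => simp [Nat.mod_eq_of_lt ht]
  | succ d ih =>
    rw [pow_succ', Equiv.Perm.mul_apply, ih, sh_apply (Nat.mod_lt _ (by norm_num))]
    congr 1
    omega

theorem sh_pow_23 : sh ^ 23 = 1 := by
  ext1 p
  obtain ⟨i, hi, rfl⟩ : ∃ i, i < 24 ∧ p = pt i := ⟨enc p, enc_lt p, (pt_enc p).symm⟩
  by_cases h : i < 23
  · rw [sh_pow_apply 23 h, Equiv.Perm.one_apply]
    congr 1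
    omega
  · have : i = 23 := by omega
    subst this
    rw [Equiv.Perm.one_apply]
    exact Equiv.Perm.pow_apply_eq_self_of_apply_eq_self sh_23 23

theorem sh_ne_one : sh ≠ 1 := by
  intro h
  have h1 := sh_apply (t := 1) (by norm_num)
  rw [h, Equiv.Perm.one_apply] at h1
  have h2 := congrArg enc h1
  rw [enc_pt (by norm_num), enc_pt (by norm_num)] at h2
  omega

theorem orderOf_sh : orderOf sh = 23 := by
  have : Fact (Nat.Prime 23) := ⟨by norm_num⟩
  exact orderOf_eq_prime sh_pow_23 sh_ne_one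

/-! ### its normaliser -/

def Phi23 (g : Equiv.Perm GolayPt) : Prop :=
  g (pt 23) = pt 23 ∧ ∃ k < 23, ∀ t < 23,
    enc (g (pt ((t + 1) % 23))) = (enc (g (pt t)) + k) % 23

def psi23 (A s : ℕ) : Bool :=
  Nat.beq (gpt A s 23) 23 && anyE (fun k => allL (fun t =>
    Nat.beq (gpt A s (Nat.mod (Nat.add t 1) 23)) (Nat.mod (Nat.add (gpt A s t) k) 23))
    r23) r23

theorem psi23_iff (a s : Equiv.Perm GolayPt) :
    psi23 (codeS a) (codeS s) = true ↔ Phi23 (a * s) := by
  rw [psi23, Bool.and_eq_true, gpt_beq_iff a s (by norm_num) (by norm_num), anyE_iff, Phi23]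
  refine and_congr Iff.rfl ?_
  constructor
  · rintro ⟨k, hk, h⟩
    refine ⟨k, (mem_r23 k).1 hk, ?_⟩
    intro t ht
    have h1 := (allL_iff _ _).1 h t ((mem_r23 t).2 ht)
    have hm : Nat.mod (Nat.add t 1) 23 < 24 := lt_trans (Nat.mod_lt _ (by norm_num)) (by norm_num)
    rw [Nat.beq_eq, gpt_spec a s hm, gpt_spec a s (by omega)] at h1
    exact h1
  · rintro ⟨k, hk, h⟩
    refine ⟨k, (mem_r23 k).2 hk, ?_⟩
    rw [allL_iff]
    intro t ht
    have hm : Nat.mod (Nat.add t 1) 23 < 24 := lt_trans (Nat.mod_lt _ (by norm_num)) (by norm_num)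
    rw [Nat.beq_eq, gpt_spec a s hm, gpt_spec a s (by have := (mem_r23 t).1 ht; omega)]
    exact h t ((mem_r23 t).1 ht)

def T23of (l : List ℕ) : List ℕ :=
  (l.flatMap fun a => r23.map fun k =>
    pack5 23 a ((a + k) % 23) (((a + k) % 23 + k) % 23) ((((a + k) % 23 + k) % 23 + k) % 23)).filter
      validB

theorem T23of_append (l l' : List ℕ) : T23of (l ++ l') = T23of l ++ T23of l' := by
  simp [T23of, List.flatMap_append, List.filter_append]

def T23 : List ℕ := T23of r23

theorem T23_nodup : T23.Nodup := by decide +kernel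

theorem T23_valid : ∀ u ∈ T23, ValidU u := by
  intro u hu
  rw [T23, T23of, List.mem_filter] at hu
  exact (validB_iff u).1 hu.2

theorem Phi23_img : ∀ g ∈ M24, Phi23 g → imgU g ∈ T23 := by
  rintro g _ ⟨h23, k, hk, h⟩
  rw [T23, T23of, List.mem_filter]
  refine ⟨?_, (validB_iff _).2 (validU_imgU g)⟩
  rw [List.mem_flatMap]
  refine ⟨enc (g (pt 0)), (mem_r23 _).2 (enc_lt_of_fix h23 (by norm_num)), ?_⟩
  rw [List.mem_map]
  refine ⟨k, (mem_r23 k).2 hk, ?_⟩
  have e1 := h 0 (by norm_num)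
  have e2 := h 1 (by norm_num)
  have e3 := h 2 (by norm_num)
  have n1 : (0 + 1) % 23 = 1 := by norm_num
  have n2 : (1 + 1) % 23 = 2 := by norm_num
  have n3 : (2 + 1) % 23 = 3 := by norm_num
  rw [n1] at e1
  rw [n2] at e2
  rw [n3] at e3
  rw [imgU, h23, enc_pt (by norm_num), e3, e2, e1]

theorem pass_c0 : pass2 psi23 (T23of [1, 2]) = 22 := by decide +kernel
theorem pass_c1 : pass2 psi23 (T23of [3, 4]) = 22 := by decide +kernel
theorem pass_c2 : pass2 psi23 (T23of [5, 6]) = 22 := by decide +kernel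
theorem pass_c3 : pass2 psi23 (T23of [7, 8]) = 22 := by decide +kernel
theorem pass_c4 : pass2 psi23 (T23of [9, 10]) = 22 := by decide +kernel
theorem pass_c5 : pass2 psi23 (T23of [11, 12]) = 22 := by decide +kernel
theorem pass_c6 : pass2 psi23 (T23of [13, 14]) = 22 := by decide +kernel
theorem pass_c7 : pass2 psi23 (T23of [15, 16]) = 22 := by decide +kernel
theorem pass_c8 : pass2 psi23 (T23of [17, 18]) = 22 := by decide +kernel
theorem pass_c9 : pass2 psi23 (T23of [19, 20]) = 22 := by decide +kernel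
theorem pass_c10 : pass2 psi23 (T23of [21, 22, 0]) = 33 := by decide +kernel

theorem pass_psi23 : pass2 psi23 T23 = 253 := by
  have e : r23 = [1, 2] ++ ([3, 4] ++ ([5, 6] ++ ([7, 8] ++ ([9, 10] ++ ([11, 12] ++ ([13, 14] ++ ([15, 16] ++ ([17, 18] ++ ([19, 20] ++ ([21, 22, 0])))))))))) := rfl
  rw [T23, e]
  simp only [T23of_append, pass2_append]
  rw [pass_c0, pass_c1, pass_c2, pass_c3, pass_c4, pass_c5, pass_c6, pass_c7, pass_c8, pass_c9, pass_c10]

theorem card_Phi23 : Nat.card {g : Equiv.Perm GolayPt // g ∈ M24 ∧ Phi23 g} = 253 := by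
  rw [card_by_enum2 Phi23 T23 T23_nodup T23_valid Phi23_img psi23 (fun a _ s _ => psi23_iff a s),
    pass_psi23]

theorem mem_N23_iff (g : Equiv.Perm GolayPt) :
    g ∈ Subgroup.normalizer ((Subgroup.zpowers sh : Subgroup (Equiv.Perm GolayPt)) : Set _) ⊓
      M24 ↔ g ∈ M24 ∧ Phi23 g := by
  rw [Subgroup.mem_inf, mem_normalizer_zpowers_iff]
  constructor
  · rintro ⟨h1, h2⟩
    obtain ⟨k, hk, e⟩ := exists_pow_of_mem_zpowers (by norm_num) orderOf_sh h1
    have e1 : g * sh = sh ^ k * g := by rw [← e]; group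
    have hk0 : k ≠ 0 := by
      rintro rfl
      rw [pow_zero, one_mul] at e1
      exact sh_ne_one (mul_left_cancel (e1.trans (mul_one g).symm))
    have h23 : g (pt 23) = pt 23 := by
      have e2 := congrArg (fun f : Equiv.Perm GolayPt => f (pt 23)) e1
      simp only [Equiv.Perm.mul_apply] at e2
      rw [sh_23] at e2
      by_contra hc
      have hlt : enc (g (pt 23)) < 23 := by
        have := enc_lt (g (pt 23))
        by_contra h3
        have h4 : enc (g (pt 23)) = 23 := by omega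
        exact hc (by
          have h5 : g (pt 23) = pt (enc (g (pt 23))) := (pt_enc _).symm
          rw [h5, h4])
      have e3 : g (pt 23) = pt (enc (g (pt 23))) := (pt_enc _).symm
      rw [e3, sh_pow_apply k hlt] at e2
      have e4 := congrArg enc e2
      rw [enc_pt (by omega), enc_pt (lt_trans (Nat.mod_lt _ (by norm_num)) (by norm_num))] at e4
      omega
    refine ⟨h2, h23, k, hk, ?_⟩
    intro t ht
    have e2 := congrArg (fun f : Equiv.Perm GolayPt => f (pt t)) e1
    simp only [Equiv.Perm.mul_apply] at e2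
    rw [sh_apply ht] at e2
    rw [e2]
    conv_lhs => rw [← pt_enc (g (pt t))]
    rw [sh_pow_apply k (enc_lt_of_fix h23 ht),
      enc_pt (lt_trans (Nat.mod_lt _ (by norm_num)) (by norm_num))]
  · rintro ⟨hM, h23, k, _, h⟩
    refine ⟨?_, hM⟩
    have e1 : g * sh = sh ^ k * g := by
      ext1 p
      obtain ⟨i, hi, rfl⟩ : ∃ i, i < 24 ∧ p = pt i := ⟨enc p, enc_lt p, (pt_enc p).symm⟩
      rw [Equiv.Perm.mul_apply, Equiv.Perm.mul_apply]
      by_cases hi' : i < 23
      · rw [sh_apply hi']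
        conv_rhs => rw [← pt_enc (g (pt i))]
        rw [sh_pow_apply k (enc_lt_of_fix h23 hi'), ← h i hi', pt_enc]
      · have : i = 23 := by omega
        subst this
        rw [sh_23, h23]
        exact (Equiv.Perm.pow_apply_eq_self_of_apply_eq_self sh_23 k).symm
    have e2 : g * sh * g⁻¹ = sh ^ k := by rw [e1]; group
    rw [e2]
    exact Subgroup.pow_mem _ (Subgroup.mem_zpowers _) k

theorem card_N23 : Nat.card ↥(Subgroup.normalizer
    ((Subgroup.zpowers sh : Subgroup (Equiv.Perm GolayPt)) : Set _) ⊓ M24) = 253 := by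
  rw [← card_Phi23]
  exact Nat.card_congr (Equiv.subtypeEquivRight mem_N23_iff)

/-- `xx` normalises the group generated by `sh`. -/
theorem xx_norm_sh : xx ∈ Subgroup.normalizer
    ((Subgroup.zpowers sh : Subgroup (Equiv.Perm GolayPt)) : Set _) ⊓ M24 := by
  rw [mem_N23_iff]
  refine ⟨xx_mem, xx_23, 2, by norm_num, ?_⟩
  intro t ht
  rw [xx_apply (Nat.mod_lt _ (by norm_num)), xx_apply ht,
    enc_pt (lt_trans (Nat.mod_lt _ (by norm_num)) (by norm_num)),
    enc_pt (lt_trans (Nat.mod_lt _ (by norm_num)) (by norm_num))]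
  omega

theorem sh_norm_sh : sh ∈ Subgroup.normalizer
    ((Subgroup.zpowers sh : Subgroup (Equiv.Perm GolayPt)) : Set _) ⊓ M24 :=
  ⟨Subgroup.le_normalizer (Subgroup.mem_zpowers sh), sh_mem⟩

end Cfsg.Agent.Lib.Helper94.M22O
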