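import Cfsg.Agent.Lib.Helper94.M23Gen
import Cfsg.Prelude.Def_Spor_Mathieu

set_option autoImplicit false
open scoped Pointwise

namespace Cfsg.Agent.Lib.Helper94.M23G

open Cfsg Cfsg.Agent.Lib.Helper94 Cfsg.Agent.Lib.Helper94.M22O Cfsg.Agent.Lib.Helper94.M23S

/-- powers at the code level. -/
def powM (W : ℕ) : ℕ → ℕ
  | 0 => idM
  | n + 1 => mulM (powM W n) W

/-- evaluation of a word in two letters at the code level. -/
def evalW (X Y : ℕ) : List Bool → ℕ
  | [] => idM
  | b :: l => mulM (cond b Y X) (evalW X Y l)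

/-- `W` is a nontrivial code with trivial `p`-th power. -/
def ordIs (W p : ℕ) : Bool := Nat.beq (powM W p) idM && !(Nat.beq W idM)

/-- the certificate check. -/
noncomputable def chk (X Y p q r d : ℕ) (w23 w11 wd : List Bool) : Bool :=
  inM24 X && inM24 Y && Nat.beq (applyM X 8388608) 8388608 && Nat.beq (applyM Y 8388608) 8388608 &&
  ordIs X p && ordIs Y q && ordIs (mulM X Y) r && ordIs (evalW X Y w23) 23 &&
  ordIs (evalW X Y w11) 11 && ordIs (evalW X Y wd) d

theorem validM_powM {W : ℕ} (h : validM W = true) (n : ℕ) : validM (powM W n) = true := by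
  induction n with
  | zero => exact validM_idM
  | succ n ih => exact validM_mulM ih h

theorem permOf_powM {W : ℕ} (h : validM W = true) (n : ℕ) : permOf (powM W n) = permOf W ^ n := by
  induction n with
  | zero => exact permOf_idM
  | succ n ih =>
    show permOf (mulM (powM W n) W) = _
    rw [permOf_mulM (validM_powM h n) h, ih, pow_succ]

theorem validM_evalW {X Y : ℕ} (hX : validM X = true) (hY : validM Y = true) (l : List Bool) :
    validM (evalW X Y l) = true := by
  induction l with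
  | nil => exact validM_idM
  | cons b l ih =>
    cases b
    · exact validM_mulM hX ih
    · exact validM_mulM hY ih

theorem permOf_evalW_mem {X Y : ℕ} (hX : validM X = true) (hY : validM Y = true)
    (K : Subgroup (Equiv.Perm GolayPt)) (hx : permOf X ∈ K) (hy : permOf Y ∈ K) (l : List Bool) :
    permOf (evalW X Y l) ∈ K := by
  induction l with
  | nil => show permOf idM ∈ K; rw [permOf_idM]; exact K.one_mem
  | cons b l ih =>
    cases b
    · show permOf (mulM X (evalW X Y l)) ∈ K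
      rw [permOf_mulM hX (validM_evalW hX hY l)]
      exact K.mul_mem hx ih
    · show permOf (mulM Y (evalW X Y l)) ∈ K
      rw [permOf_mulM hY (validM_evalW hX hY l)]
      exact K.mul_mem hy ih

theorem orderOf_of_ordIs {W p : ℕ} (hW : validM W = true) (hp : p.Prime) (h : ordIs W p = true) :
    orderOf (permOf W) = p := by
  rw [ordIs, Bool.and_eq_true, Bool.not_eq_true', Nat.beq_eq] at h
  have : Fact p.Prime := ⟨hp⟩
  apply orderOf_eq_prime
  · rw [← permOf_powM hW, h.1, permOf_idM]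
  · intro h1
    have h2 : W = idM := by
      rw [← code_permOf hW, h1, code_one]
    have h3 : Nat.beq W idM = true := by rw [Nat.beq_eq]; exact h2
    rw [h3] at h
    exact Bool.noConfusion h.2

theorem M23_eq : Spor.M23 = fixG [23] := by
  ext g
  rw [Spor.M23, Subgroup.mem_inf, mem_fixG]
  refine and_congr Iff.rfl ?_
  constructor
  · intro h t ht
    rw [List.mem_singleton.1 ht]
    exact MulAction.mem_stabilizer_iff.1 h
  · intro h
    exact MulAction.mem_stabilizer_iff.2 (h 23 (List.mem_singleton.2 rfl))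

theorem of_abs {gx gy : Equiv.Perm GolayPt} {p q r : ℕ} (mX : gx ∈ Spor.M23) (mY : gy ∈ Spor.M23)
    (hx : orderOf gx = p) (hy : orderOf gy = q) (hz : orderOf (gx * gy) = r)
    (hK : ∀ K : Subgroup (Equiv.Perm GolayPt), gx ∈ K → gy ∈ K →
      23 ∣ Nat.card K ∧ 11 ∣ Nat.card K ∧ Nat.card K ≠ 253) :
    ∃ x y z : Cfsg.Spor.M23, orderOf x = p ∧ orderOf y = q ∧ orderOf z = r ∧ x * y * z = 1 ∧
        Subgroup.closure {x, y} = ⊤ := by
  refine ⟨⟨gx, mX⟩, ⟨gy, mY⟩, (⟨gx, mX⟩ * ⟨gy, mY⟩)⁻¹, ?_, ?_, ?_,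
    mul_inv_cancel _, ?_⟩
  · rw [← Subgroup.orderOf_coe]; exact hx
  · rw [← Subgroup.orderOf_coe]; exact hy
  · rw [orderOf_inv, ← Subgroup.orderOf_coe]
    exact hz
  · have hKle : (Subgroup.closure {(⟨gx, mX⟩ : Spor.M23), ⟨gy, mY⟩}).map Spor.M23.subtype
        ≤ fixG [23] := by
      rw [← M23_eq]
      exact Subgroup.map_subtype_le _
    have hxK : gx ∈ (Subgroup.closure {(⟨gx, mX⟩ : Spor.M23), ⟨gy, mY⟩}).map Spor.M23.subtype :=
      Subgroup.mem_map.2 ⟨⟨gx, mX⟩, Subgroup.subset_closure (by simp), rfl⟩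
    have hyK : gy ∈ (Subgroup.closure {(⟨gx, mX⟩ : Spor.M23), ⟨gy, mY⟩}).map Spor.M23.subtype :=
      Subgroup.mem_map.2 ⟨⟨gy, mY⟩, Subgroup.subset_closure (by simp), rfl⟩
    obtain ⟨h23, h11, hne⟩ := hK _ hxK hyK
    have hKeq := gen_crit _ hKle h23 h11 hne
    rw [← M23_eq] at hKeq
    rw [eq_top_iff]
    intro g _
    have hg : (g : Equiv.Perm GolayPt) ∈
        (Subgroup.closure {(⟨gx, mX⟩ : Spor.M23), ⟨gy, mY⟩}).map Spor.M23.subtype := by
      rw [hKeq]; exact g.2
    obtain ⟨g', hg', hgg⟩ := Subgroup.mem_map.1 hg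
    have : g' = g := Subtype.ext hgg
    rw [← this]; exact hg'

theorem of_chk {X Y p q r d : ℕ} {w23 w11 wd : List Bool} (hp : p.Prime) (hq : q.Prime)
    (hr : r.Prime) (hd : d.Prime) (hd253 : ¬ d ∣ 253)
    (h : chk X Y p q r d w23 w11 wd = true) :
    ∃ x y z : Cfsg.Spor.M23, orderOf x = p ∧ orderOf y = q ∧ orderOf z = r ∧ x * y * z = 1 ∧
        Subgroup.closure {x, y} = ⊤ := by
  simp only [chk, Bool.and_eq_true, Nat.beq_eq] at h
  obtain ⟨⟨⟨⟨⟨⟨⟨⟨⟨hX, hY⟩, hX23⟩, hY23⟩, hoX⟩, hoY⟩, hoZ⟩, ho23⟩, ho11⟩, hod⟩ := h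
  have vX := validM_of_inM24 hX
  have vY := validM_of_inM24 hY
  have e23 : (2 : ℕ) ^ enc (pt 23) = 8388608 := by rw [enc_pt (by norm_num)]; norm_num
  have mX : permOf X ∈ Spor.M23 := by
    rw [M23_eq, mem_fixG]
    refine ⟨permOf_mem_M24 hX, fun t ht => ?_⟩
    rw [List.mem_singleton.1 ht]
    rw [permOf_apply_eq_iff vX, e23]; exact hX23
  have mY : permOf Y ∈ Spor.M23 := by
    rw [M23_eq, mem_fixG]
    refine ⟨permOf_mem_M24 hY, fun t ht => ?_⟩
    rw [List.mem_singleton.1 ht]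
    rw [permOf_apply_eq_iff vY, e23]; exact hY23
  refine of_abs mX mY (orderOf_of_ordIs vX hp hoX) (orderOf_of_ordIs vY hq hoY) ?_ ?_
  · rw [← permOf_mulM vX vY]
    exact orderOf_of_ordIs (validM_mulM vX vY) hr hoZ
  · intro K hxK hyK
    have key : ∀ (w : List Bool) (n : ℕ), n.Prime → ordIs (evalW X Y w) n = true →
        n ∣ Nat.card K := by
      intro w n hn hw
      have h1 := orderOf_of_ordIs (validM_evalW vX vY w) hn hw
      rw [← h1]
      exact Subgroup.orderOf_dvd_natCard K (permOf_evalW_mem vX vY K hxK hyK w)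
    refine ⟨key w23 23 (by norm_num) ho23, key w11 11 (by norm_num) ho11, ?_⟩
    intro h253
    apply hd253
    rw [← h253]
    exact key wd d hd hod

end Cfsg.Agent.Lib.Helper94.M23G
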