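import Cfsg.Agent.Lib.Helper94.M23Sub

set_option autoImplicit false
open scoped Pointwise

namespace Cfsg.Agent.Lib.Helper94.M24I

open Cfsg Cfsg.Agent.Lib.Helper94 Cfsg.Agent.Lib.Helper94.M23S

/-! ### fixed points of elements of prime order -/

theorem inv_iff {α : Type*} (t : Equiv.Perm α) (Y : Finset α) (hY : ∀ y ∈ Y, t y ∈ Y) :
    ∀ y, t y ∈ Y ↔ y ∈ Y := by
  classical
  intro y
  refine ⟨fun h => ?_, hY y⟩
  have himg : Y.image t = Y := by
    apply Finset.eq_of_subset_of_card_le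
    · intro z hz
      obtain ⟨w, hw, rfl⟩ := Finset.mem_image.1 hz
      exact hY w hw
    · rw [Finset.card_image_of_injective _ t.injective]
  rw [← himg] at h
  obtain ⟨w, hw, e⟩ := Finset.mem_image.1 h
  rw [← t.injective e]; exact hw

/-- the number of fixed points in an invariant set. -/
theorem card_fix_modEq {α : Type*} [Fintype α] [DecidableEq α] (t : Equiv.Perm α) {p : ℕ}
    [Fact p.Prime] (ht : orderOf t = p) (Y : Finset α) (hY : ∀ y ∈ Y, t y ∈ Y) :
    (Y.filter (fun y => t y = y)).card ≡ Y.card [MOD p] := by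
  have hp1 : (t.subtypePerm (p := fun y => y ∈ Y) (inv_iff t Y hY)) ^ p ^ 1 = 1 := by
    rw [pow_one, Equiv.Perm.subtypePerm_pow]
    ext y
    have : t ^ p = 1 := by rw [← ht]; exact pow_orderOf_eq_one t
    simp [this]
  have h1 := Equiv.Perm.card_compl_support_modEq hp1
  rw [Fintype.card_coe] at h1
  have h2 : ((t.subtypePerm (p := fun y => y ∈ Y) (inv_iff t Y hY)).supportᶜ).card =
      (Y.filter (fun y => t y = y)).card := by
    rw [← Finset.card_map (Function.Embedding.subtype _)]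
    congr 1
    ext y
    simp only [Finset.mem_map, Finset.mem_compl, Equiv.Perm.mem_support, not_not,
      Function.Embedding.coe_subtype, Finset.mem_filter]
    constructor
    · rintro ⟨⟨z, hz⟩, h, rfl⟩
      refine ⟨hz, ?_⟩
      have := congrArg Subtype.val h
      simpa using this
    · rintro ⟨hy, h⟩
      exact ⟨⟨y, hy⟩, Subtype.ext (by simpa using h), rfl⟩
  rw [h2] at h1
  exact h1

/-- the set of fixed points. -/
def Fx (t : Equiv.Perm GolayPt) : Finset GolayPt := Finset.univ.filter fun y => t y = y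

theorem mem_Fx {t : Equiv.Perm GolayPt} {y : GolayPt} : y ∈ Fx t ↔ t y = y := by simp [Fx]

theorem filter_eq_inter (t : Equiv.Perm GolayPt) (Y : Finset GolayPt) :
    Y.filter (fun y => t y = y) = Y ∩ Fx t := by
  ext y; simp [Fx]

theorem card_inter_Fx_modEq (t : Equiv.Perm GolayPt) {p : ℕ} [Fact p.Prime] (ht : orderOf t = p)
    (Y : Finset GolayPt) (hY : ∀ y ∈ Y, t y ∈ Y) : (Y ∩ Fx t).card ≡ Y.card [MOD p] := by
  rw [← filter_eq_inter]; exact card_fix_modEq t ht Y hY

theorem card_Fx_modEq (t : Equiv.Perm GolayPt) {p : ℕ} [Fact p.Prime] (ht : orderOf t = p) :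
    (Fx t).card ≡ 24 [MOD p] := by
  have := card_inter_Fx_modEq t ht Finset.univ (fun _ _ => Finset.mem_univ _)
  rwa [Finset.univ_inter, Finset.card_univ, card_golayPt] at this

theorem order_dvd_of_fix5 {t : Equiv.Perm GolayPt} (ht : t ∈ M24) {a b c d e : GolayPt}
    (hnd : [a, b, c, d, e].Nodup) (ha : t a = a) (hb : t b = b) (hc : t c = c) (hd : t d = d)
    (he : t e = e) : orderOf t ∣ 48 := by
  obtain ⟨k, hk, k1, k2, k3, k4, k5⟩ := five_trans_to_base a b c d e hnd
  rw [← orderOf_conj' k t, ← card_fixG5]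
  apply Subgroup.orderOf_dvd_natCard
  rw [mem_fixG]
  refine ⟨conj_mem_M24 hk ht, ?_⟩
  intro i hi
  simp only [List.mem_cons, List.not_mem_nil, or_false] at hi
  rcases hi with rfl | rfl | rfl | rfl | rfl
  · exact conj_fix k5 he
  · exact conj_fix k4 hd
  · exact conj_fix k3 hc
  · exact conj_fix k2 hb
  · exact conj_fix k1 ha

theorem order_dvd_5 {t : Equiv.Perm GolayPt} (ht : t ∈ M24) (Y : Finset GolayPt)
    (hfix : ∀ y ∈ Y, t y = y) (h5 : 5 ≤ Y.card) : orderOf t ∣ 48 := by
  obtain ⟨a, ha, b, hb, c, hc, hab, hac, hbc⟩ := Finset.two_lt_card.1 (by omega : 2 < Y.card)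
  obtain ⟨d, hd, hd'⟩ := Finset.exists_mem_notMem_of_card_lt_card
    (lt_of_le_of_lt (Finset.card_le_three (a := a) (b := b) (c := c)) (by omega : 3 < Y.card))
  obtain ⟨e, he, he'⟩ := Finset.exists_mem_notMem_of_card_lt_card
    (lt_of_le_of_lt (Finset.card_le_four (a := a) (b := b) (c := c) (d := d))
      (by omega : 4 < Y.card))
  simp only [Finset.mem_insert, Finset.mem_singleton, not_or] at hd' he'
  refine order_dvd_of_fix5 ht (a := a) (b := b) (c := c) (d := d) (e := e) ?_ (hfix a ha)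
    (hfix b hb) (hfix c hc) (hfix d hd) (hfix e he)
  simp only [List.nodup_cons, List.mem_cons, List.not_mem_nil, or_false, not_or,
    not_false_eq_true, List.nodup_nil, and_true]
  exact ⟨⟨hab, hac, Ne.symm hd'.1, Ne.symm he'.1⟩, ⟨hbc, Ne.symm hd'.2.1, Ne.symm he'.2.1⟩,
    ⟨Ne.symm hd'.2.2, Ne.symm he'.2.2.1⟩, Ne.symm he'.2.2.2⟩

theorem card_Fx5 {t : Equiv.Perm GolayPt} (ht : t ∈ M24) (h : orderOf t = 5) :
    (Fx t).card = 4 := by
  have : Fact (Nat.Prime 5) := ⟨by norm_num⟩
  have h1 := card_Fx_modEq t h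
  have h2 : (Fx t).card < 5 := by
    by_contra hc
    have := order_dvd_5 ht (Fx t) (fun y hy => mem_Fx.1 hy) (by omega)
    rw [h] at this
    norm_num at this
  unfold Nat.ModEq at h1
  omega

theorem card_Fx7 {t : Equiv.Perm GolayPt} (ht : t ∈ M24) (h : orderOf t = 7) :
    (Fx t).card = 3 := by
  have : Fact (Nat.Prime 7) := ⟨by norm_num⟩
  have h1 := card_Fx_modEq t h
  have h2 : (Fx t).card < 4 := by
    by_contra hc
    have := order_dvd_4 ht (Fx t) (fun y hy => mem_Fx.1 hy) (by omega)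
    rw [h] at this
    norm_num at this
  unfold Nat.ModEq at h1
  omega

theorem card_Fx11 {t : Equiv.Perm GolayPt} (ht : t ∈ M24) (h : orderOf t = 11) :
    (Fx t).card = 2 := by
  have : Fact (Nat.Prime 11) := ⟨by norm_num⟩
  have h1 := card_Fx_modEq t h
  have h2 : (Fx t).card < 3 := by
    by_contra hc
    have := order_dvd_3 ht (Fx t) (fun y hy => mem_Fx.1 hy) (by omega)
    rw [h] at this
    norm_num at this
  unfold Nat.ModEq at h1
  omega

/-- existence of elements of prime order in a subgroup. -/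
theorem exists_order (K : Subgroup (Equiv.Perm GolayPt)) (p : ℕ) [Fact p.Prime]
    (h : p ∣ Nat.card K) : ∃ t ∈ K, orderOf t = p := by
  obtain ⟨t, ht⟩ := exists_prime_orderOf_dvd_card' (G := K) p h
  exact ⟨t, t.2, by rw [Subgroup.orderOf_coe]; exact ht⟩

/-! ### point stabilisers -/

/-- the stabiliser of a point in a subgroup. -/
def St (H : Subgroup (Equiv.Perm GolayPt)) (x : GolayPt) : Subgroup (Equiv.Perm GolayPt) :=
  H ⊓ MulAction.stabilizer (Equiv.Perm GolayPt) x

theorem mem_St {H : Subgroup (Equiv.Perm GolayPt)} {x : GolayPt} {g : Equiv.Perm GolayPt} :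
    g ∈ St H x ↔ g ∈ H ∧ g x = x := by
  rw [St, Subgroup.mem_inf, MulAction.mem_stabilizer_iff]; rfl

theorem card_St (H : Subgroup (Equiv.Perm GolayPt)) (x : GolayPt) :
    Nat.card H = (MulAction.orbit H x).ncard * Nat.card (St H x) := card_eq_orbit_mul H x

theorem card_St_M24 (x : GolayPt) : Nat.card (St M24 x) = 10200960 := by
  have h := card_St M24 x
  have h24 : Nat.card GolayPt = 24 := by rw [Nat.card_eq_fintype_card, card_golayPt]
  rw [orbit_univ, Set.ncard_univ, h24, card_M24] at h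
  omega

theorem St_mono {H K : Subgroup (Equiv.Perm GolayPt)} (h : H ≤ K) (x : GolayPt) :
    St H x ≤ St K x := inf_le_inf_right _ h

theorem St_le (H : Subgroup (Equiv.Perm GolayPt)) (x : GolayPt) : St H x ≤ H := inf_le_left

theorem conj_mem_St {H : Subgroup (Equiv.Perm GolayPt)} {x : GolayPt} {h g : Equiv.Perm GolayPt}
    (hh : h ∈ H) : g ∈ St H (h x) ↔ h⁻¹ * g * h ∈ St H x := by
  rw [mem_St, mem_St, Subgroup.mul_mem_cancel_right _ hh,
    Subgroup.mul_mem_cancel_left _ (H.inv_mem hh), Equiv.Perm.mul_apply, Equiv.Perm.mul_apply,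
    Equiv.Perm.inv_eq_iff_eq]

/-- subgroups fixing two points. -/
theorem card_dvd_of_fix2 (J : Subgroup (Equiv.Perm GolayPt)) (hJ : J ≤ M24) {a b : GolayPt}
    (hab : a ≠ b) (ha : ∀ g ∈ J, g a = a) (hb : ∀ g ∈ J, g b = b) : Nat.card J ∣ 443520 := by
  obtain ⟨c, hc⟩ := exists_not_mem {a, b} (lt_of_le_of_lt (Finset.card_le_two) (by norm_num))
  obtain ⟨d, hd⟩ := exists_not_mem {a, b, c} (lt_of_le_of_lt (Finset.card_le_three) (by norm_num))
  obtain ⟨e, he⟩ := exists_not_mem {a, b, c, d} (lt_of_le_of_lt (Finset.card_le_four) (by norm_num))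
  simp only [Finset.mem_insert, Finset.mem_singleton, not_or] at hc hd he
  obtain ⟨k, hk, k1, k2, _, _, _⟩ := five_trans_to_base a b c d e (by
    simp only [List.nodup_cons, List.mem_cons, List.not_mem_nil, or_false, not_or,
      not_false_eq_true, List.nodup_nil, and_true]
    exact ⟨⟨hab, Ne.symm hc.1, Ne.symm hd.1, Ne.symm he.1⟩,
      ⟨Ne.symm hc.2, Ne.symm hd.2.1, Ne.symm he.2.1⟩,
      ⟨Ne.symm hd.2.2, Ne.symm he.2.2.1⟩, Ne.symm he.2.2.2⟩)
  have hle : J.map (MulAut.conj k).toMonoidHom ≤ fixG [0, 23] := by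
    rintro _ ⟨g, hg, rfl⟩
    rw [mem_fixG]
    refine ⟨conj_mem_M24 hk (hJ hg), ?_⟩
    intro i hi
    simp only [List.mem_cons, List.not_mem_nil, or_false] at hi
    rcases hi with rfl | rfl
    · exact conj_fix k2 (hb g hg)
    · exact conj_fix k1 (ha g hg)
  have := Subgroup.card_dvd_of_le hle
  rwa [Subgroup.card_map_of_injective (MulAut.conj k).injective, card_fixG2] at this

/-! ### the group `E0` fixes the base octad pointwise -/

theorem fix_check : allL (fun P => !(Nat.beq (applyM P 32) 32) ||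
    (Nat.beq (applyM P 16384) 16384 && Nat.beq (applyM P 131072) 131072)) stab5L = true := by
  decide +kernel

theorem E0_fix {g : Equiv.Perm GolayPt} (hg : g ∈ E0) : ∀ v ∈ unm 8536111, g v = v := by
  have h1 := (allL_iff _ _).1 fix_check _ (code_mem_stab5L (E0_le5 hg))
  have hf := (mem_fixG.1 hg).2
  have h2 : applyM (code g) 32 = 32 := by
    have := applyM_code_pt g (pt 5)
    rw [hf 5 (by simp), enc_pt (by norm_num)] at this
    exact this
  rw [h2] at h1
  have h3 : Nat.beq (applyM (code g) 16384) 16384 = true ∧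
      Nat.beq (applyM (code g) 131072) 131072 = true := by simpa using h1
  rw [Nat.beq_eq, Nat.beq_eq] at h3
  have h14 : g (pt 14) = pt 14 := by
    have := applyM_code_pt g (pt 14)
    rw [enc_pt (by norm_num)] at this
    have e : (2 : ℕ) ^ enc (g (pt 14)) = 2 ^ 14 := by rw [← this]; exact h3.1
    have e2 := Nat.pow_right_injective (le_refl 2) e
    rw [← pt_enc (g (pt 14)), e2]
  have h17 : g (pt 17) = pt 17 := by
    have := applyM_code_pt g (pt 17)
    rw [enc_pt (by norm_num)] at this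
    have e : (2 : ℕ) ^ enc (g (pt 17)) = 2 ^ 17 := by rw [← this]; exact h3.2
    have e2 := Nat.pow_right_injective (le_refl 2) e
    rw [← pt_enc (g (pt 17)), e2]
  intro v hv
  rw [mem_unm] at hv
  have key : ∀ j < 24, (8536111 : ℕ).testBit j = true → j ∈ [5, 3, 2, 1, 0, 23] ∨ j = 14 ∨ j = 17 := by
    decide
  rcases key _ (enc_lt v) hv with h | h | h
  · have := hf _ h
    rwa [pt_enc] at this
  · rw [← pt_enc v, h]; exact h14
  · rw [← pt_enc v, h]; exact h17

/-- `K` contains a group fixing the octad `o` pointwise and transitive outside it. -/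
def EP (K : Subgroup (Equiv.Perm GolayPt)) (o : Finset GolayPt) : Prop :=
  ∀ z z', z ∉ o → z' ∉ o → ∃ e ∈ K, (∀ v ∈ o, e v = v) ∧ e z = z'

theorem EP_mono {K K' : Subgroup (Equiv.Perm GolayPt)} (h : K ≤ K') {o : Finset GolayPt}
    (hE : EP K o) : EP K' o := by
  intro z z' hz hz'
  obtain ⟨e, he, h1, h2⟩ := hE z z' hz hz'
  exact ⟨e, h he, h1, h2⟩

/-- subgroups of odd index (in `M`, which is the whole group or a point stabiliser). -/
theorem exists_EP (M K : Subgroup (Equiv.Perm GolayPt)) (hEM : E0 ≤ M)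
    (hi : ¬ 2 ∣ K.relIndex M) :
    ∃ g ∈ M, EP K (g⁻¹ • unm 8536111) := by
  have : Fact (Nat.Prime 2) := ⟨by norm_num⟩
  obtain ⟨g, hg, hE⟩ := exists_conj_le 2 M K E0 hEM E0_pgroup hi
  refine ⟨g, hg, ?_⟩
  have mem_o : ∀ z, z ∈ g⁻¹ • unm 8536111 ↔ g z ∈ unm 8536111 := by
    intro z
    rw [Finset.mem_inv_smul_finset_iff]; rfl
  intro z z' hz hz'
  rw [mem_o] at hz hz'
  obtain ⟨e, he, hee⟩ := E0_trans hz hz'
  refine ⟨g⁻¹ * e * g, hE e he, ?_, ?_⟩
  · intro v hv
    rw [mem_o] at hv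
    rw [Equiv.Perm.mul_apply, Equiv.Perm.mul_apply, E0_fix he _ hv]
    exact g.symm_apply_apply v
  · rw [Equiv.Perm.mul_apply, Equiv.Perm.mul_apply, hee]
    exact g.symm_apply_apply z'

/-- an invariant set with fewer than 16 points lies inside the octad. -/
theorem subset_of_EP {K : Subgroup (Equiv.Perm GolayPt)} {o : Finset GolayPt} (ho : o ∈ octads)
    (hE : EP K o) (W : Finset GolayPt)
    (hW : ∀ e ∈ K, (∀ v ∈ o, e v = v) → ∀ y ∈ W, e y ∈ W) (hc : W.card < 16) : W ⊆ o := by
  intro y hy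
  by_contra hyo
  have hsub : oᶜ ⊆ W := by
    intro z hz
    rw [Finset.mem_compl] at hz
    obtain ⟨e, he, h1, h2⟩ := hE y z hyo hz
    rw [← h2]; exact hW e he h1 y hy
  have := Finset.card_le_card hsub
  rw [Finset.card_compl, card_golayPt, octad_card ho] at this
  omega

end Cfsg.Agent.Lib.Helper94.M24I
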