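import Cfsg.Agent.Lib.Helper94.Scott
import Cfsg.Agent.Lib.Helper94.M23Pos
import Cfsg.Agent.Lib.Helper94.M24Idx1

set_option autoImplicit false
open scoped Pointwise

namespace Cfsg.Agent.Lib.Helper94.M23G

open Cfsg Cfsg.Agent.Lib.Helper94 Cfsg.Agent.Lib.Helper94.M22O Cfsg.Agent.Lib.Helper94.M23S
open Cfsg.Agent.Lib.Helper94.M24I Cfsg.Agent.Lib.Helper94.Scott

theorem c_bound {g : Equiv.Perm GolayPt} {p : ℕ} (hg : orderOf g = p) :
    24 + (p - 1) * (Fx g).card ≤ c g * p := by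
  have := c_ge hg (Fx g) (fun i hi => mem_Fx.1 hi)
  rwa [card_golayPt] at this

theorem card_Fx2 {g : Equiv.Perm GolayPt} (hg : g ∈ fixG [23]) (h : orderOf g = 2) :
    (Fx g).card = 8 := by
  rw [mem_fixG] at hg
  have h0 : (Finset.univ.filter fun p => g p = p).card ≠ 0 := by
    apply Finset.card_ne_zero_of_mem (a := pt 23)
    simp only [Finset.mem_filter, Finset.mem_univ, true_and]
    exact hg.2 23 (List.mem_singleton.2 rfl)
  obtain ⟨k, _, e⟩ := invol8_conj hg.1 h h0
  have h1 := card_fixed_conj k g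
  rw [e, card_fixed_permOf (validM_of_inM24 tA_in), fixA2] at h1
  exact h1.symm

theorem card_Fx3 {g : Equiv.Perm GolayPt} (hg : g ∈ fixG [23]) (h : orderOf g = 3) :
    (Fx g).card = 6 := by
  rw [mem_fixG] at hg
  have h0 : (Finset.univ.filter fun p => g p = p).card ≠ 0 := by
    apply Finset.card_ne_zero_of_mem (a := pt 23)
    simp only [Finset.mem_filter, Finset.mem_univ, true_and]
    exact hg.2 23 (List.mem_singleton.2 rfl)
  obtain ⟨k, _, e⟩ := ord3_6_conj hg.1 h h0
  have h1 := card_fixed_conj k g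
  rw [e, card_fixed_permOf (validM_of_inM24 xA_in), fixA3] at h1
  exact h1.symm

theorem c2 {g : Equiv.Perm GolayPt} (hg : g ∈ fixG [23]) (h : orderOf g = 2) : 16 ≤ c g := by
  have := c_bound h
  rw [card_Fx2 hg h] at this
  omega

theorem c3 {g : Equiv.Perm GolayPt} (hg : g ∈ fixG [23]) (h : orderOf g = 3) : 12 ≤ c g := by
  have := c_bound h
  rw [card_Fx3 hg h] at this
  omega

theorem c5 {g : Equiv.Perm GolayPt} (hg : g ∈ fixG [23]) (h : orderOf g = 5) : 8 ≤ c g := by
  have := c_bound h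
  rw [card_Fx5 (mem_fixG.1 hg).1 h] at this
  omega

theorem c7 {g : Equiv.Perm GolayPt} (hg : g ∈ fixG [23]) (h : orderOf g = 7) : 6 ≤ c g := by
  have := c_bound h
  rw [card_Fx7 (mem_fixG.1 hg).1 h] at this
  omega

theorem cany {g : Equiv.Perm GolayPt} (hg : g ∈ fixG [23]) {r : ℕ} (hr : 0 < r)
    (h : orderOf g = r) : 2 ≤ c g := by
  have h1 := c_bound h
  have h2 : 1 ≤ (Fx g).card := by
    apply Finset.card_pos.2
    exact ⟨pt 23, mem_Fx.2 ((mem_fixG.1 hg).2 23 (List.mem_singleton.2 rfl))⟩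
  by_contra hc
  have h3 : c g * r ≤ 1 * r := Nat.mul_le_mul_right _ (by omega)
  have h4 : (r - 1) * 1 ≤ (r - 1) * (Fx g).card := Nat.mul_le_mul_left _ h2
  omega

theorem sh_mem_fix : sh ∈ fixG [23] := by
  rw [mem_fixG]
  refine ⟨sh_mem, ?_⟩
  intro t ht
  rw [List.mem_singleton.1 ht]; exact sh_23

theorem neg_core {x y : Equiv.Perm GolayPt} (hcl : Subgroup.closure {x, y} = fixG [23]) :
    c x + c y + c (x * y) ≤ 28 := by
  have h1 := ree (x := x) (y := y) {pt 23, pt 0} (by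
    intro i
    rw [hcl]
    by_cases h : enc i < 23
    · refine ⟨sh ^ (enc i), Subgroup.pow_mem _ sh_mem_fix _, pt 0, by simp, ?_⟩
      rw [sh_pow_apply _ (by norm_num), zero_add, Nat.mod_eq_of_lt h, pt_enc]
    · refine ⟨1, Subgroup.one_mem _, pt 23, by simp, ?_⟩
      have h2 : enc i = 23 := by have := enc_lt i; omega
      rw [Equiv.Perm.one_apply, ← h2, pt_enc])
  have h2 : ({pt 23, pt 0} : Finset GolayPt).card ≤ 2 := Finset.card_le_two
  rw [card_golayPt] at h1
  omega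

theorem neg {p q r : ℕ} (hr : r.Prime)
    (hbad : (p = 2 ∧ q = 3) ∨ (p = 2 ∧ q = 5 ∧ r = 5) ∨ (p = 2 ∧ q = 5 ∧ r = 7) ∨
      (p = 3 ∧ q = 3 ∧ r ≤ 7)) :
    ¬ ∃ x y z : Cfsg.Spor.M23, orderOf x = p ∧ orderOf y = q ∧ orderOf z = r ∧ x * y * z = 1 ∧
        Subgroup.closure {x, y} = ⊤ := by
  rintro ⟨x, y, z, hx, hy, hz, hxyz, hcl⟩
  have hxy : orderOf ((x : Equiv.Perm GolayPt) * y) = r := by
    have h1 : x * y = z⁻¹ := eq_inv_of_mul_eq_one_left hxyz
    have h2 : orderOf (x * y) = r := by rw [h1, orderOf_inv, hz]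
    rw [← Subgroup.orderOf_coe] at h2
    exact h2
  rw [← Subgroup.orderOf_coe] at hx hy
  have mx : (x : Equiv.Perm GolayPt) ∈ fixG [23] := by rw [← M23_eq]; exact x.2
  have my : (y : Equiv.Perm GolayPt) ∈ fixG [23] := by rw [← M23_eq]; exact y.2
  have mxy : (x : Equiv.Perm GolayPt) * y ∈ fixG [23] := Subgroup.mul_mem _ mx my
  have hcl' : Subgroup.closure {(x : Equiv.Perm GolayPt), (y : Equiv.Perm GolayPt)} = fixG [23] := by
    have h1 := congrArg (Subgroup.map Spor.M23.subtype) hcl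
    rw [MonoidHom.map_closure, Set.image_pair, ← MonoidHom.range_eq_map,
      Subgroup.range_subtype] at h1
    rw [← M23_eq]
    exact h1
  have hc := neg_core hcl'
  rcases hbad with ⟨rfl, rfl⟩ | ⟨rfl, rfl, rfl⟩ | ⟨rfl, rfl, rfl⟩ | ⟨rfl, rfl, hr7⟩
  · have := c2 mx hx
    have := c3 my hy
    have := cany mxy hr.pos hxy
    omega
  · have := c2 mx hx
    have := c5 my hy
    have := c5 mxy hxy
    omega
  · have := c2 mx hx
    have := c5 my hy
    have := c7 mxy hxy
    omega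
  · have := c3 mx hx
    have := c3 my hy
    have h6 : 6 ≤ c ((x : Equiv.Perm GolayPt) * (y : Equiv.Perm GolayPt)) := by
      interval_cases r
      · exact absurd hr (by norm_num)
      · exact absurd hr (by norm_num)
      · exact le_trans (by norm_num) (c2 mxy hxy)
      · exact le_trans (by norm_num) (c3 mxy hxy)
      · exact absurd hr (by norm_num)
      · exact le_trans (by norm_num) (c5 mxy hxy)
      · exact absurd hr (by norm_num)
      · exact c7 mxy hxy
    omega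

theorem prime_cases {n : ℕ} (hn : n.Prime) (h : n ∣ 10200960) :
    n = 2 ∨ n = 3 ∨ n = 5 ∨ n = 7 ∨ n = 11 ∨ n = 23 := by
  have e : 10200960 = 2 ^ 7 * 3 ^ 2 * 5 * 7 * 11 * 23 := by norm_num
  rw [e] at h
  simp only [Nat.Prime.dvd_mul hn] at h
  rcases h with ((((h | h) | h) | h) | h) | h
  · left; exact (Nat.prime_dvd_prime_iff_eq hn (by norm_num)).1 (hn.dvd_of_dvd_pow h)
  · right; left; exact (Nat.prime_dvd_prime_iff_eq hn (by norm_num)).1 (hn.dvd_of_dvd_pow h)
  · right; right; left; exact (Nat.prime_dvd_prime_iff_eq hn (by norm_num)).1 h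
  · right; right; right; left; exact (Nat.prime_dvd_prime_iff_eq hn (by norm_num)).1 h
  · right; right; right; right; left; exact (Nat.prime_dvd_prime_iff_eq hn (by norm_num)).1 h
  · right; right; right; right; right; exact (Nat.prime_dvd_prime_iff_eq hn (by norm_num)).1 h

end Cfsg.Agent.Lib.Helper94.M23G
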