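import Cfsg.Agent.Lib.Helper94.M23N

set_option autoImplicit false
open scoped Pointwise

namespace Cfsg.Agent.Lib.Helper94.M22O

open Cfsg Cfsg.Agent.Lib.Helper94

theorem arith_aux : ∀ j < 1754, (23 * j + 1) ∣ 40320 →
    ((23 * j + 1) % 11 = 1 ∨ (5 ∣ (23 * j + 1) ∧ (23 * j + 1) / 5 % 11 = 1)) →
    (23 * j + 1 ≤ 60 ∨ 7 ∣ (23 * j + 1)) → j = 0 ∨ j = 1753 := by decide +kernel

theorem arith_m {m : ℕ} (h1 : m ∣ 40320) (h2 : m % 23 = 1)
    (h3 : m % 11 = 1 ∨ (5 ∣ m ∧ m / 5 % 11 = 1)) (h4 : m ≤ 60 ∨ 7 ∣ m) : m = 1 ∨ m = 40320 := by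
  have hle : m ≤ 40320 := Nat.le_of_dvd (by norm_num) h1
  have e : m = 23 * (m / 23) + 1 := by omega
  have hj : m / 23 < 1754 := by omega
  have := arith_aux (m / 23) hj (by rw [← e]; exact h1) (by rw [← e]; exact h3)
    (by rw [← e]; exact h4)
  omega

theorem ncard_ne (a : GolayPt) : {p : GolayPt | p ≠ a}.ncard = 23 := by
  have h : {p : GolayPt | p ≠ a} = ({a} : Set GolayPt)ᶜ := by
    ext p; simp
  rw [h, Set.ncard_compl, Set.ncard_singleton, Nat.card_eq_fintype_card, card_golayPt]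

/-- overgroups of `23 : 11` in the point stabiliser. -/
theorem M23max (K : Subgroup (Equiv.Perm GolayPt)) (hK : K ≤ fixG [23]) (hs : sh ∈ K)
    (hx : xx ∈ K) : Nat.card K = 253 ∨ K = fixG [23] := by
  have f23 : Fact (Nat.Prime 23) := ⟨by norm_num⟩
  have f11 : Fact (Nat.Prime 11) := ⟨by norm_num⟩
  have hK0 : K ⊓ MulAction.stabilizer (Equiv.Perm GolayPt) (pt 0) ≤ fixG [0, 23] := by
    rw [fixG_cons]; exact inf_le_inf_right _ hK
  have horb : (MulAction.orbit K (pt 0)).ncard = 23 := by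
    rw [← ncard_ne (pt 23)]
    congr 1
    ext p
    constructor
    · rintro ⟨⟨g, hg⟩, rfl⟩
      have h23 : g (pt 23) = pt 23 := (mem_fixG.1 (hK hg)).2 23 (by simp)
      intro hc
      have hc' : g (pt 0) = pt 23 := hc
      rw [← h23] at hc'
      have := congrArg enc (g.injective hc')
      rw [enc_pt (by norm_num), enc_pt (by norm_num)] at this
      omega
    · intro hp
      have hlt : enc p < 23 := by
        have := enc_lt p
        by_contra h3
        have h4 : enc p = 23 := by omega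
        exact hp (by rw [← pt_enc p, h4])
      refine ⟨⟨sh ^ enc p, K.pow_mem hs _⟩, ?_⟩
      show (sh ^ enc p) (pt 0) = p
      rw [sh_pow_apply _ (by norm_num), Nat.zero_add, Nat.mod_eq_of_lt hlt, pt_enc]
  have hcard := card_eq_orbit_mul K (pt 0)
  rw [horb] at hcard
  have hx0 : xx ∈ K ⊓ MulAction.stabilizer (Equiv.Perm GolayPt) (pt 0) :=
    ⟨hx, MulAction.mem_stabilizer_iff.2 xx_0⟩
  have hdK : Nat.card K ∣ 10200960 := by rw [← card_fixG1]; exact Subgroup.card_dvd_of_le hK
  have hdK0 : Nat.card ↥(K ⊓ MulAction.stabilizer (Equiv.Perm GolayPt) (pt 0)) ∣ 443520 := by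
    rw [← card_fixG2]; exact Subgroup.card_dvd_of_le hK0
  -- Sylow 23
  obtain ⟨n, hn1, hn2⟩ := sylow_count 23 K sh hs orderOf_sh (by
    intro h
    have := h.trans hdK
    norm_num at this)
  have hN : Nat.card ↥(Subgroup.normalizer
      ((Subgroup.zpowers sh : Subgroup (Equiv.Perm GolayPt)) : Set _) ⊓ K) = 253 := by
    have hle : Subgroup.normalizer ((Subgroup.zpowers sh : Subgroup (Equiv.Perm GolayPt)) : Set _) ⊓ K
        ≤ Subgroup.normalizer ((Subgroup.zpowers sh : Subgroup (Equiv.Perm GolayPt)) : Set _) ⊓ M24 :=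
      inf_le_inf_left _ (hK.trans (fun g hg => (mem_fixG.1 hg).1))
    have d1 := Subgroup.card_dvd_of_le hle
    rw [card_N23] at d1
    have d2 : 23 ∣ Nat.card ↥(Subgroup.normalizer
        ((Subgroup.zpowers sh : Subgroup (Equiv.Perm GolayPt)) : Set _) ⊓ K) := by
      rw [← orderOf_sh]
      exact Subgroup.orderOf_dvd_natCard _ ⟨sh_norm_sh.1, hs⟩
    have d3 : 11 ∣ Nat.card ↥(Subgroup.normalizer
        ((Subgroup.zpowers sh : Subgroup (Equiv.Perm GolayPt)) : Set _) ⊓ K) := by
      rw [← orderOf_xx]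
      exact Subgroup.orderOf_dvd_natCard _ ⟨xx_norm_sh.1, hx⟩
    have d4 : 253 ∣ Nat.card ↥(Subgroup.normalizer
        ((Subgroup.zpowers sh : Subgroup (Equiv.Perm GolayPt)) : Set _) ⊓ K) := by
      have : Nat.Coprime 23 11 := by norm_num
      exact this.mul_dvd_of_dvd_of_dvd d2 d3
    exact Nat.dvd_antisymm d1 d4
  rw [hN] at hn2
  -- Sylow 11
  obtain ⟨n', hn1', hn2'⟩ := sylow_count 11 _ xx hx0 orderOf_xx (by
    intro h
    have := h.trans hdK0
    norm_num at this)
  have hd : Nat.card ↥(Subgroup.normalizer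
      ((Subgroup.zpowers xx : Subgroup (Equiv.Perm GolayPt)) : Set _) ⊓
        (K ⊓ MulAction.stabilizer (Equiv.Perm GolayPt) (pt 0))) = 11 ∨
      Nat.card ↥(Subgroup.normalizer
      ((Subgroup.zpowers xx : Subgroup (Equiv.Perm GolayPt)) : Set _) ⊓
        (K ⊓ MulAction.stabilizer (Equiv.Perm GolayPt) (pt 0))) = 55 := by
    have d1 := Subgroup.card_dvd_of_le (inf_le_inf_left (Subgroup.normalizer
      ((Subgroup.zpowers xx : Subgroup (Equiv.Perm GolayPt)) : Set _)) hK0)
    rw [card_N11] at d1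
    have d2 : 11 ∣ Nat.card ↥(Subgroup.normalizer
      ((Subgroup.zpowers xx : Subgroup (Equiv.Perm GolayPt)) : Set _) ⊓
        (K ⊓ MulAction.stabilizer (Equiv.Perm GolayPt) (pt 0))) := by
      rw [← orderOf_xx]
      exact Subgroup.orderOf_dvd_natCard _
        ⟨Subgroup.le_normalizer (Subgroup.mem_zpowers xx), hx0⟩
    obtain ⟨c, hc⟩ := d2
    rw [hc] at d1 ⊢
    have h5 : c ∣ 5 := by
      have : 11 * c ∣ 11 * 5 := d1
      exact Nat.dvd_of_mul_dvd_mul_left (by norm_num) this
    rcases (Nat.dvd_prime (by norm_num : Nat.Prime 5)).1 h5 with rfl | rfl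
    · left; rfl
    · right; rfl
  have hA := A7 _ hK0 hx0
  have hk : Nat.card ↥(K ⊓ MulAction.stabilizer (Equiv.Perm GolayPt) (pt 0)) = 11 * n := by omega
  have hn : n = 1 ∨ n = 40320 := by
    apply arith_m
    · rw [hk] at hdK0
      have : 11 * n ∣ 11 * 40320 := hdK0
      exact Nat.dvd_of_mul_dvd_mul_left (by norm_num) this
    · exact hn1
    · rcases hd with hd | hd
      · left
        rw [hd, hk] at hn2'
        have : n = n' := by omega
        rw [this]; exact hn1'
      · right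
        rw [hd, hk] at hn2'
        have : n = 5 * n' := by omega
        rw [this]
        exact ⟨Dvd.intro _ rfl, by rw [Nat.mul_div_cancel_left _ (by norm_num)]; exact hn1'⟩
    · rcases hA with hA | hA
      · left
        have := card_le_of_Q _ hK0 hA
        omega
      · right
        rw [hk] at hA
        exact (Nat.Coprime.dvd_mul_left (by norm_num)).1 hA
  rcases hn with rfl | rfl
  · left; omega
  · right
    apply Subgroup.eq_of_le_of_card_ge hK
    rw [card_fixG1]
    omega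

/-- overgroups of `L₂(23)`. -/
theorem M24max (K : Subgroup (Equiv.Perm GolayPt)) (hK : K ≤ M24) (hs : sh ∈ K)
    (hx : xx ∈ K) (hg : ∃ g ∈ K, g (pt 23) = pt 0) : Nat.card K = 6072 ∨ K = M24 := by
  have hK1 : K ⊓ MulAction.stabilizer (Equiv.Perm GolayPt) (pt 23) ≤ fixG [23] := by
    rw [fixG_cons, fixG_nil]; exact inf_le_inf_right _ hK
  have horb : (MulAction.orbit K (pt 23)).ncard = 24 := by
    have : MulAction.orbit K (pt 23) = Set.univ := by
      ext p
      simp only [Set.mem_univ, iff_true]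
      by_cases hp : p = pt 23
      · rw [hp]; exact MulAction.mem_orbit_self _
      · have hlt : enc p < 23 := by
          have := enc_lt p
          by_contra h3
          have h4 : enc p = 23 := by omega
          exact hp (by rw [← pt_enc p, h4])
        obtain ⟨g, hgK, hg0⟩ := hg
        refine ⟨⟨sh ^ enc p * g, K.mul_mem (K.pow_mem hs _) hgK⟩, ?_⟩
        show (sh ^ enc p * g) (pt 23) = p
        rw [Equiv.Perm.mul_apply, hg0, sh_pow_apply _ (by norm_num), Nat.zero_add,
          Nat.mod_eq_of_lt hlt, pt_enc]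
    rw [this, Set.ncard_univ, Nat.card_eq_fintype_card, card_golayPt]
  have hcard := card_eq_orbit_mul K (pt 23)
  rw [horb] at hcard
  rcases M23max _ hK1 ⟨hs, MulAction.mem_stabilizer_iff.2 sh_23⟩
    ⟨hx, MulAction.mem_stabilizer_iff.2 xx_23⟩ with h | h
  · left; omega
  · right
    apply Subgroup.eq_of_le_of_card_ge hK
    rw [h, card_fixG1] at hcard
    rw [card_M24]
    omega

end Cfsg.Agent.Lib.Helper94.M22O
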