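import Mathlib

/-!
# A rank inequality for permutation modules

For two permutations `x`, `y` of a finite set, the numbers of orbits of `x`, `y`, `x * y`
(measured as dimensions of fixed spaces in the rational permutation module) add up to at most
`n + 2 * o`, where `o` bounds the number of orbits of the group generated by `x` and `y`.
-/

set_option autoImplicit false
set_option linter.unusedSectionVars false

namespace Cfsg.Agent.Lib.Helper94.Scott

open Module

section linear

variable {k V : Type*} [Field k] [AddCommGroup V] [Module k V] [FiniteDimensional k V]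

/-- the two-term form of the rank inequality. -/
theorem scott2 (a b : V →ₗ[k] V) :
    finrank k (LinearMap.ker (1 - a * b)) +
        finrank k ↥(LinearMap.range (1 - a) ⊔ LinearMap.range (1 - b)) ≤
      finrank k ↥(LinearMap.ker (1 - a) ⊓ LinearMap.ker (1 - b)) +
        finrank k (LinearMap.range (1 - a)) + finrank k (LinearMap.range (1 - b)) := by
  have h1 := LinearMap.finrank_range_add_finrank_ker
    ((1 - b).domRestrict (LinearMap.ker (1 - a * b)))
  have h2 : LinearMap.range ((1 - b).domRestrict (LinearMap.ker (1 - a * b))) ≤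
      LinearMap.range (1 - a) ⊓ LinearMap.range (1 - b) := by
    rintro _ ⟨⟨v, hv⟩, rfl⟩
    rw [LinearMap.mem_ker] at hv
    have hv' : a (b v) = v := by
      have : v - a (b v) = 0 := hv
      exact (sub_eq_zero.1 this).symm
    refine ⟨⟨-(b v), ?_⟩, ⟨v, rfl⟩⟩
    show (-(b v)) - a (-(b v)) = v - b v
    rw [map_neg, hv']
    abel
  have h3 : finrank k (LinearMap.ker ((1 - b).domRestrict (LinearMap.ker (1 - a * b)))) ≤
      finrank k ↥(LinearMap.ker (1 - a) ⊓ LinearMap.ker (1 - b)) := by
    rw [← Submodule.finrank_map_subtype_eq]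
    apply Submodule.finrank_mono
    rintro _ ⟨⟨v, hv⟩, hv2, rfl⟩
    rw [LinearMap.mem_ker] at hv
    have hv' : a (b v) = v := by
      have : v - a (b v) = 0 := hv
      exact (sub_eq_zero.1 this).symm
    have hb : b v = v := by
      have : v - b v = 0 := hv2
      exact (sub_eq_zero.1 this).symm
    refine ⟨?_, ?_⟩
    · show v - a v = 0
      rw [hb] at hv'
      rw [hv', sub_self]
    · show v - b v = 0
      rw [hb, sub_self]
  have h4 := Submodule.finrank_sup_add_finrank_inf_eq (LinearMap.range (1 - a))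
    (LinearMap.range (1 - b))
  have h5 := Submodule.finrank_mono h2
  omega

end linear

section perm

variable {α : Type*} [Fintype α] [DecidableEq α]

/-- the permutation module structure. -/
noncomputable def P (g : Equiv.Perm α) : (α → ℚ) →ₗ[ℚ] (α → ℚ) :=
  LinearMap.funLeft ℚ ℚ (g⁻¹ : Equiv.Perm α)

theorem P_apply (g : Equiv.Perm α) (v : α → ℚ) (i : α) : P g v i = v (g⁻¹ i) := rfl

theorem P_mul (g h : Equiv.Perm α) : P (g * h) = P g * P h := by
  refine LinearMap.ext fun v => funext fun i => ?_
  show v ((g * h)⁻¹ i) = v (h⁻¹ (g⁻¹ i))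
  rw [mul_inv_rev, Equiv.Perm.mul_apply]

theorem P_mul_apply (g h : Equiv.Perm α) (v : α → ℚ) : P (g * h) v = P g (P h v) := by
  rw [P_mul]; rfl

theorem P_one_apply (v : α → ℚ) : P (1 : Equiv.Perm α) v = v := by
  funext i
  show v ((1 : Equiv.Perm α)⁻¹ i) = v i
  rw [inv_one, Equiv.Perm.one_apply]

theorem P_single (g : Equiv.Perm α) (i : α) :
    P g (Pi.single i 1) = Pi.single (g i) 1 := by
  funext j
  rw [P_apply, Pi.single_apply, Pi.single_apply]
  by_cases h : j = g i
  · rw [if_pos h, if_pos (Equiv.Perm.inv_eq_iff_eq.2 h)]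
  · rw [if_neg h, if_neg (fun h' => h (Equiv.Perm.inv_eq_iff_eq.1 h'))]

/-- number of orbits of `g`, as a dimension. -/
noncomputable def c (g : Equiv.Perm α) : ℕ := finrank ℚ (LinearMap.ker (1 - P g))

theorem mem_ker_iff (g : Equiv.Perm α) (v : α → ℚ) : v ∈ LinearMap.ker (1 - P g) ↔ P g v = v := by
  rw [LinearMap.mem_ker]
  show v - P g v = 0 ↔ _
  rw [sub_eq_zero]
  exact eq_comm

theorem fixed_of_mem_closure {x y : Equiv.Perm α} {v : α → ℚ} (hx : P x v = v) (hy : P y v = v)
    {g : Equiv.Perm α} (hg : g ∈ Subgroup.closure {x, y}) : P g v = v := by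
  induction hg using Subgroup.closure_induction with
  | mem a ha =>
    rcases ha with rfl | ha
    · exact hx
    · rw [Set.mem_singleton_iff.1 ha]; exact hy
  | one => exact P_one_apply v
  | mul a b _ _ iha ihb => rw [P_mul_apply, ihb, iha]
  | inv a _ iha =>
    calc P a⁻¹ v = P a⁻¹ (P a v) := by rw [iha]
      _ = v := by rw [← P_mul_apply, inv_mul_cancel, P_one_apply]

theorem finrank_fixed_le {x y : Equiv.Perm α} (S : Finset α)
    (hS : ∀ i, ∃ g ∈ Subgroup.closure {x, y}, ∃ s ∈ S, g s = i) :
    finrank ℚ ↥(LinearMap.ker (1 - P x) ⊓ LinearMap.ker (1 - P y)) ≤ S.card := by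
  have h1 : finrank ℚ (S → ℚ) = S.card := by
    rw [Module.finrank_fintype_fun_eq_card, Fintype.card_coe]
  rw [← h1]
  apply LinearMap.finrank_le_finrank_of_injective
    (f := (LinearMap.funLeft ℚ ℚ (fun s : S => (s : α))).domRestrict _)
  rw [← LinearMap.ker_eq_bot, LinearMap.ker_eq_bot']
  rintro ⟨v, hv⟩ h0
  apply Subtype.ext
  show v = 0
  have hx := (mem_ker_iff x v).1 hv.1
  have hy := (mem_ker_iff y v).1 hv.2
  funext i
  obtain ⟨g, hg, s, hs, rfl⟩ := hS i
  have h2 := fixed_of_mem_closure hx hy (Subgroup.inv_mem _ hg)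
  have h3 : P g⁻¹ v s = v (g s) := by rw [P_apply, inv_inv]
  rw [← h3, h2]
  exact congrFun h0 ⟨s, hs⟩

theorem diff_mem {x y : Equiv.Perm α} {g : Equiv.Perm α} (hg : g ∈ Subgroup.closure {x, y}) :
    ∀ i, (Pi.single (g i) 1 - Pi.single i 1 : α → ℚ) ∈
      LinearMap.range (1 - P x) ⊔ LinearMap.range (1 - P y) := by
  induction hg using Subgroup.closure_induction with
  | mem a ha =>
    intro i
    rcases ha with rfl | ha
    · apply Submodule.mem_sup_left
      refine ⟨-(Pi.single i 1), ?_⟩
      show -(Pi.single i 1) - P a (-(Pi.single i 1)) = _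
      rw [map_neg, P_single]
      abel
    · rw [Set.mem_singleton_iff.1 ha]
      apply Submodule.mem_sup_right
      refine ⟨-(Pi.single i 1), ?_⟩
      show -(Pi.single i 1) - P y (-(Pi.single i 1)) = _
      rw [map_neg, P_single]
      abel
  | one => intro i; rw [Equiv.Perm.one_apply, sub_self]; exact Submodule.zero_mem _
  | mul a b _ _ iha ihb =>
    intro i
    have := Submodule.add_mem _ (iha (b i)) (ihb i)
    rw [sub_add_sub_cancel] at this
    exact this
  | inv a _ iha =>
    intro i
    have := Submodule.neg_mem _ (iha (a⁻¹ i))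
    rw [neg_sub, ← Equiv.Perm.mul_apply, mul_inv_cancel, Equiv.Perm.one_apply] at this
    exact this

theorem card_le_finrank_add {x y : Equiv.Perm α} (S : Finset α)
    (hS : ∀ i, ∃ g ∈ Subgroup.closure {x, y}, ∃ s ∈ S, g s = i) :
    Fintype.card α ≤
      finrank ℚ ↥(LinearMap.range (1 - P x) ⊔ LinearMap.range (1 - P y)) + S.card := by
  have htop : (⊤ : Submodule ℚ (α → ℚ)) ≤ (LinearMap.range (1 - P x) ⊔ LinearMap.range (1 - P y)) ⊔
      Submodule.span ℚ ((S.image fun s => (Pi.single s 1 : α → ℚ) : Finset (α → ℚ)) : Set (α → ℚ)) := by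
    intro v _
    have hv : v = ∑ i, v i • (Pi.single i 1 : α → ℚ) := by
      funext j
      rw [Finset.sum_apply]
      simp [Pi.single_apply]
    rw [hv]
    apply Submodule.sum_mem
    intro i _
    apply Submodule.smul_mem
    obtain ⟨g, hg, s, hs, rfl⟩ := hS i
    have h1 : (Pi.single (g s) 1 : α → ℚ) = (Pi.single (g s) 1 - Pi.single s 1) + Pi.single s 1 := by
      abel
    rw [h1]
    apply Submodule.add_mem
    · exact Submodule.mem_sup_left (diff_mem hg s)
    · apply Submodule.mem_sup_right
      apply Submodule.subset_span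
      exact Finset.mem_coe.2 (Finset.mem_image_of_mem _ hs)
  have h1 := Submodule.finrank_mono htop
  rw [finrank_top, Module.finrank_fintype_fun_eq_card] at h1
  have h2 := Submodule.finrank_add_le_finrank_add_finrank
    (LinearMap.range (1 - P x) ⊔ LinearMap.range (1 - P y))
    (Submodule.span ℚ ((S.image fun s => (Pi.single s 1 : α → ℚ) : Finset (α → ℚ)) : Set (α → ℚ)))
  have h3 : finrank ℚ (Submodule.span ℚ
      ((S.image fun s => (Pi.single s 1 : α → ℚ) : Finset (α → ℚ)) : Set (α → ℚ))) ≤ _ :=
    finrank_span_finset_le_card (R := ℚ) (S.image fun s => (Pi.single s 1 : α → ℚ))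
  have h4 : (S.image fun s => (Pi.single s 1 : α → ℚ)).card ≤ S.card := Finset.card_image_le
  omega

/-- the orbit-counting inequality. -/
theorem ree {x y : Equiv.Perm α} (S : Finset α)
    (hS : ∀ i, ∃ g ∈ Subgroup.closure {x, y}, ∃ s ∈ S, g s = i) :
    c x + c y + c (x * y) ≤ Fintype.card α + 2 * S.card := by
  have h1 := scott2 (P x) (P y)
  rw [← P_mul] at h1
  have h2 := finrank_fixed_le S hS
  have h3 := card_le_finrank_add S hS
  have h4 := LinearMap.finrank_range_add_finrank_ker (1 - P x)
  have h5 := LinearMap.finrank_range_add_finrank_ker (1 - P y)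
  rw [Module.finrank_fintype_fun_eq_card] at h4 h5
  unfold c
  omega

/-- lower bound for the number of orbits of an element of prime order. -/
theorem c_ge {g : Equiv.Perm α} {p : ℕ} (hg : orderOf g = p) (F : Finset α)
    (hF : ∀ i ∈ F, g i = i) : Fintype.card α + (p - 1) * F.card ≤ c g * p := by
  classical
  have hB := MulAction.sum_card_fixedBy_eq_card_orbits_mul_card_group (Subgroup.zpowers g) α
  have hZ : Fintype.card (Subgroup.zpowers g) = p := by
    rw [Fintype.card_zpowers, hg]
  rw [hZ] at hB
  have hle : Fintype.card (Quotient (MulAction.orbitRel (Subgroup.zpowers g) α)) ≤ c g := by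
    rw [← Module.finrank_fintype_fun_eq_card ℚ]
    have hinj : Function.Injective (LinearMap.funLeft ℚ ℚ
        (Quotient.mk (MulAction.orbitRel (Subgroup.zpowers g) α))) :=
      LinearMap.funLeft_injective_of_surjective ℚ ℚ _ Quotient.mk_surjective
    rw [← LinearMap.finrank_range_of_inj hinj]
    apply Submodule.finrank_mono
    rintro _ ⟨w, rfl⟩
    rw [mem_ker_iff]
    funext i
    show w (Quotient.mk _ (g⁻¹ i)) = w (Quotient.mk _ i)
    congr 1
    apply Quotient.sound
    exact ⟨⟨g⁻¹, Subgroup.inv_mem _ (Subgroup.mem_zpowers g)⟩, rfl⟩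
  have hsum : Fintype.card α + (p - 1) * F.card ≤
      ∑ a : Subgroup.zpowers g, Fintype.card (MulAction.fixedBy α a) := by
    rw [← Finset.add_sum_erase Finset.univ _ (Finset.mem_univ (1 : Subgroup.zpowers g))]
    apply Nat.add_le_add
    · apply le_of_eq
      apply Fintype.card_congr
      exact (Equiv.subtypeUnivEquiv (fun i => by simp)).symm
    · have hc : (Finset.univ.erase (1 : Subgroup.zpowers g)).card = p - 1 := by
        rw [Finset.card_erase_of_mem (Finset.mem_univ _), Finset.card_univ, hZ]
      rw [← hc, ← smul_eq_mul]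
      apply Finset.card_nsmul_le_sum
      intro a _
      rw [← Fintype.card_coe]
      apply Fintype.card_le_of_injective (fun i : F => (⟨i.1, by
        obtain ⟨k, hk⟩ := Subgroup.mem_zpowers_iff.1 a.2
        show (a : Equiv.Perm α) i.1 = i.1
        rw [← hk]
        exact Equiv.Perm.zpow_apply_eq_self_of_apply_eq_self (hF i.1 i.2) k⟩ :
          MulAction.fixedBy α a))
      intro i j hij
      exact Subtype.ext (congrArg (fun t : MulAction.fixedBy α a => (t : α)) hij)
  calc Fintype.card α + (p - 1) * F.card ≤ _ := hsum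
    _ = _ := hB
    _ ≤ c g * p := Nat.mul_le_mul_right _ hle

end perm

end Cfsg.Agent.Lib.Helper94.Scott
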